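import Mathlib
import Cfsg.Agent.Lib.Helper10.BR0

/-!
# Brauer–Reynolds Theorem 1 (S4700): foundation definitions

`III n p` is the arithmetic alternative (III); `PreC` is the block-level data of the principal
block when (III) fails (degrees `1 + n p`, `p - 1`, `(p - 1) (1 + n p)` for the non-exceptional
characters); `GTab` is the character table data in the self-centralizing case with general `n`.
-/

set_option autoImplicit false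

namespace Cfsg.Agent.Lib.Helper10.BT

open Cfsg
open Cfsg.Agent.Lib.Helper83 (trivIrr)

universe u

/-- Alternative (III) of Brauer–Reynolds Theorem 1. -/
def III (n p : ℕ) : Prop :=
  ∃ h u : ℕ, 0 < h ∧ 0 < u ∧ n * (u + 1) = h * u * p + u ^ 2 + u + h

/-- Block-level data: the principal block is `{1} ∪ A ∪ B ∪ C ∪ Y`; members of `A` have degree
`1 + n p` and value `1` on `(P \ {1}) × V`, members of `B` have degree `p - 1` and value `-1`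
there, members of `C` have degree `(p - 1) (1 + n p)`, the `t` members of `Y` have degree `x₀`
and agree on `p`-regular elements. -/
structure PreC (G : Type u) [Group G] (p : ℕ) (M : Ideal AlgInt) (P : Subgroup G)
    (e t n : ℕ) (ε : ℤ) (x₀ : ℕ) (A B C Y : Finset (IrrCharacter G)) : Prop where
  block : principalBlock M G = {ψ | ψ = trivIrr G ∨ ψ ∈ A ∨ ψ ∈ B ∨ ψ ∈ C ∨ ψ ∈ Y}
  triv_nmem : trivIrr G ∉ A ∧ trivIrr G ∉ B ∧ trivIrr G ∉ C ∧ trivIrr G ∉ Y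
  disj : Disjoint A B ∧ Disjoint A C ∧ Disjoint A Y ∧ Disjoint B C ∧ Disjoint B Y ∧ Disjoint C Y
  degA : ∀ χ ∈ A, (χ : G → ℂ) 1 = ((1 + n * p : ℕ) : ℂ)
  valA : ∀ χ ∈ A, ∀ x ∈ P, x ≠ 1 → ∀ y ∈ Subgroup.centralizer (P : Set G), ¬ p ∣ orderOf y →
    (χ : G → ℂ) (x * y) = 1
  degB : ∀ χ ∈ B, (χ : G → ℂ) 1 = ((p - 1 : ℕ) : ℂ)
  valB : ∀ χ ∈ B, ∀ x ∈ P, x ≠ 1 → ∀ y ∈ Subgroup.centralizer (P : Set G), ¬ p ∣ orderOf y →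
    (χ : G → ℂ) (x * y) = -1
  degC : ∀ χ ∈ C, (χ : G → ℂ) 1 = (((p - 1) * (1 + n * p) : ℕ) : ℂ)
  tC : C.Nonempty → t = 1
  cardABC : A.card + B.card + C.card = e - 1
  cardY : Y.card = t
  degY : ∀ θ ∈ Y, (θ : G → ℂ) 1 = (x₀ : ℂ)
  x₀_ge : 2 ≤ x₀
  regY : ∀ θ ∈ Y, ∀ θ' ∈ Y, ∀ g : G, ¬ p ∣ orderOf g → (θ : G → ℂ) g = (θ' : G → ℂ) g
  t1 : ∀ θ ∈ Y, ∀ g : G, ¬ p ∣ orderOf g →
    (ε : ℂ) * (θ : G → ℂ) g = 1 + ∑ χ ∈ A, (χ : G → ℂ) g - ∑ χ ∈ B, (χ : G → ℂ) g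
      - ∑ χ ∈ C, (χ : G → ℂ) g
  hε : ε = 1 ∨ ε = -1
  modY : (x₀ : ℤ) ≡ ε * (e : ℤ) [ZMOD p]
  sumY : ∀ x ∈ P, x ≠ 1 → ∑ θ ∈ Y, (θ : G → ℂ) x = -(ε : ℂ)
  dvdY : x₀ ∣ (1 + n * p) * e

/-- Character-table data in the self-centralizing case, general `n`: `C_G(P) = P`,
`|N_G(P)| = e p`, `e t = p - 1`, `|G| = (1 + n p) e p`; `Irr(G) = {1} ⊔ A ⊔ B ⊔ Y ⊔ D` with
`A`: degree `1 + n p`, value `1` on `P \ {1}`; `B`: degree `p - 1`, value `-1` on `P \ {1}`;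
`Y`: `t` characters of degree `x₀` agreeing on `p`-regular elements; `D`: degree divisible by
`p`, vanishing on `P \ {1}`. -/
structure GTab (G : Type u) [Group G] (p e t n : ℕ) (P : Subgroup G)
    (ε : ℤ) (x₀ : ℕ) (A B Y D : Finset (IrrCharacter G)) : Prop where
  hp : p.Prime
  he : 2 ≤ e
  ht : 1 ≤ t
  het : e * t = p - 1
  hn : 1 ≤ n
  cardP : Nat.card P = p
  cent : Subgroup.centralizer (P : Set G) = P
  cardN : Nat.card (Subgroup.normalizer (P : Set G)) = e * p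
  cardG : Nat.card G = (1 + n * p) * (e * p)
  part : ∀ ψ : IrrCharacter G, ψ = trivIrr G ∨ ψ ∈ A ∨ ψ ∈ B ∨ ψ ∈ Y ∨ ψ ∈ D
  triv_nmem : trivIrr G ∉ A ∧ trivIrr G ∉ B ∧ trivIrr G ∉ Y ∧ trivIrr G ∉ D
  disj : Disjoint A B ∧ Disjoint A Y ∧ Disjoint A D ∧ Disjoint B Y ∧ Disjoint B D ∧ Disjoint Y D
  degA : ∀ χ ∈ A, (χ : G → ℂ) 1 = ((1 + n * p : ℕ) : ℂ)
  valA : ∀ χ ∈ A, ∀ x ∈ P, x ≠ 1 → (χ : G → ℂ) x = 1
  degB : ∀ χ ∈ B, (χ : G → ℂ) 1 = ((p - 1 : ℕ) : ℂ)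
  valB : ∀ χ ∈ B, ∀ x ∈ P, x ≠ 1 → (χ : G → ℂ) x = -1
  cardAB : A.card + B.card = e - 1
  cardY : Y.card = t
  degY : ∀ θ ∈ Y, (θ : G → ℂ) 1 = (x₀ : ℂ)
  x₀_ge : 2 ≤ x₀
  regY : ∀ θ ∈ Y, ∀ θ' ∈ Y, ∀ g : G, ¬ p ∣ orderOf g → (θ : G → ℂ) g = (θ' : G → ℂ) g
  t1 : ∀ θ ∈ Y, ∀ g : G, ¬ p ∣ orderOf g →
    (ε : ℂ) * (θ : G → ℂ) g = 1 + ∑ χ ∈ A, (χ : G → ℂ) g - ∑ χ ∈ B, (χ : G → ℂ) g
  hε : ε = 1 ∨ ε = -1
  modY : (x₀ : ℤ) ≡ ε * (e : ℤ) [ZMOD p]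
  sumY : ∀ x ∈ P, x ≠ 1 → ∑ θ ∈ Y, (θ : G → ℂ) x = -(ε : ℂ)
  degD : ∀ ψ ∈ D, ∃ k : ℕ, (ψ : G → ℂ) 1 = ((p * k : ℕ) : ℂ)
  valD : ∀ ψ ∈ D, ∀ x ∈ P, x ≠ 1 → (ψ : G → ℂ) x = 0

/-- Splitting a sum over all irreducible characters along the partition of `GTab`. -/
theorem GTab.sum_split {G : Type u} [Group G] {p e t n : ℕ} {P : Subgroup G} {ε : ℤ} {x₀ : ℕ}
    {A B Y D : Finset (IrrCharacter G)} (h : GTab G p e t n P ε x₀ A B Y D)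
    [Fintype (IrrCharacter G)] {R : Type*} [AddCommMonoid R] (f : IrrCharacter G → R) :
    ∑ ψ, f ψ = f (trivIrr G) + ∑ ψ ∈ A, f ψ + ∑ ψ ∈ B, f ψ + ∑ ψ ∈ Y, f ψ + ∑ ψ ∈ D, f ψ := by
  classical
  obtain ⟨hA, hB, hY, hD⟩ := h.triv_nmem
  obtain ⟨hAB, hAY, hAD, hBY, hBD, hYD⟩ := h.disj
  have huniv : (Finset.univ : Finset (IrrCharacter G)) =
      insert (trivIrr G) (((A ∪ B) ∪ Y) ∪ D) := by
    ext ψ
    simp only [Finset.mem_univ, Finset.mem_insert, Finset.mem_union, true_iff]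
    rcases h.part ψ with h1 | h1 | h1 | h1 | h1 <;> tauto
  rw [huniv, Finset.sum_insert (by simp [hA, hB, hY, hD]), Finset.sum_union, Finset.sum_union,
    Finset.sum_union hAB]
  · simp only [add_assoc]
  · exact Finset.disjoint_union_left.mpr ⟨hAY, hBY⟩
  · exact Finset.disjoint_union_left.mpr ⟨Finset.disjoint_union_left.mpr ⟨hAD, hBD⟩, hYD⟩

end Cfsg.Agent.Lib.Helper10.BT
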