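import Mathlib
import Cfsg.Agent.Lib.Helper10.BT0
import Cfsg.Agent.Lib.Helper83.Ortho

/-!
# S4700 (Brauer–Reynolds Theorem 1), piece BT-X1: `exists_preC`

From the bundled conclusion `DOut` of the cyclic-defect theory to the block-level structure
`PreC` (adapted from helper66's `BR.exists_pre_of`).
-/

set_option autoImplicit false

namespace Cfsg.Agent.Lib.Helper10.BT

open Cfsg
open Cfsg.Agent.Lib.Helper83 (trivIrr)
open Cfsg.Agent.Lib.Helper10.BR (psum DOut Tab)
open scoped ComplexConjugate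

/-- BT-X1 -/
theorem exists_preC {G : Type*} [Group G] [Fintype G] (p : ℕ) [Fact p.Prime]
    (M : Ideal AlgInt) (hM : IsPModular p M) (P : Sylow p G) (hP : Nat.card P = p)
    (e t n : ℕ) (he2 : 2 ≤ e) (het : e * t = p - 1)
    (X Y : Set (IrrCharacter G)) (εX : IrrCharacter G → ℤ) (ε : ℤ)
    (hD : DOut G p M (P : Subgroup G) e X Y εX ε)
    (htriv : trivIrr G ∈ X ∧ εX (trivIrr G) = 1)
    (hdeg2 : ∀ χ : IrrCharacter G, χ ≠ trivIrr G → 2 ≤ charDegree (χ : G → ℂ))
    (hdegX : ∀ χ ∈ X, charDegree (χ : G → ℂ) ∣ (1 + n * p) * e)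
    (hdegY : ∀ θ ∈ Y, charDegree (θ : G → ℂ) ∣ (1 + n * p) * e)
    (hsumY : ∀ x ∈ (P : Subgroup G), x ≠ 1 → ∑ᶠ θ ∈ Y, (θ : G → ℂ) x = -(ε : ℂ))
    (harith : ∀ (d : ℕ) (s : ℤ), 2 ≤ d → d ∣ (1 + n * p) * e → (s = 1 ∨ s = -1) →
      (d : ℤ) ≡ s [ZMOD p] →
      (s = 1 ∧ d = 1 + n * p) ∨ (s = -1 ∧ d = p - 1) ∨
        (s = -1 ∧ d = (p - 1) * (1 + n * p) ∧ t = 1)) :
    ∃ (x₀ : ℕ) (A B C Yf : Finset (IrrCharacter G)),
      PreC G p M (P : Subgroup G) e t n ε x₀ A B C Yf := by
  classical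
  have hp : p.Prime := Fact.out
  have he0 : 0 < e := by omega
  have ht : 1 ≤ t := by
    rcases Nat.eq_zero_or_pos t with h | h
    · rw [h, mul_zero] at het
      have := hp.two_le
      omega
    · exact h
  have hcardY : Nat.card Y = t := by
    rw [hD.cardY, ← het, Nat.mul_div_cancel_left t he0]
  have hXfin : X.Finite := by
    have h0 : Nat.card X ≠ 0 := by
      rw [hD.cardX]
      omega
    exact Set.finite_coe_iff.mp (Nat.finite_of_card_ne_zero h0)
  have hYfin : Y.Finite := by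
    have h0 : Nat.card Y ≠ 0 := by
      rw [hcardY]
      omega
    exact Set.finite_coe_iff.mp (Nat.finite_of_card_ne_zero h0)
  obtain ⟨θ₀, hθ₀⟩ : Y.Nonempty := by
    rw [Set.nonempty_iff_ne_empty]
    intro h
    rw [h] at hcardY
    simp at hcardY
    omega
  have hone : ¬ p ∣ orderOf (1 : G) := by
    rw [orderOf_one, Nat.dvd_one]
    exact hp.one_lt.ne'
  have htrivY : trivIrr G ∉ Y := fun h => Set.disjoint_left.mp hD.disj htriv.1 h
  have hθ₀ne : θ₀ ≠ trivIrr G := fun h => htrivY (h ▸ hθ₀)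
  have hXfacts : ∀ χ ∈ X, χ ≠ trivIrr G →
      (εX χ = 1 ∧ charDegree (χ : G → ℂ) = 1 + n * p) ∨
        (εX χ = -1 ∧ charDegree (χ : G → ℂ) = p - 1) ∨
        (εX χ = -1 ∧ charDegree (χ : G → ℂ) = (p - 1) * (1 + n * p) ∧ t = 1) := by
    intro χ hχ hne'
    exact harith _ _ (hdeg2 χ hne') (hdegX χ hχ) (hD.signX χ hχ) (hD.degX χ hχ)
  set A : Finset (IrrCharacter G) :=
    hXfin.toFinset.filter (fun χ => χ ≠ trivIrr G ∧ εX χ = 1) with hA
  set B : Finset (IrrCharacter G) :=
    hXfin.toFinset.filter (fun χ => χ ≠ trivIrr G ∧ εX χ = -1 ∧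
      charDegree (χ : G → ℂ) = p - 1) with hB
  set C : Finset (IrrCharacter G) :=
    hXfin.toFinset.filter (fun χ => χ ≠ trivIrr G ∧ εX χ = -1 ∧
      charDegree (χ : G → ℂ) ≠ p - 1) with hC
  have memA : ∀ χ, χ ∈ A ↔ χ ∈ X ∧ χ ≠ trivIrr G ∧ εX χ = 1 := by
    intro χ
    rw [hA, Finset.mem_filter, Set.Finite.mem_toFinset]
  have memB : ∀ χ, χ ∈ B ↔ χ ∈ X ∧ χ ≠ trivIrr G ∧ εX χ = -1 ∧
      charDegree (χ : G → ℂ) = p - 1 := by
    intro χ
    rw [hB, Finset.mem_filter, Set.Finite.mem_toFinset]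
  have memC : ∀ χ, χ ∈ C ↔ χ ∈ X ∧ χ ≠ trivIrr G ∧ εX χ = -1 ∧
      charDegree (χ : G → ℂ) ≠ p - 1 := by
    intro χ
    rw [hC, Finset.mem_filter, Set.Finite.mem_toFinset]
  have memY : ∀ χ, χ ∈ hYfin.toFinset ↔ χ ∈ Y := fun χ => Set.Finite.mem_toFinset hYfin
  have hAB : Disjoint A B := by
    rw [Finset.disjoint_left]
    intro χ h1 h2
    have e1 := ((memA χ).mp h1).2.2
    have e2 := ((memB χ).mp h2).2.2.1
    rw [e1] at e2
    exact absurd e2 (by norm_num)
  have hAC : Disjoint A C := by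
    rw [Finset.disjoint_left]
    intro χ h1 h2
    have e1 := ((memA χ).mp h1).2.2
    have e2 := ((memC χ).mp h2).2.2.1
    rw [e1] at e2
    exact absurd e2 (by norm_num)
  have hBC : Disjoint B C := by
    rw [Finset.disjoint_left]
    intro χ h1 h2
    exact ((memC χ).mp h2).2.2.2 ((memB χ).mp h1).2.2.2
  have hABC : Disjoint (A ∪ B) C := Finset.disjoint_union_left.mpr ⟨hAC, hBC⟩
  have hXeq : hXfin.toFinset = insert (trivIrr G) ((A ∪ B) ∪ C) := by
    ext χ
    rw [Set.Finite.mem_toFinset, Finset.mem_insert, Finset.mem_union, Finset.mem_union, memA,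
      memB, memC]
    constructor
    · intro hχ
      by_cases hne' : χ = trivIrr G
      · left
        exact hne'
      · rcases hD.signX χ hχ with h | h
        · right; left; left
          exact ⟨hχ, hne', h⟩
        · by_cases hd : charDegree (χ : G → ℂ) = p - 1
          · right; left; right
            exact ⟨hχ, hne', h, hd⟩
          · right; right
            exact ⟨hχ, hne', h, hd⟩
    · rintro (h | (h | h) | h)
      · rw [h]
        exact htriv.1
      · exact h.1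
      · exact h.1
      · exact h.1
  have htrivABC : trivIrr G ∉ (A ∪ B) ∪ C := by
    rw [Finset.mem_union, Finset.mem_union, memA, memB, memC]
    rintro ((h | h) | h)
    · exact h.2.1 rfl
    · exact h.2.1 rfl
    · exact h.2.1 rfl
  have hdegθ : ∀ θ ∈ Y, (θ : G → ℂ) 1 = (charDegree (θ₀ : G → ℂ) : ℂ) := by
    intro θ hθ
    rw [hD.regY θ hθ θ₀ hθ₀ 1 hone, (Cfsg.Agent.Lib.Helper83.irr_degree θ₀.2).2]
  refine ⟨charDegree (θ₀ : G → ℂ), A, B, C, hYfin.toFinset, ?_⟩
  refine { block := ?_, triv_nmem := ?_, disj := ?_, degA := ?_, valA := ?_, degB := ?_,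
           valB := ?_, degC := ?_, tC := ?_, cardABC := ?_, cardY := ?_, degY := ?_,
           x₀_ge := ?_, regY := ?_, t1 := ?_, hε := hD.signY, modY := hD.degY θ₀ hθ₀,
           sumY := ?_, dvdY := hdegY θ₀ hθ₀ }
  · rw [hD.block]
    ext ψ
    simp only [Set.mem_union, Set.mem_ofPred_eq, memA, memB, memC, memY]
    constructor
    · rintro (h | h)
      · by_cases hne' : ψ = trivIrr G
        · left
          exact hne'
        · rcases hD.signX ψ h with h' | h'
          · right; left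
            exact ⟨h, hne', h'⟩
          · by_cases hd : charDegree (ψ : G → ℂ) = p - 1
            · right; right; left
              exact ⟨h, hne', h', hd⟩
            · right; right; right; left
              exact ⟨h, hne', h', hd⟩
      · right; right; right; right
        exact h
    · rintro (h | h | h | h | h)
      · left
        rw [h]
        exact htriv.1
      · left
        exact h.1
      · left
        exact h.1
      · left
        exact h.1
      · right
        exact h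
  · exact ⟨fun h => ((memA _).mp h).2.1 rfl, fun h => ((memB _).mp h).2.1 rfl,
      fun h => ((memC _).mp h).2.1 rfl, fun h => htrivY ((memY _).mp h)⟩
  · refine ⟨hAB, hAC, ?_, hBC, ?_, ?_⟩
    · rw [Finset.disjoint_left]
      intro χ h1 h2
      exact Set.disjoint_left.mp hD.disj ((memA χ).mp h1).1 ((memY χ).mp h2)
    · rw [Finset.disjoint_left]
      intro χ h1 h2
      exact Set.disjoint_left.mp hD.disj ((memB χ).mp h1).1 ((memY χ).mp h2)
    · rw [Finset.disjoint_left]
      intro χ h1 h2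
      exact Set.disjoint_left.mp hD.disj ((memC χ).mp h1).1 ((memY χ).mp h2)
  · intro χ hχ
    obtain ⟨hX, hne', hε1⟩ := (memA χ).mp hχ
    rcases hXfacts χ hX hne' with h | h | h
    · rw [(Cfsg.Agent.Lib.Helper83.irr_degree χ.2).2, h.2]
    · rw [hε1] at h
      exact absurd h.1 (by norm_num)
    · rw [hε1] at h
      exact absurd h.1 (by norm_num)
  · intro χ hχ x hx hx1 y hy hyp
    obtain ⟨hX, hne', hε1⟩ := (memA χ).mp hχ
    rw [hD.valX χ hX x hx hx1 y hy hyp, hε1, Int.cast_one]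
  · intro χ hχ
    obtain ⟨hX, hne', hε1, hd⟩ := (memB χ).mp hχ
    rw [(Cfsg.Agent.Lib.Helper83.irr_degree χ.2).2, hd]
  · intro χ hχ x hx hx1 y hy hyp
    obtain ⟨hX, hne', hε1, hd⟩ := (memB χ).mp hχ
    rw [hD.valX χ hX x hx hx1 y hy hyp, hε1, Int.cast_neg, Int.cast_one]
  · intro χ hχ
    obtain ⟨hX, hne', hε1, hd⟩ := (memC χ).mp hχ
    rcases hXfacts χ hX hne' with h | h | h
    · rw [hε1] at h
      exact absurd h.1 (by norm_num)
    · exact absurd h.2 hd
    · rw [(Cfsg.Agent.Lib.Helper83.irr_degree χ.2).2, h.2.1]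
  · rintro ⟨χ, hχ⟩
    obtain ⟨hX, hne', hε1, hd⟩ := (memC χ).mp hχ
    rcases hXfacts χ hX hne' with h | h | h
    · rw [hε1] at h
      exact absurd h.1 (by norm_num)
    · exact absurd h.2 hd
    · exact h.2.2
  · have h1 : hXfin.toFinset.card = e := by
      rw [← Set.ncard_eq_toFinset_card X hXfin, ← Nat.card_coe_set_eq, hD.cardX]
    rw [hXeq, Finset.card_insert_of_notMem htrivABC, Finset.card_union_of_disjoint hABC,
      Finset.card_union_of_disjoint hAB] at h1
    omega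
  · rw [← Set.ncard_eq_toFinset_card Y hYfin, ← Nat.card_coe_set_eq, hcardY]
  · intro θ hθ
    exact hdegθ θ ((memY θ).mp hθ)
  · exact hdeg2 θ₀ hθ₀ne
  · intro θ hθ θ' hθ' g hg
    exact hD.regY θ ((memY θ).mp hθ) θ' ((memY θ').mp hθ') g hg
  · intro θ hθ g hg
    rw [hD.t1 θ ((memY θ).mp hθ) g hg, finsum_mem_eq_finite_toFinset_sum _ hXfin, hXeq,
      Finset.sum_insert htrivABC, Finset.sum_union hABC, Finset.sum_union hAB, htriv.2]
    have e1 : ∑ χ ∈ A, (εX χ : ℂ) * (χ : G → ℂ) g = ∑ χ ∈ A, (χ : G → ℂ) g := by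
      apply Finset.sum_congr rfl
      intro χ hχ
      rw [((memA χ).mp hχ).2.2, Int.cast_one, one_mul]
    have e2 : ∑ χ ∈ B, (εX χ : ℂ) * (χ : G → ℂ) g = - ∑ χ ∈ B, (χ : G → ℂ) g := by
      rw [← Finset.sum_neg_distrib]
      apply Finset.sum_congr rfl
      intro χ hχ
      rw [((memB χ).mp hχ).2.2.1, Int.cast_neg, Int.cast_one, neg_one_mul]
    have e3 : ∑ χ ∈ C, (εX χ : ℂ) * (χ : G → ℂ) g = - ∑ χ ∈ C, (χ : G → ℂ) g := by
      rw [← Finset.sum_neg_distrib]
      apply Finset.sum_congr rfl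
      intro χ hχ
      rw [((memC χ).mp hχ).2.2.1, Int.cast_neg, Int.cast_one, neg_one_mul]
    rw [e1, e2, e3, Cfsg.Agent.Lib.Helper83.trivIrr_apply, Int.cast_one, one_mul]
    ring
  · intro x hx hx1
    rw [← hsumY x hx hx1, finsum_mem_eq_finite_toFinset_sum _ hYfin]

end Cfsg.Agent.Lib.Helper10.BT
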