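import Mathlib
import Cfsg.Agent.Lib.Helper4.FCDefs

/-!
# Piece CLAIMX of project FC (helper4, S4146)
-/

namespace Cfsg.Agent.Lib.Helper4.FC

universe u

theorem claimx_helper10_arith (n m p q : ℕ) (hp : p.Prime) (hq : q.Prime)
    (hn : 1 < n) (hm : 1 < m) (hc : n.Coprime m) (h1 : ∃ x y : ℕ, n ∣ q ^ x * p ^ y)
    (h2 : ∃ x y : ℕ, m ∣ p ^ x * q ^ y) :
    ((∃ j : ℕ, n = p ^ j) ∧ (∃ i : ℕ, m = q ^ i)) ∨
      ((∃ j : ℕ, n = q ^ j) ∧ (∃ i : ℕ, m = p ^ i)) := by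
  obtain ⟨x, y, hx⟩ := h1
  obtain ⟨x', y', hx'⟩ := h2
  obtain ⟨n₁, n₂, hn₁, hn₂, hn12⟩ := (Nat.dvd_mul).mp hx
  obtain ⟨m₁, m₂, hm₁, hm₂, hm12⟩ := (Nat.dvd_mul).mp hx'
  obtain ⟨α, -, rfl⟩ := (Nat.dvd_prime_pow hq).mp hn₁
  obtain ⟨β, -, rfl⟩ := (Nat.dvd_prime_pow hp).mp hn₂
  obtain ⟨γ, -, rfl⟩ := (Nat.dvd_prime_pow hp).mp hm₁
  obtain ⟨δ, -, rfl⟩ := (Nat.dvd_prime_pow hq).mp hm₂
  have nocommon : ∀ r : ℕ, r.Prime → r ∣ n → r ∣ m → False := by
    intro r hr h1 h2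
    have h3 := Nat.dvd_gcd h1 h2
    rw [Nat.Coprime] at hc
    rw [hc] at h3
    exact hr.one_lt.ne' (Nat.dvd_one.mp h3)
  rcases Nat.eq_zero_or_pos α with hα | hα
  · subst hα
    rw [pow_zero, one_mul] at hn12
    have hβ : 0 < β := by
      rcases Nat.eq_zero_or_pos β with h | h
      · subst h
        rw [pow_zero] at hn12
        omega
      · exact h
    have hγ : γ = 0 := by
      by_contra hγ
      exact nocommon p hp (by rw [← hn12]; exact dvd_pow_self p hβ.ne')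
        (by rw [← hm12]; exact Dvd.dvd.mul_right (dvd_pow_self p hγ) _)
    subst hγ
    rw [pow_zero, one_mul] at hm12
    exact Or.inl ⟨⟨β, hn12.symm⟩, ⟨δ, hm12.symm⟩⟩
  · have hδ : δ = 0 := by
      by_contra hδ
      exact nocommon q hq (by rw [← hn12]; exact Dvd.dvd.mul_right (dvd_pow_self q hα.ne') _)
        (by rw [← hm12]; exact Dvd.dvd.mul_left (dvd_pow_self q hδ) _)
    subst hδ
    rw [pow_zero, mul_one] at hm12
    have hγ : 0 < γ := by
      rcases Nat.eq_zero_or_pos γ with h | h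
      · subst h
        rw [pow_zero] at hm12
        omega
      · exact h
    have hβ : β = 0 := by
      by_contra hβ
      exact nocommon p hp (by rw [← hn12]; exact Dvd.dvd.mul_left (dvd_pow_self p hβ) _)
        (by rw [← hm12]; exact dvd_pow_self p hγ.ne')
    subst hβ
    rw [pow_zero, mul_one] at hn12
    exact Or.inr ⟨⟨α, hn12.symm⟩, ⟨γ, hm12.symm⟩⟩

theorem fc_claimx : L3Stmt.{u} → L1Stmt.{u} → HalfStmt.{u} → ClaimXStmt.{u} := by
  intro hL3 hL1 hHalf G _ _ n m p q a b hF hp hq hpq hPa ha hPb hb hab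
  have hn1 : 1 < n := hF.1
  have hm1 : 1 < m := hF.2.1
  have hcop : n.Coprime m := hF.2.2.1
  have hord : (orderOf a).Coprime (orderOf b) := by
    obtain ⟨k, hk⟩ := hPa
    obtain ⟨l, hl⟩ := hPb
    rw [hk, hl]
    exact Nat.Coprime.pow k l ((Nat.coprime_primes hp hq).mpr hpq)
  have hcen : Cen (a * b) = Cen a ⊓ Cen b := hL3 G a b hab hord
  have hidx : (Cen a ⊓ Cen b).index = cs a * cs b := hL1 G a b (by rw [ha, hb]; exact hcop)
  have hcs : cs (a * b) = n * m := by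
    show (Cen (a * b)).index = n * m
    rw [hcen, hidx, ha, hb]
  have h1 : ∃ x y : ℕ, n ∣ q ^ x * p ^ y := by
    refine hHalf G n m q p b a hF hq hp hpq hPb hb hPa ?_ ?_
    · rw [Subgroup.mem_centralizer_iff]
      intro h hh
      rw [Set.mem_singleton_iff] at hh
      rw [hh]
      exact hab.symm
    · rw [← hab]
      exact hcs
  have h2 : ∃ x y : ℕ, m ∣ p ^ x * q ^ y := by
    refine hHalf G m n p q a b (four_symm hF) hp hq (Ne.symm hpq) hPa ha hPb ?_ ?_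
    · rw [Subgroup.mem_centralizer_iff]
      intro h hh
      rw [Set.mem_singleton_iff] at hh
      rw [hh]
      exact hab
    · rw [hcs, mul_comm]
  exact claimx_helper10_arith n m p q hp hq hn1 hm1 hcop h1 h2

end Cfsg.Agent.Lib.Helper4.FC
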