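import Mathlib
import Cfsg.Prelude.Def_Sporadic_a
import Cfsg.Prelude.Def_Spor_Conway
import Cfsg.Agent.Lib.Helper10.PairTrans

set_option autoImplicit false

namespace Cfsg.Agent.Lib.Helper10

open Cfsg Cfsg.Agent.Lib.Helper9
open scoped Pointwise

/-! ### Pairs of minimal vectors with inner product `-8` -/

/-- Normal form of a pair of minimal vectors with inner product `-8`, given an auxiliary
vector. -/
theorem nf8 (v w u : leechLattice) (hv : sqNorm (v : GolayPt → ℤ) = 32)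
    (hw : sqNorm (w : GolayPt → ℤ) = 32) (hu : sqNorm (u : GolayPt → ℤ) = 32)
    (hvw : dotInt (v : GolayPt → ℤ) (w : GolayPt → ℤ) = -8)
    (hvu : dotInt (v : GolayPt → ℤ) (u : GolayPt → ℤ) = 0)
    (hwu : dotInt (w : GolayPt → ℤ) (u : GolayPt → ℤ) = -8) :
    ∃ g : Equiv.Perm leechLattice, g ∈ Co0 ∧ ∃ (j : GolayPt) (s : ℤ) (S : Finset GolayPt),
      (s = 4 ∨ s = -4) ∧ S ∈ octads ∧ none ∈ S ∧ j ∉ S ∧
        ((g v : leechLattice) : GolayPt → ℤ) = Pi.single none 4 + Pi.single j s ∧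
        ((g w : leechLattice) : GolayPt → ℤ) none = -2 ∧
        (∀ i ∈ S, ((g w : leechLattice) : GolayPt → ℤ) i ^ 2 = 4) ∧
        ∀ i, i ∉ S → ((g w : leechLattice) : GolayPt → ℤ) i = 0 := by
  obtain ⟨g, hg, hcoord⟩ := frame_of_orth v u hv hu hvu
  have ha4 : ((g v : leechLattice) : GolayPt → ℤ) none = 4 := by
    have := hcoord v
    rw [dotInt_self, hv, hvu] at this
    linarith
  have hb2 : ((g w : leechLattice) : GolayPt → ℤ) none = -2 := by
    have := hcoord w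
    rw [dotInt_comm (w : GolayPt → ℤ) (v : GolayPt → ℤ), hvw, hwu] at this
    linarith
  have hna : sqNorm ((g v : leechLattice) : GolayPt → ℤ) = 32 := by
    rw [hg.2]
    exact hv
  have hnb : sqNorm ((g w : leechLattice) : GolayPt → ℤ) = 32 := by
    rw [hg.2]
    exact hw
  obtain ⟨j, hj, s, hs, ha⟩ := min_four (g v).2 hna ha4
  obtain ⟨S, hS, hnS, hS4, hS0⟩ := min_even (g w).2 hnb (i0 := none) (by rw [hb2]; rfl)
  refine ⟨g, hg, j, s, S, hs, hS, hnS, ?_, ha, hb2, hS4, hS0⟩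
  intro hjS
  have hdot := co0_dot hg v w
  rw [hvw, ha, dotInt_comm, dotInt_add_right, dotInt_single, dotInt_single, hb2] at hdot
  have h4 := hS4 j hjS
  rcases hs with rfl | rfl <;> nlinarith

theorem oct_move_pt2 {S : Finset GolayPt} (hS : S ∈ octads) {p j : GolayPt} (hp : p ∈ S)
    (hj : j ∉ S) :
    ∃ σ ∈ M24, (∀ q, σ q ∈ O0f ↔ q ∈ S) ∧ σ p = none ∧ σ j = some 4 := by
  obtain ⟨g, hg, hgS⟩ := oct_move hS
  obtain ⟨τ, hτ, hτO, hτa, hτj⟩ := oct_trans_pt O0f_mem ((hgS p).mpr hp) none_mem_O0f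
    (fun h => hj ((hgS j).mp h)) four_not_mem_O0f
  have hτmem : ∀ q, τ q ∈ O0f ↔ q ∈ O0f := by
    intro q
    have := Finset.smul_mem_smul_finset_iff (a := τ) (b := q) (s := O0f)
    rw [hτO] at this
    exact this
  refine ⟨τ * g, M24.mul_mem hτ hg, fun q => ?_, ?_, ?_⟩
  · rw [Equiv.Perm.mul_apply, hτmem, hgS]
  · rw [Equiv.Perm.mul_apply, hτa]
  · rw [Equiv.Perm.mul_apply, hτj]

def rm8 (c : ℕ) : ℤ := if c = 23 ∨ c = 0 then -2 else if (8536111 : ℕ).testBit c then 2 else 0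

/-- `-2` at `∞` and `0`, and `2` on the rest of the reference octad. -/
def B8 : GolayPt → ℤ := fun q => rm8 (idx q)

theorem B8_sum : (∑ i, B8 i) % 8 = 0 := by decide +kernel

theorem B8_spec (p : GolayPt) :
    B8 p = if p = none ∨ p = some 0 then -2 else if p ∈ O0f then 2 else 0 := by
  simp only [mem_O0f]
  revert p
  decide +kernel

theorem zero_mem_O0f : (some 0 : GolayPt) ∈ O0f := by
  rw [mem_O0f]
  decide

/-- A monomial automorphism normalising a pair `(4 e_∞ ± 4 e_j, octad vector)`. -/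
theorem mono8 (a b : leechLattice) {j : GolayPt} {s : ℤ} (hs : s = 4 ∨ s = -4)
    {S : Finset GolayPt} (hS : S ∈ octads) (hnS : none ∈ S) (hjS : j ∉ S)
    (ha : (a : GolayPt → ℤ) = Pi.single none 4 + Pi.single j s)
    (hbn : (b : GolayPt → ℤ) none = -2) (hb4 : ∀ i ∈ S, (b : GolayPt → ℤ) i ^ 2 = 4)
    (hb0 : ∀ i, i ∉ S → (b : GolayPt → ℤ) i = 0) :
    ∃ m : Equiv.Perm leechLattice, m ∈ Co0 ∧
      ((m a : leechLattice) : GolayPt → ℤ) = Pi.single none 4 + Pi.single (some 4) 4 ∧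
      ((m b : leechLattice) : GolayPt → ℤ) = B8 := by
  classical
  obtain ⟨σ, hσ, hσS, hσn, hσj⟩ := oct_move_pt2 hS hnS hjS
  have hb'mem : (fun i => (b : GolayPt → ℤ) (σ.symm i)) ∈ leechLattice :=
    (coeq_perm b.2 hσ).mem_right
  have hsymm : ∀ i, σ.symm i ∈ S ↔ i ∈ O0f := fun i => by
    rw [← hσS, Equiv.apply_symm_apply]
  generalize hb' : (fun i => (b : GolayPt → ℤ) (σ.symm i)) = b' at hb'mem
  have hb'i : ∀ i, b' i = (b : GolayPt → ℤ) (σ.symm i) := fun i => by rw [← hb']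
  have hb'4 : ∀ i ∈ O0f, b' i ^ 2 = 4 := fun i hi => by
    rw [hb'i]
    exact hb4 _ ((hsymm i).mpr hi)
  have hb'0 : ∀ i, i ∉ O0f → b' i = 0 := fun i hi => by
    rw [hb'i]
    exact hb0 _ (fun h => hi ((hsymm i).mp h))
  have hb'n : b' none = -2 := by
    rw [hb'i, ← hσn, Equiv.symm_apply_apply]
    exact hbn
  have hx8 : (∑ i, b' i) % 8 = 0 := sum_mod8_even hb'mem (i := none) (by rw [hb'n]; rfl)
  have hout : ∀ i, i ∉ O0f → ¬ (i = none ∨ i = some 0) := by
    intro i hi h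
    rcases h with rfl | rfl
    · exact hi none_mem_O0f
    · exact hi zero_mem_O0f
  have hpm : ∀ i, B8 i = b' i ∨ B8 i = -b' i := by
    intro i
    rw [B8_spec]
    by_cases hi : i ∈ O0f
    · rcases sq_four_cases (hb'4 i hi) with h | h <;> rw [h] <;> split_ifs <;> simp
    · rw [if_neg (hout i hi), if_neg hi, hb'0 i hi]
      simp
  obtain ⟨n, hn⟩ := flip_even hx8 B8_sum hpm
    (fun i hi => by rcases sq_four_cases (hb'4 i hi) with h | h <;> rw [h] <;> rfl)
    (fun i hi => by rw [hb'0 i hi]; rfl)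
  obtain ⟨c, hc, hcE, hc4⟩ := exists_inter_eq_pt O0f_mem four_not_mem_O0f n _
    (Finset.filter_subset _ _) hn (s = -4)
  have hcn : (none : GolayPt) ∉ c := by
    intro h
    have : none ∈ c ∩ O0f := Finset.mem_inter.mpr ⟨h, none_mem_O0f⟩
    rw [hcE, Finset.mem_filter] at this
    apply this.2
    rw [B8_spec, if_pos (Or.inl rfl), hb'n]
  refine ⟨monoPerm σ hσ c hc, monoPerm_mem σ hσ c hc, ?_, ?_⟩
  · rw [monoPerm_apply, ha, signedPerm_add, signedPerm_single, signedPerm_single, hσn, hσj,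
      if_neg hcn]
    congr 2
    rcases hs with rfl | rfl
    · rw [if_neg (fun h => by have := hc4.mp h; norm_num at this)]
    · rw [if_pos (hc4.mpr rfl)]
      norm_num
  · rw [monoPerm_apply]
    funext i
    show (if i ∈ c then -(b : GolayPt → ℤ) (σ.symm i) else (b : GolayPt → ℤ) (σ.symm i)) = B8 i
    rw [← hb'i]
    by_cases hi : i ∈ O0f
    · have hic : i ∈ c ↔ B8 i ≠ b' i := by
        have : i ∈ c ∩ O0f ↔ i ∈ O0f.filter (fun i => B8 i ≠ b' i) := by rw [hcE]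
        rw [Finset.mem_inter, Finset.mem_filter] at this
        tauto
      by_cases hm : i ∈ c
      · rw [if_pos hm]
        rcases hpm i with h | h
        · exact absurd h (hic.mp hm)
        · exact h.symm
      · rw [if_neg hm]
        by_contra h
        exact hm (hic.mpr (fun h' => h h'.symm))
    · rw [hb'0 i hi, B8_spec, if_neg (hout i hi), if_neg hi]
      split_ifs <;> rfl

theorem core8 (w : leechLattice) (hw : sqNorm (w : GolayPt → ℤ) = 32)
    (hd : dotInt Spor.vecU (w : GolayPt → ℤ) = -8) :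
    ∃ g : Equiv.Perm leechLattice, g ∈ Co0 ∧
      ((g Spor.leechU : leechLattice) : GolayPt → ℤ) = Pi.single none 4 + Pi.single (some 4) 4 ∧
      ((g w : leechLattice) : GolayPt → ℤ) = B8 := by
  obtain ⟨u, hun, hud, huw⟩ := exists_u8 w.2 hw hd
  obtain ⟨g, hg, j, s, S, hs, hS, hnS, hjS, ha, hbn, hb4, hb0⟩ :=
    nf8 Spor.leechU w u leechU_norm hw hun hd hud huw
  obtain ⟨m, hm, hma, hmb⟩ := mono8 (g Spor.leechU) (g w) hs hS hnS hjS ha hbn hb4 hb0
  exact ⟨m * g, Co0.mul_mem hm hg, hma, hmb⟩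

/-- The stabiliser of a minimal vector is transitive on the minimal vectors of inner product
`-8` with it. -/
theorem pair_trans_8 (v w w' : leechLattice) (hv : sqNorm (v : GolayPt → ℤ) = 32)
    (hw : sqNorm (w : GolayPt → ℤ) = 32) (hw' : sqNorm (w' : GolayPt → ℤ) = 32)
    (hd : dotInt (v : GolayPt → ℤ) (w : GolayPt → ℤ) = -8)
    (hd' : dotInt (v : GolayPt → ℤ) (w' : GolayPt → ℤ) = -8) :
    ∃ g : ↥Co0, g • v = v ∧ g • w = w' := by
  obtain ⟨g0, hg0⟩ := trans_norm32 v Spor.leechU hv leechU_norm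
  have e0 : (g0.1 v : leechLattice) = Spor.leechU := hg0
  have h1 : ∀ y : leechLattice, sqNorm (y : GolayPt → ℤ) = 32 →
      dotInt (v : GolayPt → ℤ) (y : GolayPt → ℤ) = -8 →
      ∃ g : Equiv.Perm leechLattice, g ∈ Co0 ∧
        ((g v : leechLattice) : GolayPt → ℤ) = Pi.single none 4 + Pi.single (some 4) 4 ∧
        ((g y : leechLattice) : GolayPt → ℤ) = B8 := by
    intro y hy hdy
    have hdy' : dotInt Spor.vecU ((g0.1 y : leechLattice) : GolayPt → ℤ) = -8 := by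
      have h := co0_dot g0.2 v y
      rw [e0] at h
      rw [← hdy]
      exact h
    obtain ⟨g, hg, hgU, hgy⟩ := core8 (g0.1 y) (by rw [g0.2.2]; exact hy) hdy'
    refine ⟨g * g0.1, Co0.mul_mem hg g0.2, ?_, ?_⟩
    · rw [Equiv.Perm.mul_apply, e0]
      exact hgU
    · rw [Equiv.Perm.mul_apply]
      exact hgy
  exact pair_trans_of (h1 w hw hd) (h1 w' hw' hd')

/-- The stabiliser of a vector `u` of squared length 48 is transitive on the minimal vectors `v`
with `u - v` minimal. -/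
theorem sum_pair_trans (u v v' : leechLattice) (hu : sqNorm (u : GolayPt → ℤ) = 48)
    (hv : sqNorm (v : GolayPt → ℤ) = 32 ∧
      sqNorm ((u : GolayPt → ℤ) - (v : GolayPt → ℤ)) = 32)
    (hv' : sqNorm (v' : GolayPt → ℤ) = 32 ∧
      sqNorm ((u : GolayPt → ℤ) - (v' : GolayPt → ℤ)) = 32) :
    ∃ g : ↥Co0, g • u = u ∧ g • v = v' := by
  have key : ∀ y : leechLattice, sqNorm (y : GolayPt → ℤ) = 32 →
      sqNorm ((u : GolayPt → ℤ) - (y : GolayPt → ℤ)) = 32 →
      dotInt (y : GolayPt → ℤ) ((u - y : leechLattice) : GolayPt → ℤ) = -8 := by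
    intro y hy hy2
    have h1 : (u : GolayPt → ℤ) = (y : GolayPt → ℤ) + ((u : GolayPt → ℤ) - (y : GolayPt → ℤ)) := by
      abel
    have h2 := sqNorm_add (y : GolayPt → ℤ) ((u : GolayPt → ℤ) - (y : GolayPt → ℤ))
    rw [← h1, hu, hy, hy2] at h2
    show dotInt (y : GolayPt → ℤ) ((u : GolayPt → ℤ) - (y : GolayPt → ℤ)) = -8
    linarith
  obtain ⟨g1, hg1⟩ := trans_norm32 v v' hv.1 hv'.1
  have e1 : (g1.1 v : leechLattice) = v' := hg1
  have hdw : dotInt (v' : GolayPt → ℤ) ((g1.1 (u - v) : leechLattice) : GolayPt → ℤ) = -8 := by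
    have h := co0_dot g1.2 v (u - v)
    rw [e1] at h
    rw [h]
    exact key v hv.1 hv.2
  obtain ⟨h, hh1, hh2⟩ := pair_trans_8 v' (g1.1 (u - v)) (u - v') hv'.1
    (by rw [g1.2.2]; exact hv.2) hv'.2 hdw (key v' hv'.1 hv'.2)
  have e2 : h.1 v' = v' := hh1
  have e3 : h.1 (g1.1 (u - v)) = u - v' := hh2
  refine ⟨h * g1, ?_, ?_⟩
  · show h.1 (g1.1 u) = u
    have e4 : u = v + (u - v) := by abel
    rw [e4, g1.2.1, h.2.1, e1, e2, e3]
    abel
  · show h.1 (g1.1 v) = v'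
    rw [e1, e2]

end Cfsg.Agent.Lib.Helper10
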