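import Mathlib
import Cfsg.Prelude.Def_Sporadic_a
import Cfsg.Prelude.Def_Spor_Conway
import Cfsg.Agent.Lib.Helper10.HS2
import Cfsg.Agent.Lib.Helper10.PairTrans8
import Cfsg.Agent.Lib.Helper36.M24Oct

set_option autoImplicit false

namespace Cfsg.Agent.Lib.Helper10

open Cfsg Cfsg.Agent.Lib.Helper9
open scoped Pointwise

/-! ### A frame adapted to a vector of norm 48 -/

/-- For orthogonal minimal vectors `a`, `b` and `u` of norm 48 with `u · (a + b) = 40` there is
an automorphism taking `u` to `(5, 1, …, 1)` for which the coordinate at `∞` of the image of `y`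
is `y · (a + b) / 8`. -/
theorem frame48 (u a b : leechLattice) (hu : sqNorm (u : GolayPt → ℤ) = 48)
    (ha : sqNorm (a : GolayPt → ℤ) = 32) (hb : sqNorm (b : GolayPt → ℤ) = 32)
    (hab : dotInt (a : GolayPt → ℤ) (b : GolayPt → ℤ) = 0)
    (h : dotInt (u : GolayPt → ℤ) (a : GolayPt → ℤ) +
      dotInt (u : GolayPt → ℤ) (b : GolayPt → ℤ) = 40) :
    ∃ g : Equiv.Perm leechLattice, g ∈ Co0 ∧ ((g u : leechLattice) : GolayPt → ℤ) = repD ∧
      ∀ y : leechLattice, 8 * ((g y : leechLattice) : GolayPt → ℤ) none =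
        dotInt (y : GolayPt → ℤ) (a : GolayPt → ℤ) + dotInt (y : GolayPt → ℤ) (b : GolayPt → ℤ) := by
  obtain ⟨g1, hg1, hcoord⟩ := frame_of_orth a b ha hb hab
  have hu5 : ((g1 u : leechLattice) : GolayPt → ℤ) none = 5 := by
    have := hcoord u
    linarith
  have hun : sqNorm ((g1 u : leechLattice) : GolayPt → ℤ) = 48 := by rw [hg1.2]; exact hu
  obtain ⟨c, hc, hc4⟩ := odd_sign (g1 u).2 (i0 := none) (by rw [hu5]; decide)
  have hnc : (none : GolayPt) ∉ c := by
    intro h
    have := hc4 none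
    rw [signVec_apply, if_pos h, hu5] at this
    norm_num at this
  refine ⟨signPerm c hc * g1, Co0.mul_mem (signPerm_mem c hc) hg1, ?_, fun y => ?_⟩
  · rw [Equiv.Perm.mul_apply]
    apply odd48_five hc4
    · exact ((signPerm_mem c hc).2 (g1 u)).trans hun
    · show signVec c ((g1 u : leechLattice) : GolayPt → ℤ) none = 5
      rw [signVec_apply, if_neg hnc, hu5]
  · rw [Equiv.Perm.mul_apply]
    show 8 * signVec c ((g1 y : leechLattice) : GolayPt → ℤ) none = _
    rw [signVec_apply, if_neg hnc]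
    exact hcoord y

/-- A minimal vector with `(5, 1, …, 1) · t = 24` and `t_∞ = 4` is `4 e_∞ + 4 e_j`. -/
theorem four_of_rep {t : GolayPt → ℤ} (ht : t ∈ leechLattice) (hn : sqNorm t = 32)
    (hd : dotInt repD t = 24) (h4 : t none = 4) :
    ∃ j : ZMod 23, t = Pi.single none 4 + Pi.single (some j) 4 := by
  obtain ⟨j, hj, s, hs, hX⟩ := min_four ht hn h4
  obtain ⟨k, rfl⟩ := Option.ne_none_iff_exists'.mp hj
  refine ⟨k, ?_⟩
  rw [hX, dotInt_add_right, dotInt_single, dotInt_single] at hd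
  have hr1 : repD none = 5 := rfl
  have hr2 : repD (some k) = 1 := rfl
  rw [hr1, hr2] at hd
  have : s = 4 := by linarith
  rw [hX, this]

/-! ### Vectors supported on octads -/

theorem dot_octRep (x : GolayPt → ℤ) (O : Finset GolayPt) :
    dotInt x (octRep O) = 2 * ∑ i ∈ O, x i := by
  unfold dotInt octRep
  simp only [mul_ite, mul_zero]
  rw [Finset.sum_ite_mem, Finset.univ_inter, Finset.mul_sum]
  exact Finset.sum_congr rfl (fun i _ => mul_comm _ _)

theorem octRep_norm (O : Finset GolayPt) : sqNorm (octRep O) = 4 * (O.card : ℤ) := by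
  rw [← dotInt_self, dot_octRep]
  have : ∑ i ∈ O, octRep O i = 2 * (O.card : ℤ) := by
    rw [Finset.sum_congr rfl (g := fun _ => (2 : ℤ))
      (fun i hi => by unfold octRep; rw [if_pos hi])]
    simp [mul_comm]
  rw [this]
  ring

theorem octRep_mem {O : Finset GolayPt} (hO : O ∈ octads) : octRep O ∈ leechLattice := by
  obtain ⟨σ, hσ, h⟩ := Cfsg.Agent.Lib.Helper36.exists_smul_o0 hO
  have he : (∅ : Finset GolayPt) ∈ gsup := Spor.empty_mem_supports_golayCode
  have h0 : octRep Cfsg.Agent.Lib.Helper36.o0 ∈ leechLattice := link12.mem_right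
  have h1 := (monoPerm σ hσ ∅ he ⟨_, h0⟩).2
  rw [monoPerm_apply] at h1
  rw [mono_octRep (O := Cfsg.Agent.Lib.Helper36.o0) (O' := O) (fun q => by
    rw [← h]
    exact Finset.smul_mem_smul_finset_iff σ)] at h1
  exact h1

/-- Two octads disjoint from the standard one and from each other. -/
def octB : Finset GolayPt := Cfsg.Agent.Lib.Helper36.ms 7079696

def octC : Finset GolayPt := Cfsg.Agent.Lib.Helper36.ms 1161408

theorem octB_mem : octB ∈ octads :=
  Cfsg.Agent.Lib.Helper36.ms_mem_octads (by decide +kernel) (by decide +kernel)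

theorem octC_mem : octC ∈ octads :=
  Cfsg.Agent.Lib.Helper36.ms_mem_octads (by decide +kernel) (by decide +kernel)

theorem o0_inter_B : Cfsg.Agent.Lib.Helper36.o0 ∩ octB = ∅ := by
  unfold Cfsg.Agent.Lib.Helper36.o0 octB
  rw [← Cfsg.Agent.Lib.Helper36.ms_and]
  have : (8536111 &&& 7079696 : ℕ) = 0 := by decide
  rw [this, Cfsg.Agent.Lib.Helper36.ms_zero]

theorem o0_inter_C : Cfsg.Agent.Lib.Helper36.o0 ∩ octC = ∅ := by
  unfold Cfsg.Agent.Lib.Helper36.o0 octC
  rw [← Cfsg.Agent.Lib.Helper36.ms_and]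
  have : (8536111 &&& 1161408 : ℕ) = 0 := by decide
  rw [this, Cfsg.Agent.Lib.Helper36.ms_zero]

theorem octB_inter_C : octB ∩ octC = ∅ := by
  unfold octB octC
  rw [← Cfsg.Agent.Lib.Helper36.ms_and]
  have : (7079696 &&& 1161408 : ℕ) = 0 := by decide
  rw [this, Cfsg.Agent.Lib.Helper36.ms_zero]

/-- For an octad and a point there is an octad disjoint from the first and avoiding the point. -/
theorem oct_disjoint_avoid {O : Finset GolayPt} (hO : O ∈ octads) (p : GolayPt) :
    ∃ O' ∈ octads, Disjoint O O' ∧ p ∉ O' := by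
  classical
  obtain ⟨σ, hσ, rfl⟩ := Cfsg.Agent.Lib.Helper36.exists_smul_o0 hO
  have key : ∀ B : Finset GolayPt, Cfsg.Agent.Lib.Helper36.o0 ∩ B = ∅ →
      Disjoint (σ • Cfsg.Agent.Lib.Helper36.o0) (σ • B) := by
    intro B hB
    rw [Finset.disjoint_iff_inter_eq_empty, ← Finset.smul_finset_inter, hB,
      Finset.smul_finset_empty]
  by_cases hp : p ∈ σ • octB
  · refine ⟨σ • octC, smul_octad_mem hσ octC_mem, key _ o0_inter_C, ?_⟩
    intro hp'
    have : p ∈ σ • octB ∩ σ • octC := Finset.mem_inter.mpr ⟨hp, hp'⟩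
    rw [← Finset.smul_finset_inter, octB_inter_C, Finset.smul_finset_empty] at this
    exact Finset.notMem_empty _ this
  · exact ⟨σ • octB, smul_octad_mem hσ octB_mem, key _ o0_inter_B, hp⟩

/-! ### Odd minimal vectors with a coordinate 3 at infinity -/

/-- A minimal vector with `(5, 1, …, 1) · t = 24` and `t_∞ = 3` is `-1` on the other points of
an octad through `∞` and `1` off it. -/
theorem odd_three {t : GolayPt → ℤ} (ht : t ∈ leechLattice) (hn : sqNorm t = 32)
    (hd : dotInt repD t = 24) (h3 : t none = 3) :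
    ∃ c ∈ octads, none ∈ c ∧ ∀ i, i ≠ none → t i = if i ∈ c then -1 else 1 := by
  classical
  obtain ⟨k, hk9, hk1⟩ := min_odd ht hn (i0 := none) (by rw [h3]; decide)
  have hk : k = none := by
    by_contra h
    have := hk1 none (Ne.symm h)
    rw [h3] at this
    norm_num at this
  subst hk
  obtain ⟨c, hc, hc4⟩ := odd_sign ht (i0 := none) (by rw [h3]; decide)
  have hnc : (none : GolayPt) ∈ c := by
    by_contra h
    have := hc4 none
    rw [signVec_apply, if_neg h, h3] at this
    norm_num at this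
  have hval : ∀ i, i ≠ none → t i = if i ∈ c then -1 else 1 := by
    intro i hi
    have h1 := hk1 i hi
    have h2 := hc4 i
    rw [signVec_apply] at h2
    rcases sq_one_cases h1 with h | h
    · by_cases hic : i ∈ c
      · rw [if_pos hic, h] at h2
        norm_num at h2
      · rw [if_neg hic, h]
    · by_cases hic : i ∈ c
      · rw [if_pos hic, h]
      · rw [if_neg hic, h] at h2
        norm_num at h2
  have hsum : dotInt repD t = 15 + ((cᶜ).card : ℤ) - ((c.erase none).card : ℤ) := by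
    unfold dotInt
    rw [← Finset.sum_add_sum_compl c, ← Finset.add_sum_erase c _ hnc]
    have e1 : ∑ i ∈ cᶜ, repD i * t i = ((cᶜ).card : ℤ) := by
      rw [Finset.sum_congr rfl (g := fun _ => (1 : ℤ))]
      · simp
      · intro i hi
        have hic := Finset.mem_compl.mp hi
        have hin : i ≠ none := fun h => hic (h ▸ hnc)
        have : repD i = 1 := by
          unfold repD
          rw [if_neg hin]
        rw [this, hval i hin, if_neg hic]
        norm_num
    have e2 : ∑ i ∈ c.erase none, repD i * t i = -((c.erase none).card : ℤ) := by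
      rw [Finset.sum_congr rfl (g := fun _ => (-1 : ℤ))]
      · simp
      · intro i hi
        have hin := Finset.ne_of_mem_erase hi
        have hic := Finset.mem_of_mem_erase hi
        have : repD i = 1 := by
          unfold repD
          rw [if_neg hin]
        rw [this, hval i hin, if_pos hic]
        norm_num
    rw [e1, e2, h3]
    show (5 : ℤ) * 3 + _ + _ = _
    ring
  have hcc : c.card + cᶜ.card = 24 := by
    rw [Finset.card_add_card_compl]
    decide
  have hce : (c.erase none).card + 1 = c.card := Finset.card_erase_add_one hnc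
  have hcard : c.card = 8 := by
    rw [hd] at hsum
    omega
  exact ⟨c, ⟨hc, hcard⟩, hnc, hval⟩

/-! ### The pair `(u, v)` -/

theorem T_mem (k : ZMod 23) :
    (Pi.single none 4 + Pi.single (some k) 4 : GolayPt → ℤ) ∈ leechLattice :=
  pair_mem (none_ne_some k) (Or.inl rfl) (Or.inl rfl)

theorem T_norm (k : ZMod 23) :
    sqNorm (Pi.single none 4 + Pi.single (some k) 4 : GolayPt → ℤ) = 32 := by
  rw [sqNorm_pair (none_ne_some k)]
  norm_num

/-- Normal form of a pair `(u, v)`: `u` of norm 48, `v` and `u - v` minimal. -/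
theorem mcl_pair (u v : leechLattice) (hu : sqNorm (u : GolayPt → ℤ) = 48)
    (hv : sqNorm (v : GolayPt → ℤ) = 32 ∧
      sqNorm ((u : GolayPt → ℤ) - (v : GolayPt → ℤ)) = 32) :
    ∃ g : Equiv.Perm leechLattice, g ∈ Co0 ∧ ((g u : leechLattice) : GolayPt → ℤ) = repD ∧
      ((g v : leechLattice) : GolayPt → ℤ) = Pi.single none 4 + Pi.single (some 0) 4 := by
  obtain ⟨g0, hg0⟩ := trans_norm48 u repDL hu repD_norm
  have e0 : (g0.1 u : leechLattice) = repDL := hg0
  have h1 : sqNorm ((g0.1 v : leechLattice) : GolayPt → ℤ) = 32 := by rw [g0.2.2]; exact hv.1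
  have h2 : sqNorm ((repDL : GolayPt → ℤ) - ((g0.1 v : leechLattice) : GolayPt → ℤ)) = 32 := by
    have := g0.2.2 (u - v)
    rw [co0_map_sub g0.2, e0] at this
    exact this.trans hv.2
  have h3 : sqNorm ((repDL : GolayPt → ℤ) -
      ((⟨_, T_mem 0⟩ : leechLattice) : GolayPt → ℤ)) = 32 := by
    show sqNorm (repD - (Pi.single none 4 + Pi.single (some 0) 4)) = 32
    rw [sqNorm_sub, repD_norm, dot_repD_pair, T_norm]
    norm_num
  obtain ⟨h, hh1, hh2⟩ := sum_pair_trans repDL (g0.1 v) ⟨_, T_mem 0⟩ repD_norm ⟨h1, h2⟩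
    ⟨T_norm 0, h3⟩
  refine ⟨h.1 * g0.1, Co0.mul_mem h.2 g0.2, ?_, ?_⟩
  · rw [Equiv.Perm.mul_apply, e0]
    have : h.1 repDL = repDL := hh1
    rw [this]
    rfl
  · rw [Equiv.Perm.mul_apply]
    have : h.1 (g0.1 v) = ⟨_, T_mem 0⟩ := hh2
    rw [this]

/-- The set attached to a pair `(u, v)`. -/
def mclSet (u v : leechLattice) : Set leechLattice :=
  {x : leechLattice | sqNorm (x : GolayPt → ℤ) = 32 ∧
    sqNorm ((u : GolayPt → ℤ) - (x : GolayPt → ℤ)) = 32 ∧
    dotInt (v : GolayPt → ℤ) (x : GolayPt → ℤ) = 16}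

theorem mclSet_iff (u v x : leechLattice) (hu : sqNorm (u : GolayPt → ℤ) = 48) :
    x ∈ mclSet u v ↔ sqNorm (x : GolayPt → ℤ) = 32 ∧
      dotInt (u : GolayPt → ℤ) (x : GolayPt → ℤ) = 24 ∧
      dotInt (v : GolayPt → ℤ) (x : GolayPt → ℤ) = 16 := by
  show (sqNorm (x : GolayPt → ℤ) = 32 ∧
    sqNorm ((u : GolayPt → ℤ) - (x : GolayPt → ℤ)) = 32 ∧
    dotInt (v : GolayPt → ℤ) (x : GolayPt → ℤ) = 16) ↔ _
  rw [sqNorm_sub, hu]
  constructor
  · rintro ⟨a1, a2, a3⟩
    rw [a1] at a2
    exact ⟨a1, by linarith, a3⟩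
  · rintro ⟨a1, a2, a3⟩
    refine ⟨a1, ?_, a3⟩
    rw [a1, a2]
    norm_num

theorem mcl_uv (u v : leechLattice) (hu : sqNorm (u : GolayPt → ℤ) = 48)
    (hv : sqNorm (v : GolayPt → ℤ) = 32 ∧
      sqNorm ((u : GolayPt → ℤ) - (v : GolayPt → ℤ)) = 32) :
    dotInt (u : GolayPt → ℤ) (v : GolayPt → ℤ) = 24 := by
  have h := hv.2
  rw [sqNorm_sub, hu, hv.1] at h
  linarith

/-- The attached set has 275 elements. -/
theorem mcl_card (u v : leechLattice) (hu : sqNorm (u : GolayPt → ℤ) = 48)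
    (hv : sqNorm (v : GolayPt → ℤ) = 32 ∧
      sqNorm ((u : GolayPt → ℤ) - (v : GolayPt → ℤ)) = 32) : (mclSet u v).ncard = 275 := by
  obtain ⟨g, hg, hgu, hgv⟩ := mcl_pair u v hu hv
  have e1 : mclSet u v = {x : leechLattice | (fun n a b _ => n = 32 ∧ a = 24 ∧ b = 16)
      (sqNorm (x : GolayPt → ℤ))
      (dotInt (u : GolayPt → ℤ) (x : GolayPt → ℤ))
      (dotInt (v : GolayPt → ℤ) (x : GolayPt → ℤ))
      (dotInt (v : GolayPt → ℤ) (x : GolayPt → ℤ))} := by
    ext x
    exact mclSet_iff u v x hu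
  rw [e1]
  refine (ncard_set_co0 hg u v v (fun n a b _ => n = 32 ∧ a = 24 ∧ b = 16)).trans ?_
  rw [hgu, hgv]
  have e2 : {y : leechLattice | (fun n a b _ => n = 32 ∧ a = 24 ∧ b = 16)
      (sqNorm (y : GolayPt → ℤ)) (dotInt repD (y : GolayPt → ℤ))
      (dotInt (Pi.single none 4 + Pi.single (some 0) 4) (y : GolayPt → ℤ))
      (dotInt (Pi.single none 4 + Pi.single (some 0) 4) (y : GolayPt → ℤ))} =
      {y : leechLattice | sqNorm (y : GolayPt → ℤ) = 32 ∧ dotInt repD (y : GolayPt → ℤ) = 24 ∧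
        (fun t : GolayPt → ℤ => t (some 0) = 4 - t none) (y : GolayPt → ℤ)} := by
    ext y
    show (sqNorm (y : GolayPt → ℤ) = 32 ∧ dotInt repD (y : GolayPt → ℤ) = 24 ∧
      dotInt (Pi.single none 4 + Pi.single (some 0) 4) (y : GolayPt → ℤ) = 16) ↔
      (sqNorm (y : GolayPt → ℤ) = 32 ∧
      dotInt repD (y : GolayPt → ℤ) = 24 ∧
      (y : GolayPt → ℤ) (some 0) = 4 - (y : GolayPt → ℤ) none)
    rw [dot_vecT0]
    constructor
    · rintro ⟨a1, a2, a3⟩
      exact ⟨a1, a2, by omega⟩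
    · rintro ⟨a1, a2, a3⟩
      exact ⟨a1, a2, by omega⟩
  refine (congrArg Set.ncard e2).trans ?_
  refine (ncard_rep24 (fun t : GolayPt → ℤ => t (some 0) = 4 - t none)).trans ?_
  rw [card_fiber_none (Or.inl rfl) (by norm_num) (by norm_num)
    (fun t : GolayPt → ℤ => t (some 0) = 4 - t none) (fun a => some (4 - a)) (fun _ => none)
    (fun x => by simp only [okb_some, okb_none, and_true])]
  exact num_mcl275

/-! ### The value at infinity -/

theorem num_mcl_zero : ∀ a ∈ ([-5, -4, -3, -2, -1, 0, 1, 5] : List ℤ),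
    dTot3 5 24 (some a) (some (4 - a)) none = 0 := by decide +kernel

theorem mcl_val {t : GolayPt → ℤ} (ht : t ∈ dAll 5 24) (heq : t (some 0) = 4 - t none) :
    t none = 2 ∨ t none = 3 ∨ t none = 4 := by
  have hb := dAll_bound (Or.inl rfl) (by norm_num) ht none
  rw [Finset.mem_Icc] at hb
  by_contra hcon
  push Not at hcon
  have ha : t none ∈ ([-5, -4, -3, -2, -1, 0, 1, 5] : List ℤ) := by
    simp only [List.mem_cons, List.not_mem_nil, or_false]
    omega
  have hmem : t ∈ (dAll 5 24).filter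
      (fun x => ok3b (some (t none)) (some (4 - t none)) none x = true) := by
    rw [Finset.mem_filter]
    refine ⟨ht, ?_⟩
    simp only [ok3b, Bool.and_eq_true, okb_some, okb_none, and_true]
    exact ⟨trivial, heq⟩
  have hcard := card_dAll_filter' (A := 5) (D := 24) (Or.inl rfl) (by norm_num) (by norm_num)
    (some (t none)) (some (4 - t none)) none
  rw [num_mcl_zero _ ha] at hcard
  rw [Finset.card_eq_zero.mp hcard] at hmem
  exact Finset.notMem_empty _ hmem

/-! ### The auxiliary vector -/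

/-- In the frame where `(u, v) = ((5, 1, …, 1), 4 e_∞ + 4 e_0)`, every member `t` of the attached
set has a minimal vector `y` with `v · y = 0`, `u · y = 16`, `t · y = 16`. -/
theorem mcl_aux {t : GolayPt → ℤ} (ht : t ∈ leechLattice) (hn : sqNorm t = 32)
    (hd : dotInt repD t = 24) (h0 : t (some 0) = 4 - t none) :
    ∃ y : GolayPt → ℤ, y ∈ leechLattice ∧ sqNorm y = 32 ∧
      dotInt (Pi.single none 4 + Pi.single (some 0) 4) y = 0 ∧ dotInt repD y = 16 ∧
      dotInt t y = 16 := by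
  classical
  have htA : t ∈ dAll 5 24 := (mem_dAll (Or.inl rfl) (by norm_num) t).mpr ⟨ht, hn, hd⟩
  rcases mcl_val htA h0 with h2 | h3 | h4
  · -- `t` is twice an octad through `∞` and `0`
    have h02 : t (some 0) = 2 := by rw [h0, h2]; norm_num
    obtain ⟨O, hO, hnO, h0O, hteq⟩ := y77_class ht hn hd h2 h02
    obtain ⟨p, -, -, hp, -, -, -, -, -, hp1, -, -, hp2, -, -⟩ :=
      pick3 hO hnO h0O (none_ne_some 0)
    have htp : t p = 2 := by
      rw [hteq]
      unfold octRep
      rw [if_pos hp]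
    have hwn : sqNorm (Pi.single (some 0) 4 + Pi.single p 4 : GolayPt → ℤ) = 32 := by
      rw [sqNorm_pair hp2]
      norm_num
    have htw : dotInt t (Pi.single (some 0) 4 + Pi.single p 4) = 16 := by
      rw [dotInt_add_right, dotInt_single, dotInt_single, h02, htp]
      norm_num
    refine ⟨t - (Pi.single (some 0) 4 + Pi.single p 4),
      leechLattice.sub_mem ht (pair_mem hp2 (Or.inl rfl) (Or.inl rfl)), ?_, ?_, ?_, ?_⟩
    · rw [sqNorm_sub, hn, htw, hwn]
      norm_num
    · rw [dotInt_sub_right, dot_vecT0, dot_vecT0, h2, h02]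
      simp [hp1, hp2]
    · rw [dotInt_sub_right, hd, dotInt_add_right, dotInt_single, dotInt_single]
      have hr1 : repD (some 0) = 1 := rfl
      have hr2 : repD p = 1 := by
        unfold repD
        rw [if_neg (Ne.symm hp1)]
      rw [hr1, hr2]
      norm_num
    · rw [dotInt_sub_right, dotInt_self, hn, htw]
      norm_num
  · -- `t` is odd
    have h01 : t (some 0) = 1 := by rw [h0, h3]; norm_num
    obtain ⟨c, hc, hnc, hval⟩ := odd_three ht hn hd h3
    have h0c : (some 0 : GolayPt) ∉ c := by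
      intro h
      have := hval (some 0) (by simp)
      rw [if_pos h, h01] at this
      norm_num at this
    obtain ⟨O', hO', hdis, h0O'⟩ := oct_disjoint_avoid hc (some 0)
    have hnO' : (none : GolayPt) ∉ O' := Finset.disjoint_left.mp hdis hnc
    have hone : ∀ i ∈ O', t i = 1 := by
      intro i hi
      have hin : i ≠ none := fun h => hnO' (h ▸ hi)
      have hic : i ∉ c := Finset.disjoint_right.mp hdis hi
      rw [hval i hin, if_neg hic]
    refine ⟨octRep O', octRep_mem hO', ?_, ?_, ?_, ?_⟩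
    · rw [octRep_norm, hO'.2]
      norm_num
    · rw [dot_vecT0]
      unfold octRep
      rw [if_neg hnO', if_neg h0O']
      norm_num
    · rw [dot_octRep, Finset.sum_congr rfl (g := fun _ => (1 : ℤ))]
      · simp [hO'.2]
      · intro i hi
        have hin : i ≠ none := fun h => hnO' (h ▸ hi)
        unfold repD
        rw [if_neg hin]
    · rw [dot_octRep, Finset.sum_congr rfl (g := fun _ => (1 : ℤ)) hone]
      simp [hO'.2]
  · -- `t = 4 e_∞ + 4 e_j`
    have h00 : t (some 0) = 0 := by rw [h0, h4]; norm_num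
    refine ⟨Pi.single none 4 + Pi.single (some 0) (-4),
      pair_mem (none_ne_some 0) (Or.inl rfl) (Or.inr rfl), ?_, ?_, ?_, ?_⟩
    · rw [sqNorm_pair (none_ne_some 0)]
      norm_num
    · rw [dot_vecT0]
      simp
    · rw [dotInt_add_right, dotInt_single, dotInt_single]
      show (5 : ℤ) * 4 + 1 * (-4) = 16
      norm_num
    · rw [dotInt_add_right, dotInt_single, dotInt_single, h4, h00]
      norm_num

/-! ### The normal form of a triple -/

/-- Normal form of `(u, v, x)` given an auxiliary vector `y`. -/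
theorem mcl_triple (u v x y : leechLattice) (hu : sqNorm (u : GolayPt → ℤ) = 48)
    (hv : sqNorm (v : GolayPt → ℤ) = 32) (hx : sqNorm (x : GolayPt → ℤ) = 32)
    (hy : sqNorm (y : GolayPt → ℤ) = 32)
    (huv : dotInt (u : GolayPt → ℤ) (v : GolayPt → ℤ) = 24)
    (hux : dotInt (u : GolayPt → ℤ) (x : GolayPt → ℤ) = 24)
    (hvx : dotInt (v : GolayPt → ℤ) (x : GolayPt → ℤ) = 16)
    (hvy : dotInt (v : GolayPt → ℤ) (y : GolayPt → ℤ) = 0)
    (huy : dotInt (u : GolayPt → ℤ) (y : GolayPt → ℤ) = 16)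
    (hxy : dotInt (x : GolayPt → ℤ) (y : GolayPt → ℤ) = 16) :
    ∃ g : Equiv.Perm leechLattice, g ∈ Co0 ∧ ((g u : leechLattice) : GolayPt → ℤ) = repD ∧
      ((g v : leechLattice) : GolayPt → ℤ) = Pi.single none 4 + Pi.single (some 0) 4 ∧
      ((g x : leechLattice) : GolayPt → ℤ) = Pi.single none 4 + Pi.single (some 1) 4 := by
  obtain ⟨g1, hg1, hgu, hcoord⟩ := frame48 u v y hu hv hy hvy (by rw [huv, huy]; norm_num)
  have hv4 : ((g1 v : leechLattice) : GolayPt → ℤ) none = 4 := by
    have := hcoord v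
    rw [dotInt_self, hv, hvy] at this
    linarith
  have hx4 : ((g1 x : leechLattice) : GolayPt → ℤ) none = 4 := by
    have := hcoord x
    rw [dotInt_comm (x : GolayPt → ℤ) (v : GolayPt → ℤ), hvx, hxy] at this
    linarith
  have hdv : dotInt repD ((g1 v : leechLattice) : GolayPt → ℤ) = 24 := by
    rw [← hgu, co0_dot hg1]
    exact huv
  have hdx : dotInt repD ((g1 x : leechLattice) : GolayPt → ℤ) = 24 := by
    rw [← hgu, co0_dot hg1]
    exact hux
  obtain ⟨j, hj⟩ := four_of_rep (g1 v).2 (by rw [hg1.2]; exact hv) hdv hv4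
  obtain ⟨k, hk⟩ := four_of_rep (g1 x).2 (by rw [hg1.2]; exact hx) hdx hx4
  have hjk : j ≠ k := by
    rintro rfl
    have := co0_dot hg1 v x
    rw [hvx, hj, hk, dotInt_self, T_norm] at this
    norm_num at this
  obtain ⟨σ, hσ, hσ1, hσ2, hσ3⟩ := m24_trans3 (p := none) (p' := some j) (p'' := some k)
    (q := none) (q' := some 0) (q'' := some 1) (none_ne_some j) (none_ne_some k)
    (by simpa using hjk) (by decide) (by decide) (by decide)
  have he : (∅ : Finset GolayPt) ∈ gsup := Spor.empty_mem_supports_golayCode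
  refine ⟨monoPerm σ hσ ∅ he * g1, Co0.mul_mem (monoPerm_mem σ hσ ∅ he) hg1, ?_, ?_, ?_⟩
  · rw [Equiv.Perm.mul_apply, monoPerm_apply, hgu, mono_repD hσ1]
  · rw [Equiv.Perm.mul_apply, monoPerm_apply, hj, signedPerm_add, mono_single, mono_single,
      hσ1, hσ2]
  · rw [Equiv.Perm.mul_apply, monoPerm_apply, hk, signedPerm_add, mono_single, mono_single,
      hσ1, hσ3]

/-- Normal form of `(u, v, x)` for `x` in the attached set. -/
theorem mcl_nf (u v x : leechLattice) (hu : sqNorm (u : GolayPt → ℤ) = 48)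
    (hv : sqNorm (v : GolayPt → ℤ) = 32 ∧
      sqNorm ((u : GolayPt → ℤ) - (v : GolayPt → ℤ)) = 32) (hx : x ∈ mclSet u v) :
    ∃ g : Equiv.Perm leechLattice, g ∈ Co0 ∧ ((g u : leechLattice) : GolayPt → ℤ) = repD ∧
      ((g v : leechLattice) : GolayPt → ℤ) = Pi.single none 4 + Pi.single (some 0) 4 ∧
      ((g x : leechLattice) : GolayPt → ℤ) = Pi.single none 4 + Pi.single (some 1) 4 := by
  obtain ⟨hxn, hux, hvx⟩ := (mclSet_iff u v x hu).mp hx
  have huv := mcl_uv u v hu hv
  obtain ⟨g0, hg0, hgu, hgv⟩ := mcl_pair u v hu hv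
  have htn : sqNorm ((g0 x : leechLattice) : GolayPt → ℤ) = 32 := by rw [hg0.2]; exact hxn
  have htd : dotInt repD ((g0 x : leechLattice) : GolayPt → ℤ) = 24 := by
    rw [← hgu, co0_dot hg0]
    exact hux
  have ht0 : ((g0 x : leechLattice) : GolayPt → ℤ) (some 0) =
      4 - ((g0 x : leechLattice) : GolayPt → ℤ) none := by
    have := co0_dot hg0 v x
    rw [hgv, hvx, dot_vecT0] at this
    omega
  obtain ⟨y, hyL, hyn, hy1, hy2, hy3⟩ := mcl_aux (g0 x).2 htn htd ht0
  obtain ⟨g1, hg1, h1, h2, h3⟩ := mcl_triple (g0 u) (g0 v) (g0 x) ⟨y, hyL⟩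
    (by rw [hg0.2]; exact hu) (by rw [hg0.2]; exact hv.1) htn hyn
    (by rw [co0_dot hg0]; exact huv) (by rw [co0_dot hg0]; exact hux)
    (by rw [co0_dot hg0]; exact hvx) (by rw [hgv]; exact hy1) (by rw [hgu]; exact hy2) hy3
  refine ⟨g1 * g0, Co0.mul_mem hg1 hg0, ?_, ?_, ?_⟩
  · rw [Equiv.Perm.mul_apply]
    exact h1
  · rw [Equiv.Perm.mul_apply]
    exact h2
  · rw [Equiv.Perm.mul_apply]
    exact h3

/-- The stabiliser of `u` and `v` is transitive on the attached set. -/
theorem mcl_trans (u v x x' : leechLattice) (hu : sqNorm (u : GolayPt → ℤ) = 48)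
    (hv : sqNorm (v : GolayPt → ℤ) = 32 ∧
      sqNorm ((u : GolayPt → ℤ) - (v : GolayPt → ℤ)) = 32) (hx : x ∈ mclSet u v)
    (hx' : x' ∈ mclSet u v) : ∃ g : ↥Co0, g • u = u ∧ g • v = v ∧ g • x = x' := by
  obtain ⟨g, hg, hg1, hg2, hg3⟩ := triple_trans_of (mcl_nf u v x hu hv hx) (mcl_nf u v x' hu hv hx')
  exact ⟨⟨g, hg⟩, hg1, hg2, hg3⟩

end Cfsg.Agent.Lib.Helper10
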