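import Mathlib
import Cfsg.Prelude.Def_Sporadic_a
import Cfsg.Prelude.Def_Spor_Conway
import Cfsg.Agent.Lib.Helper10.McL
import Cfsg.Agent.Lib.Helper36.M24OctSplit

set_option autoImplicit false

namespace Cfsg.Agent.Lib.Helper10

open Cfsg Cfsg.Agent.Lib.Helper9
open scoped Pointwise

/-! ### The reference vectors `4 e_∞ + 4 e_k` -/

theorem dot_T (k : ZMod 23) (t : GolayPt → ℤ) :
    dotInt (Pi.single none 4 + Pi.single (some k) 4) t = 4 * (t none + t (some k)) := by
  rw [dotInt_comm, dotInt_add_right, dotInt_single, dotInt_single]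
  ring

theorem T_apply_none (k : ZMod 23) :
    (Pi.single none 4 + Pi.single (some k) 4 : GolayPt → ℤ) none = 4 := by
  simp

theorem T_apply_some (k j : ZMod 23) :
    (Pi.single none 4 + Pi.single (some k) 4 : GolayPt → ℤ) (some j) = if j = k then 4 else 0 := by
  simp [Pi.single_apply]

/-- The lattice elements `4 e_∞ + 4 e_k`. -/
def TL (k : ZMod 23) : leechLattice := ⟨_, T_mem k⟩

theorem mono_none {σ : Equiv.Perm GolayPt} (h1 : σ none = none) (x : GolayPt → ℤ) :
    signedPerm σ ∅ x none = x none := by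
  unfold signedPerm
  rw [if_neg (Finset.notMem_empty _)]
  have e : σ.symm none = none := by rw [Equiv.symm_apply_eq, h1]
  rw [e]

theorem mono_T {σ : Equiv.Perm GolayPt} (h1 : σ none = none) (k k' : ZMod 23)
    (h2 : σ (some k) = some k') :
    signedPerm σ ∅ (Pi.single none 4 + Pi.single (some k) 4) =
      Pi.single none 4 + Pi.single (some k') 4 := by
  rw [signedPerm_add, mono_single, mono_single, h1, h2]

/-- Automorphisms fixing the three reference vectors. -/
def McFix (h : Equiv.Perm leechLattice) : Prop :=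
  h ∈ Co0 ∧ h repDL = repDL ∧ h (TL 0) = TL 0 ∧ h (TL 1) = TL 1

theorem McFix.mul {h h' : Equiv.Perm leechLattice} (hh : McFix h) (hh' : McFix h') :
    McFix (h * h') := by
  refine ⟨Co0.mul_mem hh.1 hh'.1, ?_, ?_, ?_⟩
  · rw [Equiv.Perm.mul_apply, hh'.2.1, hh.2.1]
  · rw [Equiv.Perm.mul_apply, hh'.2.2.1, hh.2.2.1]
  · rw [Equiv.Perm.mul_apply, hh'.2.2.2, hh.2.2.2]

theorem McFix.norm {h : Equiv.Perm leechLattice} (hh : McFix h) (w : leechLattice) :
    sqNorm ((h w : leechLattice) : GolayPt → ℤ) = sqNorm (w : GolayPt → ℤ) := hh.1.2 w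

theorem McFix.dot_rep {h : Equiv.Perm leechLattice} (hh : McFix h) (w : leechLattice) :
    dotInt repD ((h w : leechLattice) : GolayPt → ℤ) = dotInt repD (w : GolayPt → ℤ) := by
  have := co0_dot hh.1 repDL w
  rw [hh.2.1] at this
  exact this

theorem McFix.dot_T0 {h : Equiv.Perm leechLattice} (hh : McFix h) (w : leechLattice) :
    ((h w : leechLattice) : GolayPt → ℤ) none + ((h w : leechLattice) : GolayPt → ℤ) (some 0) =
      (w : GolayPt → ℤ) none + (w : GolayPt → ℤ) (some 0) := by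
  have := co0_dot hh.1 (TL 0) w
  rw [hh.2.2.1] at this
  have e1 := dot_T 0 ((h w : leechLattice) : GolayPt → ℤ)
  have e2 := dot_T 0 (w : GolayPt → ℤ)
  have e3 : dotInt ((TL 0 : leechLattice) : GolayPt → ℤ) ((h w : leechLattice) : GolayPt → ℤ) =
    dotInt (Pi.single none 4 + Pi.single (some 0) 4) ((h w : leechLattice) : GolayPt → ℤ) := rfl
  have e4 : dotInt ((TL 0 : leechLattice) : GolayPt → ℤ) (w : GolayPt → ℤ) =
    dotInt (Pi.single none 4 + Pi.single (some 0) 4) (w : GolayPt → ℤ) := rfl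
  rw [e3, e4, e1, e2] at this
  linarith

theorem McFix.dot_T1 {h : Equiv.Perm leechLattice} (hh : McFix h) (w : leechLattice) :
    ((h w : leechLattice) : GolayPt → ℤ) none + ((h w : leechLattice) : GolayPt → ℤ) (some 1) =
      (w : GolayPt → ℤ) none + (w : GolayPt → ℤ) (some 1) := by
  have := co0_dot hh.1 (TL 1) w
  rw [hh.2.2.2] at this
  have e1 := dot_T 1 ((h w : leechLattice) : GolayPt → ℤ)
  have e2 := dot_T 1 (w : GolayPt → ℤ)
  have e3 : dotInt ((TL 1 : leechLattice) : GolayPt → ℤ) ((h w : leechLattice) : GolayPt → ℤ) =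
    dotInt (Pi.single none 4 + Pi.single (some 1) 4) ((h w : leechLattice) : GolayPt → ℤ) := rfl
  have e4 : dotInt ((TL 1 : leechLattice) : GolayPt → ℤ) (w : GolayPt → ℤ) =
    dotInt (Pi.single none 4 + Pi.single (some 1) 4) (w : GolayPt → ℤ) := rfl
  rw [e3, e4, e1, e2] at this
  linarith

/-- Coordinate permutations fixing `∞`, `0`, `1` fix the reference vectors. -/
theorem mcFix_mono {σ : Equiv.Perm GolayPt} (hσ : σ ∈ M24) (h1 : σ none = none)
    (h2 : σ (some 0) = some 0) (h3 : σ (some 1) = some 1) :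
    McFix (monoPerm σ hσ ∅ Spor.empty_mem_supports_golayCode) := by
  refine ⟨monoPerm_mem σ hσ ∅ _, Subtype.ext ?_, Subtype.ext ?_, Subtype.ext ?_⟩
  · rw [monoPerm_apply]
    exact mono_repD h1
  · rw [monoPerm_apply]
    exact mono_T h1 0 0 h2
  · rw [monoPerm_apply]
    exact mono_T h1 1 1 h3

/-- Change of frame: a minimal vector `z` with `z · T_0 = 0`, `z · u = 16`, `z · T_1 = 16` gives
an automorphism fixing the reference vectors whose coordinate at `∞` is `w · (T_0 + z) / 8`. -/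
theorem mcl_reframe (z : leechLattice) (hz : sqNorm (z : GolayPt → ℤ) = 32)
    (h0 : dotInt (Pi.single none 4 + Pi.single (some 0) 4) (z : GolayPt → ℤ) = 0)
    (hu : dotInt repD (z : GolayPt → ℤ) = 16)
    (h1 : dotInt (Pi.single none 4 + Pi.single (some 1) 4) (z : GolayPt → ℤ) = 16) :
    ∃ h : Equiv.Perm leechLattice, McFix h ∧ ∀ w : leechLattice,
      8 * ((h w : leechLattice) : GolayPt → ℤ) none =
        4 * ((w : GolayPt → ℤ) none + (w : GolayPt → ℤ) (some 0)) +
          dotInt (w : GolayPt → ℤ) (z : GolayPt → ℤ) := by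
  obtain ⟨g1, hg1, hgu, hcoord⟩ := frame48 repDL (TL 0) z repD_norm (T_norm 0) hz h0
    (by
      have e : dotInt (repDL : GolayPt → ℤ) ((TL 0 : leechLattice) : GolayPt → ℤ) = 24 :=
        dot_repD_pair 0
      have e' : dotInt (repDL : GolayPt → ℤ) (z : GolayPt → ℤ) = 16 := hu
      rw [e, e']
      norm_num)
  have hc' : ∀ w : leechLattice, 8 * ((g1 w : leechLattice) : GolayPt → ℤ) none =
      4 * ((w : GolayPt → ℤ) none + (w : GolayPt → ℤ) (some 0)) +
        dotInt (w : GolayPt → ℤ) (z : GolayPt → ℤ) := by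
    intro w
    rw [hcoord w]
    have e : dotInt (w : GolayPt → ℤ) ((TL 0 : leechLattice) : GolayPt → ℤ) =
        4 * ((w : GolayPt → ℤ) none + (w : GolayPt → ℤ) (some 0)) := by
      rw [dotInt_comm]
      exact dot_T 0 _
    rw [e]
  have hv4 : ((g1 (TL 0) : leechLattice) : GolayPt → ℤ) none = 4 := by
    have := hc' (TL 0)
    have e : dotInt ((TL 0 : leechLattice) : GolayPt → ℤ) (z : GolayPt → ℤ) = 0 := h0
    have e1 : ((TL 0 : leechLattice) : GolayPt → ℤ) none = 4 := T_apply_none 0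
    have e2 : ((TL 0 : leechLattice) : GolayPt → ℤ) (some 0) = 4 := by
      show (Pi.single none 4 + Pi.single (some 0) 4 : GolayPt → ℤ) (some 0) = 4
      rw [T_apply_some, if_pos rfl]
    rw [e, e1, e2] at this
    linarith
  have hx4 : ((g1 (TL 1) : leechLattice) : GolayPt → ℤ) none = 4 := by
    have := hc' (TL 1)
    have e : dotInt ((TL 1 : leechLattice) : GolayPt → ℤ) (z : GolayPt → ℤ) = 16 := h1
    have e1 : ((TL 1 : leechLattice) : GolayPt → ℤ) none = 4 := T_apply_none 1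
    have e2 : ((TL 1 : leechLattice) : GolayPt → ℤ) (some 0) = 0 := by
      show (Pi.single none 4 + Pi.single (some 1) 4 : GolayPt → ℤ) (some 0) = 0
      rw [T_apply_some, if_neg (by decide)]
    rw [e, e1, e2] at this
    linarith
  have hdv : dotInt repD ((g1 (TL 0) : leechLattice) : GolayPt → ℤ) = 24 := by
    rw [← hgu, co0_dot hg1]
    exact dot_repD_pair 0
  have hdx : dotInt repD ((g1 (TL 1) : leechLattice) : GolayPt → ℤ) = 24 := by
    rw [← hgu, co0_dot hg1]
    exact dot_repD_pair 1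
  obtain ⟨j, hj⟩ := four_of_rep (g1 (TL 0)).2 (by rw [hg1.2]; exact T_norm 0) hdv hv4
  obtain ⟨k, hk⟩ := four_of_rep (g1 (TL 1)).2 (by rw [hg1.2]; exact T_norm 1) hdx hx4
  have hjk : j ≠ k := by
    rintro rfl
    have := co0_dot hg1 (TL 0) (TL 1)
    rw [hj, hk, dotInt_self, T_norm] at this
    have e : dotInt ((TL 0 : leechLattice) : GolayPt → ℤ) ((TL 1 : leechLattice) : GolayPt → ℤ) =
        4 * ((Pi.single none 4 + Pi.single (some 1) 4 : GolayPt → ℤ) none +
          (Pi.single none 4 + Pi.single (some 1) 4 : GolayPt → ℤ) (some 0)) := dot_T 0 _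
    rw [e, T_apply_none, T_apply_some, if_neg (by decide)] at this
    norm_num at this
  obtain ⟨σ, hσ, hσ1, hσ2, hσ3⟩ := m24_trans3 (p := none) (p' := some j) (p'' := some k)
    (q := none) (q' := some 0) (q'' := some 1) (none_ne_some j) (none_ne_some k)
    (by simpa using hjk) (by decide) (by decide) (by decide)
  have he : (∅ : Finset GolayPt) ∈ gsup := Spor.empty_mem_supports_golayCode
  refine ⟨monoPerm σ hσ ∅ he * g1, ⟨Co0.mul_mem (monoPerm_mem σ hσ ∅ he) hg1, Subtype.ext ?_,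
    Subtype.ext ?_, Subtype.ext ?_⟩, fun w => ?_⟩
  · rw [Equiv.Perm.mul_apply, monoPerm_apply, hgu]
    exact mono_repD hσ1
  · rw [Equiv.Perm.mul_apply, monoPerm_apply, hj]
    exact mono_T hσ1 j 0 hσ2
  · rw [Equiv.Perm.mul_apply, monoPerm_apply, hk]
    exact mono_T hσ1 k 1 hσ3
  · rw [Equiv.Perm.mul_apply, monoPerm_apply, mono_none hσ1]
    exact hc' w

/-! ### Octads through `∞`, `0`, `1` meeting a given octad in four points -/

theorem pair_apply_of_ne {i j q : GolayPt} (s t : ℤ) (h1 : q ≠ i) (h2 : q ≠ j) :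
    (Pi.single i s + Pi.single j t : GolayPt → ℤ) q = 0 := by
  rw [Pi.add_apply, Pi.single_eq_of_ne h1, Pi.single_eq_of_ne h2, add_zero]

theorem pair_apply_left {i j : GolayPt} (s t : ℤ) (h : i ≠ j) :
    (Pi.single i s + Pi.single j t : GolayPt → ℤ) i = s := by
  rw [Pi.add_apply, Pi.single_eq_same, Pi.single_eq_of_ne h, add_zero]

theorem oct_meet4 {c : Finset GolayPt} (hc : c ∈ octads) (hnc : none ∈ c)
    (h0c : (some 0 : GolayPt) ∉ c) :
    ∃ O' ∈ octads, none ∈ O' ∧ (some 0 : GolayPt) ∈ O' ∧ (some 1 : GolayPt) ∈ O' ∧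
      (O' ∩ c).card = 4 := by
  classical
  have h6 : 1 < ((c.erase none).erase (some 1)).card := by
    have h1 := Finset.pred_card_le_card_erase (s := c.erase none) (a := some 1)
    rw [Finset.card_erase_of_mem hnc, hc.2] at h1
    omega
  obtain ⟨a, ha, b, hb, hab⟩ := Finset.one_lt_card.mp h6
  have ha' := Finset.mem_erase.mp ha
  have ha'' := Finset.mem_erase.mp ha'.2
  have hb' := Finset.mem_erase.mp hb
  have hb'' := Finset.mem_erase.mp hb'.2
  have hinj := inj5 (a := none) (b := some 0) (c := some 1) (d := a) (e := b) (none_ne_some 0)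
    (none_ne_some 1) (Ne.symm ha''.1) (Ne.symm hb''.1) (by decide)
    (fun h => h0c (h ▸ ha''.2)) (fun h => h0c (h ▸ hb''.2)) (Ne.symm ha'.1) (Ne.symm hb'.1) hab
  have hS : (Finset.univ.image (![none, some 0, some 1, a, b] : Fin 5 → GolayPt)).card = 5 := by
    rw [Finset.card_image_of_injective _ hinj, Finset.card_univ, Fintype.card_fin]
  obtain ⟨O', ⟨hO', hSO'⟩, -⟩ := Cfsg.Agent.Lib.Helper36.octads_steiner.2 _ hS
  have m : ∀ i : Fin 5, (![none, some 0, some 1, a, b] : Fin 5 → GolayPt) i ∈ O' :=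
    fun i => hSO' (Finset.mem_image_of_mem _ (Finset.mem_univ i))
  have m0 : none ∈ O' := m 0
  have m1 : (some 0 : GolayPt) ∈ O' := m 1
  have m2 : (some 1 : GolayPt) ∈ O' := m 2
  have m3 : a ∈ O' := m 3
  have m4 : b ∈ O' := m 4
  have hne : O' ≠ c := fun h => h0c (h ▸ m1)
  have h3 : 3 ≤ (O' ∩ c).card := by
    have hsub : ({none, a, b} : Finset GolayPt) ⊆ O' ∩ c := by
      intro q hq
      simp only [Finset.mem_insert, Finset.mem_singleton] at hq
      rcases hq with rfl | rfl | rfl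
      · exact Finset.mem_inter.mpr ⟨m0, hnc⟩
      · exact Finset.mem_inter.mpr ⟨m3, ha''.2⟩
      · exact Finset.mem_inter.mpr ⟨m4, hb''.2⟩
    have h3' : ({none, a, b} : Finset GolayPt).card = 3 :=
      Finset.card_eq_three.mpr ⟨none, a, b, Ne.symm ha''.1, Ne.symm hb''.1, hab, rfl⟩
    rw [← h3']
    exact Finset.card_le_card hsub
  rcases inter_card_5_8_24 Cfsg.Agent.Lib.Helper36.golay_card_pt
    Cfsg.Agent.Lib.Helper36.octads_steiner hO' hc hne with h | h | h
  · omega
  · omega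
  · exact ⟨O', hO', m0, m1, m2, h⟩

/-! ### The auxiliary vectors for the change of frame -/

/-- For an odd member `t` of the attached set there is a minimal `z` with `z · T_0 = 0`,
`z · u = 16`, `z · T_1 = 16`, `z · t = 0`. -/
theorem mcl_even_aux {t : GolayPt → ℤ} (ht : t ∈ leechLattice) (hn : sqNorm t = 32)
    (hd : dotInt repD t = 24) (h3 : t none = 3) (h0 : t (some 0) = 1) :
    ∃ z : GolayPt → ℤ, z ∈ leechLattice ∧ sqNorm z = 32 ∧
      dotInt (Pi.single none 4 + Pi.single (some 0) 4) z = 0 ∧ dotInt repD z = 16 ∧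
      dotInt (Pi.single none 4 + Pi.single (some 1) 4) z = 16 ∧ dotInt t z = 0 := by
  classical
  obtain ⟨c, hc, hnc, hval⟩ := odd_three ht hn hd h3
  have h0c : (some 0 : GolayPt) ∉ c := by
    intro h
    have := hval (some 0) (by simp)
    rw [if_pos h, h0] at this
    norm_num at this
  obtain ⟨O', hO', m0, m1, m2, h4⟩ := oct_meet4 hc hnc h0c
  have hd4 : (O' \ c).card = 4 := by
    have := Finset.card_sdiff_add_card_inter O' c
    rw [h4, hO'.2] at this
    omega
  have h2 : 0 < (((O' \ c).erase (some 0)).erase (some 1)).card := by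
    have h1 := Finset.pred_card_le_card_erase (s := (O' \ c).erase (some 0)) (a := some 1)
    have h1' := Finset.pred_card_le_card_erase (s := O' \ c) (a := some 0)
    omega
  obtain ⟨m, hm⟩ := Finset.card_pos.mp h2
  have hm1 := Finset.mem_erase.mp hm
  have hm2 := Finset.mem_erase.mp hm1.2
  have hm3 := Finset.mem_sdiff.mp hm2.2
  have hmn : m ≠ none := fun h => hm3.2 (h ▸ hnc)
  have htm : t m = 1 := by rw [hval m hmn, if_neg hm3.2]
  have hO0 : octRep O' (some 0) = 2 := by unfold octRep; rw [if_pos m1]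
  have hOm : octRep O' m = 2 := by unfold octRep; rw [if_pos hm3.1]
  have hOn : octRep O' none = 2 := by unfold octRep; rw [if_pos m0]
  have hO1 : octRep O' (some 1) = 2 := by unfold octRep; rw [if_pos m2]
  have hwn : sqNorm (Pi.single (some 0) 4 + Pi.single m 4 : GolayPt → ℤ) = 32 := by
    rw [sqNorm_pair (Ne.symm hm2.1)]
    norm_num
  have hOw : dotInt (octRep O') (Pi.single (some 0) 4 + Pi.single m 4) = 16 := by
    rw [dotInt_add_right, dotInt_single, dotInt_single, hO0, hOm]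
    norm_num
  have hw_none : (Pi.single (some 0) 4 + Pi.single m 4 : GolayPt → ℤ) none = 0 :=
    pair_apply_of_ne 4 4 (none_ne_some 0) (Ne.symm hmn)
  have hw_0 : (Pi.single (some 0) 4 + Pi.single m 4 : GolayPt → ℤ) (some 0) = 4 :=
    pair_apply_left 4 4 (Ne.symm hm2.1)
  have hw_1 : (Pi.single (some 0) 4 + Pi.single m 4 : GolayPt → ℤ) (some 1) = 0 :=
    pair_apply_of_ne 4 4 (by decide) (Ne.symm hm1.1)
  have hsumD : ∑ i ∈ O', repD i = 12 := by
    rw [← Finset.add_sum_erase O' _ m0, Finset.sum_congr rfl (g := fun _ => (1 : ℤ))]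
    · rw [Finset.sum_const, Finset.card_erase_of_mem m0, hO'.2]
      rfl
    · intro i hi
      unfold repD
      rw [if_neg (Finset.ne_of_mem_erase hi)]
  have hsumT : ∑ i ∈ O', t i = 4 := by
    rw [← Finset.sum_inter_add_sum_sdiff O' c]
    have e1 : ∑ i ∈ O' ∩ c, t i = 0 := by
      have hnm : none ∈ O' ∩ c := Finset.mem_inter.mpr ⟨m0, hnc⟩
      rw [← Finset.add_sum_erase _ _ hnm, Finset.sum_congr rfl (g := fun _ => (-1 : ℤ))]
      · rw [Finset.sum_const, Finset.card_erase_of_mem hnm, h4, h3]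
        norm_num
      · intro i hi
        have hin := Finset.ne_of_mem_erase hi
        have hic := (Finset.mem_inter.mp (Finset.mem_of_mem_erase hi)).2
        rw [hval i hin, if_pos hic]
    have e2 : ∑ i ∈ O' \ c, t i = 4 := by
      rw [Finset.sum_congr rfl (g := fun _ => (1 : ℤ))]
      · rw [Finset.sum_const, hd4]
        norm_num
      · intro i hi
        have hic := (Finset.mem_sdiff.mp hi).2
        have hin : i ≠ none := fun h => hic (h ▸ hnc)
        rw [hval i hin, if_neg hic]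
    rw [e1, e2]
    norm_num
  refine ⟨octRep O' - (Pi.single (some 0) 4 + Pi.single m 4),
    leechLattice.sub_mem (octRep_mem hO') (pair_mem (Ne.symm hm2.1) (Or.inl rfl) (Or.inl rfl)),
    ?_, ?_, ?_, ?_, ?_⟩
  · rw [sqNorm_sub, octRep_norm, hO'.2, hOw, hwn]
    norm_num
  · rw [dotInt_sub_right, dot_T, dot_T, hOn, hO0, hw_none, hw_0]
    norm_num
  · rw [dotInt_sub_right, dot_octRep, hsumD, dotInt_add_right, dotInt_single, dotInt_single]
    have hr1 : repD (some 0) = 1 := rfl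
    have hr2 : repD m = 1 := by
      unfold repD
      rw [if_neg hmn]
    rw [hr1, hr2]
    norm_num
  · rw [dotInt_sub_right, dot_T, dot_T, hOn, hO1, hw_none, hw_1]
    norm_num
  · rw [dotInt_sub_right, dot_octRep, hsumT, dotInt_add_right, dotInt_single, dotInt_single,
      h0, htm]
    norm_num

/-- For a member `t = 2 · 1_O` with `∞, 0, 1 ∈ O` there is a minimal `z` with `z · T_0 = 0`,
`z · u = 16`, `z · T_1 = 16`, `z · t = 16`. -/
theorem mcl_four_aux {t : GolayPt → ℤ} (ht : t ∈ leechLattice) (hn : sqNorm t = 32)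
    (hd : dotInt repD t = 24) (h2 : t none = 2) (h0 : t (some 0) = 2) (h1 : t (some 1) = 2) :
    ∃ z : GolayPt → ℤ, z ∈ leechLattice ∧ sqNorm z = 32 ∧
      dotInt (Pi.single none 4 + Pi.single (some 0) 4) z = 0 ∧ dotInt repD z = 16 ∧
      dotInt (Pi.single none 4 + Pi.single (some 1) 4) z = 16 ∧ dotInt t z = 16 := by
  classical
  obtain ⟨O, hO, hnO, h0O, hteq⟩ := y77_class ht hn hd h2 h0
  have h5 : 0 < (((O.erase none).erase (some 0)).erase (some 1)).card := by
    have a1 := Finset.pred_card_le_card_erase (s := (O.erase none).erase (some 0)) (a := some 1)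
    have a2 := Finset.pred_card_le_card_erase (s := O.erase none) (a := some 0)
    have a3 := Finset.card_erase_of_mem hnO
    rw [hO.2] at a3
    omega
  obtain ⟨p, hp⟩ := Finset.card_pos.mp h5
  have hp1 := Finset.mem_erase.mp hp
  have hp2 := Finset.mem_erase.mp hp1.2
  have hp3 := Finset.mem_erase.mp hp2.2
  have htp : t p = 2 := by
    rw [hteq]
    unfold octRep
    rw [if_pos hp3.2]
  have hwn : sqNorm (Pi.single (some 0) 4 + Pi.single p 4 : GolayPt → ℤ) = 32 := by
    rw [sqNorm_pair (Ne.symm hp2.1)]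
    norm_num
  have htw : dotInt t (Pi.single (some 0) 4 + Pi.single p 4) = 16 := by
    rw [dotInt_add_right, dotInt_single, dotInt_single, h0, htp]
    norm_num
  have hw_none : (Pi.single (some 0) 4 + Pi.single p 4 : GolayPt → ℤ) none = 0 :=
    pair_apply_of_ne 4 4 (none_ne_some 0) (Ne.symm hp3.1)
  have hw_0 : (Pi.single (some 0) 4 + Pi.single p 4 : GolayPt → ℤ) (some 0) = 4 :=
    pair_apply_left 4 4 (Ne.symm hp2.1)
  have hw_1 : (Pi.single (some 0) 4 + Pi.single p 4 : GolayPt → ℤ) (some 1) = 0 :=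
    pair_apply_of_ne 4 4 (by decide) (Ne.symm hp1.1)
  refine ⟨t - (Pi.single (some 0) 4 + Pi.single p 4),
    leechLattice.sub_mem ht (pair_mem (Ne.symm hp2.1) (Or.inl rfl) (Or.inl rfl)), ?_, ?_, ?_, ?_, ?_⟩
  · rw [sqNorm_sub, hn, htw, hwn]
    norm_num
  · rw [dotInt_sub_right, dot_T, dot_T, h2, h0, hw_none, hw_0]
    norm_num
  · rw [dotInt_sub_right, hd, dotInt_add_right, dotInt_single, dotInt_single]
    have hr1 : repD (some 0) = 1 := rfl
    have hr2 : repD p = 1 := by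
      unfold repD
      rw [if_neg hp3.1]
    rw [hr1, hr2]
    norm_num
  · rw [dotInt_sub_right, dot_T, dot_T, h2, h1, hw_none, hw_1]
    norm_num
  · rw [dotInt_sub_right, dotInt_self, hn, htw]
    norm_num

/-! ### Normal forms at inner product 16 -/

theorem inj4 {a b c d : GolayPt} (hab : a ≠ b) (hac : a ≠ c) (had : a ≠ d) (hbc : b ≠ c)
    (hbd : b ≠ d) (hcd : c ≠ d) : Function.Injective (![a, b, c, d] : Fin 4 → GolayPt) := by
  intro i j h
  fin_cases i <;> fin_cases j <;> simp_all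

theorem mcl16_four (t : leechLattice) (hn : sqNorm (t : GolayPt → ℤ) = 32)
    (hd : dotInt repD (t : GolayPt → ℤ) = 24) (h4 : (t : GolayPt → ℤ) none = 4)
    (h0 : (t : GolayPt → ℤ) (some 0) = 0) (h1 : (t : GolayPt → ℤ) (some 1) = 0) :
    ∃ h : Equiv.Perm leechLattice, McFix h ∧
      ((h t : leechLattice) : GolayPt → ℤ) = Pi.single none 4 + Pi.single (some 2) 4 := by
  obtain ⟨j, hj⟩ := four_of_rep t.2 hn hd h4
  have hj0 : j ≠ 0 := by
    rintro rfl
    rw [hj, T_apply_some, if_pos rfl] at h0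
    norm_num at h0
  have hj1 : j ≠ 1 := by
    rintro rfl
    rw [hj, T_apply_some, if_pos rfl] at h1
    norm_num at h1
  have hx := inj4 (a := none) (b := some 0) (c := some 1) (d := some j) (none_ne_some 0)
    (none_ne_some 1) (none_ne_some j) (by decide) (by simpa using hj0.symm)
    (by simpa using hj1.symm)
  have hy := inj4 (a := none) (b := some 0) (c := some 1) (d := some 2) (none_ne_some 0)
    (none_ne_some 1) (none_ne_some 2) (by decide) (by decide) (by decide)
  obtain ⟨σ, hσ, hs⟩ := m24_trans_fin (n := 4) (by norm_num) ⟨_, hx⟩ ⟨_, hy⟩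
  have s0 : σ none = none := hs 0
  have s1 : σ (some 0) = some 0 := hs 1
  have s2 : σ (some 1) = some 1 := hs 2
  have s3 : σ (some j) = some 2 := hs 3
  refine ⟨_, mcFix_mono hσ s0 s1 s2, ?_⟩
  rw [monoPerm_apply, hj]
  exact mono_T s0 j 2 s3

theorem mcl16_two (t : leechLattice) (hn : sqNorm (t : GolayPt → ℤ) = 32)
    (hd : dotInt repD (t : GolayPt → ℤ) = 24) (h2 : (t : GolayPt → ℤ) none = 2)
    (h0 : (t : GolayPt → ℤ) (some 0) = 2) (h1 : (t : GolayPt → ℤ) (some 1) = 2) :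
    ∃ h : Equiv.Perm leechLattice, McFix h ∧
      ((h t : leechLattice) : GolayPt → ℤ) = Pi.single none 4 + Pi.single (some 2) 4 := by
  obtain ⟨z, hzL, hzn, hz0, hzu, hz1, hzt⟩ := mcl_four_aux t.2 hn hd h2 h0 h1
  obtain ⟨h1', hh1, hc⟩ := mcl_reframe ⟨z, hzL⟩ hzn hz0 hzu hz1
  have e4 : ((h1' t : leechLattice) : GolayPt → ℤ) none = 4 := by
    have := hc t
    have e : dotInt (t : GolayPt → ℤ) ((⟨z, hzL⟩ : leechLattice) : GolayPt → ℤ) = 16 := hzt
    rw [e, h2, h0] at this
    linarith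
  have e0 : ((h1' t : leechLattice) : GolayPt → ℤ) (some 0) = 0 := by
    have := hh1.dot_T0 t
    rw [e4, h2, h0] at this
    linarith
  have e1 : ((h1' t : leechLattice) : GolayPt → ℤ) (some 1) = 0 := by
    have := hh1.dot_T1 t
    rw [e4, h2, h1] at this
    linarith
  obtain ⟨h2', hh2, hfin⟩ := mcl16_four (h1' t) ((hh1.norm t).trans hn)
    ((hh1.dot_rep t).trans hd) e4 e0 e1
  exact ⟨h2' * h1', hh2.mul hh1, by rw [Equiv.Perm.mul_apply]; exact hfin⟩

theorem mcl16_three (t : leechLattice) (hn : sqNorm (t : GolayPt → ℤ) = 32)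
    (hd : dotInt repD (t : GolayPt → ℤ) = 24) (h3 : (t : GolayPt → ℤ) none = 3)
    (h0 : (t : GolayPt → ℤ) (some 0) = 1) (h1 : (t : GolayPt → ℤ) (some 1) = 1) :
    ∃ h : Equiv.Perm leechLattice, McFix h ∧
      ((h t : leechLattice) : GolayPt → ℤ) = Pi.single none 4 + Pi.single (some 2) 4 := by
  obtain ⟨z, hzL, hzn, hz0, hzu, hz1, hzt⟩ := mcl_even_aux t.2 hn hd h3 h0
  obtain ⟨h1', hh1, hc⟩ := mcl_reframe ⟨z, hzL⟩ hzn hz0 hzu hz1
  have e2 : ((h1' t : leechLattice) : GolayPt → ℤ) none = 2 := by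
    have := hc t
    have e : dotInt (t : GolayPt → ℤ) ((⟨z, hzL⟩ : leechLattice) : GolayPt → ℤ) = 0 := hzt
    rw [e, h3, h0] at this
    linarith
  have e0 : ((h1' t : leechLattice) : GolayPt → ℤ) (some 0) = 2 := by
    have := hh1.dot_T0 t
    rw [e2, h3, h0] at this
    linarith
  have e1 : ((h1' t : leechLattice) : GolayPt → ℤ) (some 1) = 2 := by
    have := hh1.dot_T1 t
    rw [e2, h3, h1] at this
    linarith
  obtain ⟨h2', hh2, hfin⟩ := mcl16_two (h1' t) ((hh1.norm t).trans hn)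
    ((hh1.dot_rep t).trans hd) e2 e0 e1
  exact ⟨h2' * h1', hh2.mul hh1, by rw [Equiv.Perm.mul_apply]; exact hfin⟩

/-- Members at inner product 16 from `T_1` are moved to `T_2` by the stabiliser of the reference
vectors. -/
theorem mcl16 (t : leechLattice) (hn : sqNorm (t : GolayPt → ℤ) = 32)
    (hd : dotInt repD (t : GolayPt → ℤ) = 24)
    (h0 : (t : GolayPt → ℤ) (some 0) = 4 - (t : GolayPt → ℤ) none)
    (h1 : (t : GolayPt → ℤ) (some 1) = 4 - (t : GolayPt → ℤ) none) :
    ∃ h : Equiv.Perm leechLattice, McFix h ∧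
      ((h t : leechLattice) : GolayPt → ℤ) = Pi.single none 4 + Pi.single (some 2) 4 := by
  have htA : (t : GolayPt → ℤ) ∈ dAll 5 24 :=
    (mem_dAll (Or.inl rfl) (by norm_num) _).mpr ⟨t.2, hn, hd⟩
  rcases mcl_val htA h0 with h2 | h3 | h4
  · exact mcl16_two t hn hd h2 (by rw [h0, h2]; norm_num) (by rw [h1, h2]; norm_num)
  · exact mcl16_three t hn hd h3 (by rw [h0, h3]; norm_num) (by rw [h1, h3]; norm_num)
  · exact mcl16_four t hn hd h4 (by rw [h0, h4]; norm_num) (by rw [h1, h4]; norm_num)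

/-! ### Normal forms at inner product 8 -/

/-- A reference octad through `∞` and `0` avoiding `1`. -/
def octS : Finset GolayPt := Cfsg.Agent.Lib.Helper36.ms 8391797

theorem octS_mem : octS ∈ octads :=
  Cfsg.Agent.Lib.Helper36.ms_mem_octads (by decide +kernel) (by decide +kernel)

theorem none_mem_octS : (none : GolayPt) ∈ octS := by
  rw [octS, Cfsg.Agent.Lib.Helper36.mem_ms]
  decide

theorem zero_mem_octS : (some 0 : GolayPt) ∈ octS := by
  rw [octS, Cfsg.Agent.Lib.Helper36.mem_ms]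
  decide

theorem one_notMem_octS : (some 1 : GolayPt) ∉ octS := by
  rw [octS, Cfsg.Agent.Lib.Helper36.mem_ms]
  decide

/-- The stabiliser of `∞`, `0`, `1` in the group of the code is transitive on the octads through
`∞` and `0` avoiding `1`. -/
theorem oct_trans_m21 {O O' : Finset GolayPt} (hO : O ∈ octads) (hO' : O' ∈ octads)
    (h1 : none ∈ O) (h2 : (some 0 : GolayPt) ∈ O) (h3 : (some 1 : GolayPt) ∉ O)
    (h1' : none ∈ O') (h2' : (some 0 : GolayPt) ∈ O') (h3' : (some 1 : GolayPt) ∉ O') :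
    ∃ σ ∈ M24, σ none = none ∧ σ (some 0) = some 0 ∧ σ (some 1) = some 1 ∧
      ∀ q, σ q ∈ O' ↔ q ∈ O := by
  obtain ⟨σ1, hσ1, s1, s2, hmem⟩ := oct_trans_two hO hO' h1 h2 (none_ne_some 0) h1' h2'
    (none_ne_some 0)
  have hp : σ1 (some 1) ∉ O' := fun h => h3 ((hmem _).mp h)
  obtain ⟨k, hk, hkp⟩ := Cfsg.Agent.Lib.Helper36.fix_trans hO' hp h3'
  have hkfix : ∀ y ∈ O', k y = y := fun y hy =>
    (mem_fixingSubgroup_iff _).mp hk.2 y (Finset.mem_coe.mpr hy)
  refine ⟨k * σ1, M24.mul_mem hk.1 hσ1, ?_, ?_, ?_, fun q => ?_⟩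
  · rw [Equiv.Perm.mul_apply, s1]
    exact hkfix _ h1'
  · rw [Equiv.Perm.mul_apply, s2]
    exact hkfix _ h2'
  · rw [Equiv.Perm.mul_apply]
    exact hkp
  · rw [Equiv.Perm.mul_apply, ← hmem]
    constructor
    · intro h
      have := hkfix _ h
      rw [← k.injective this]
      exact h
    · intro h
      rw [hkfix _ h]
      exact h

theorem mcl8_two (t : leechLattice) (hn : sqNorm (t : GolayPt → ℤ) = 32)
    (hd : dotInt repD (t : GolayPt → ℤ) = 24) (h2 : (t : GolayPt → ℤ) none = 2)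
    (h0 : (t : GolayPt → ℤ) (some 0) = 2) (h1 : (t : GolayPt → ℤ) (some 1) = 0) :
    ∃ h : Equiv.Perm leechLattice, McFix h ∧
      ((h t : leechLattice) : GolayPt → ℤ) = octRep octS := by
  obtain ⟨O, hO, hnO, h0O, hteq⟩ := y77_class t.2 hn hd h2 h0
  have h1O : (some 1 : GolayPt) ∉ O := by
    intro h
    have e := congrFun hteq (some 1)
    unfold octRep at e
    rw [if_pos h, h1] at e
    norm_num at e
  obtain ⟨σ, hσ, s0, s1, s2, hmem⟩ := oct_trans_m21 hO octS_mem hnO h0O h1O none_mem_octS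
    zero_mem_octS one_notMem_octS
  refine ⟨_, mcFix_mono hσ s0 s1 s2, ?_⟩
  rw [monoPerm_apply, hteq]
  exact mono_octRep hmem

theorem mcl8_three (t : leechLattice) (hn : sqNorm (t : GolayPt → ℤ) = 32)
    (hd : dotInt repD (t : GolayPt → ℤ) = 24) (h3 : (t : GolayPt → ℤ) none = 3)
    (h0 : (t : GolayPt → ℤ) (some 0) = 1) (h1 : (t : GolayPt → ℤ) (some 1) = -1) :
    ∃ h : Equiv.Perm leechLattice, McFix h ∧
      ((h t : leechLattice) : GolayPt → ℤ) = octRep octS := by
  obtain ⟨z, hzL, hzn, hz0, hzu, hz1, hzt⟩ := mcl_even_aux t.2 hn hd h3 h0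
  obtain ⟨h1', hh1, hc⟩ := mcl_reframe ⟨z, hzL⟩ hzn hz0 hzu hz1
  have e2 : ((h1' t : leechLattice) : GolayPt → ℤ) none = 2 := by
    have := hc t
    have e : dotInt (t : GolayPt → ℤ) ((⟨z, hzL⟩ : leechLattice) : GolayPt → ℤ) = 0 := hzt
    rw [e, h3, h0] at this
    linarith
  have e0 : ((h1' t : leechLattice) : GolayPt → ℤ) (some 0) = 2 := by
    have := hh1.dot_T0 t
    rw [e2, h3, h0] at this
    linarith
  have e1 : ((h1' t : leechLattice) : GolayPt → ℤ) (some 1) = 0 := by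
    have := hh1.dot_T1 t
    rw [e2, h3, h1] at this
    linarith
  obtain ⟨h2', hh2, hfin⟩ := mcl8_two (h1' t) ((hh1.norm t).trans hn)
    ((hh1.dot_rep t).trans hd) e2 e0 e1
  exact ⟨h2' * h1', hh2.mul hh1, by rw [Equiv.Perm.mul_apply]; exact hfin⟩

/-- Members at inner product 8 from `T_1` are moved to `2 · 1_S` by the stabiliser of the
reference vectors. -/
theorem mcl8 (t : leechLattice) (hn : sqNorm (t : GolayPt → ℤ) = 32)
    (hd : dotInt repD (t : GolayPt → ℤ) = 24)
    (h0 : (t : GolayPt → ℤ) (some 0) = 4 - (t : GolayPt → ℤ) none)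
    (h1 : (t : GolayPt → ℤ) (some 1) = 2 - (t : GolayPt → ℤ) none) :
    ∃ h : Equiv.Perm leechLattice, McFix h ∧
      ((h t : leechLattice) : GolayPt → ℤ) = octRep octS := by
  have htA : (t : GolayPt → ℤ) ∈ dAll 5 24 :=
    (mem_dAll (Or.inl rfl) (by norm_num) _).mpr ⟨t.2, hn, hd⟩
  rcases mcl_val htA h0 with h2 | h3 | h4
  · exact mcl8_two t hn hd h2 (by rw [h0, h2]; norm_num) (by rw [h1, h2]; norm_num)
  · exact mcl8_three t hn hd h3 (by rw [h0, h3]; norm_num) (by rw [h1, h3]; norm_num)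
  · exfalso
    obtain ⟨j, hj⟩ := four_of_rep t.2 hn hd h4
    rw [h4, hj, T_apply_some] at h1
    split_ifs at h1 <;> norm_num at h1

/-! ### The two classes -/

theorem mcl_dot_cases {t : GolayPt → ℤ} (ht : t ∈ leechLattice) (hn : sqNorm t = 32)
    (hd : dotInt repD t = 24) (h0 : t (some 0) = 4 - t none)
    (hne : t ≠ Pi.single none 4 + Pi.single (some 1) 4) :
    t (some 1) = 4 - t none ∨ t (some 1) = 2 - t none := by
  have htA : t ∈ dAll 5 24 := (mem_dAll (Or.inl rfl) (by norm_num) t).mpr ⟨ht, hn, hd⟩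
  rcases mcl_val htA h0 with h2 | h3 | h4
  · obtain ⟨O, hO, hnO, h0O, hteq⟩ := y77_class ht hn hd h2 (by rw [h0, h2]; norm_num)
    have e := congrFun hteq (some 1)
    unfold octRep at e
    by_cases h1O : (some 1 : GolayPt) ∈ O
    · left
      rw [if_pos h1O] at e
      rw [e, h2]
      norm_num
    · right
      rw [if_neg h1O] at e
      rw [e, h2]
      norm_num
  · obtain ⟨c, hc, hnc, hval⟩ := odd_three ht hn hd h3
    have e := hval (some 1) (by simp)
    by_cases h1c : (some 1 : GolayPt) ∈ c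
    · right
      rw [e, if_pos h1c, h3]
      norm_num
    · left
      rw [e, if_neg h1c, h3]
      norm_num
  · obtain ⟨j, hj⟩ := four_of_rep ht hn hd h4
    have hj1 : j ≠ 1 := by
      rintro rfl
      exact hne hj
    left
    have e := congrFun hj (some 1)
    rw [T_apply_some, if_neg (Ne.symm hj1)] at e
    rw [e, h4]
    norm_num

/-- Four vectors taken to the same quadruple by automorphisms. -/
theorem quad_trans_of {a b c d d' : leechLattice} {A B C D : GolayPt → ℤ}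
    (h : ∃ g : Equiv.Perm leechLattice, g ∈ Co0 ∧ ((g a : leechLattice) : GolayPt → ℤ) = A ∧
      ((g b : leechLattice) : GolayPt → ℤ) = B ∧ ((g c : leechLattice) : GolayPt → ℤ) = C ∧
      ((g d : leechLattice) : GolayPt → ℤ) = D)
    (h' : ∃ g : Equiv.Perm leechLattice, g ∈ Co0 ∧ ((g a : leechLattice) : GolayPt → ℤ) = A ∧
      ((g b : leechLattice) : GolayPt → ℤ) = B ∧ ((g c : leechLattice) : GolayPt → ℤ) = C ∧
      ((g d' : leechLattice) : GolayPt → ℤ) = D) :
    ∃ g : ↥Co0, g • a = a ∧ g • b = b ∧ g • c = c ∧ g • d = d' := by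
  obtain ⟨g, hg, hga, hgb, hgc, hgd⟩ := h
  obtain ⟨g', hg', hga', hgb', hgc', hgd'⟩ := h'
  refine ⟨⟨g'⁻¹ * g, Co0.mul_mem (Co0.inv_mem hg') hg⟩, ?_, ?_, ?_, ?_⟩
  · show (g'⁻¹ * g) a = a
    rw [Equiv.Perm.mul_apply]
    have e : g a = g' a := Subtype.ext (hga.trans hga'.symm)
    rw [e]
    exact Equiv.symm_apply_apply g' a
  · show (g'⁻¹ * g) b = b
    rw [Equiv.Perm.mul_apply]
    have e : g b = g' b := Subtype.ext (hgb.trans hgb'.symm)
    rw [e]
    exact Equiv.symm_apply_apply g' b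
  · show (g'⁻¹ * g) c = c
    rw [Equiv.Perm.mul_apply]
    have e : g c = g' c := Subtype.ext (hgc.trans hgc'.symm)
    rw [e]
    exact Equiv.symm_apply_apply g' c
  · show (g'⁻¹ * g) d = d'
    rw [Equiv.Perm.mul_apply]
    have e : g d = g' d' := Subtype.ext (hgd.trans hgd'.symm)
    rw [e]
    exact Equiv.symm_apply_apply g' d'

/-- The stabiliser of `u`, `v`, `x` is transitive on each of the two classes of further members
of the attached set. -/
theorem mcl_rank3_trans (u v x y y' : leechLattice) (hu : sqNorm (u : GolayPt → ℤ) = 48)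
    (hv : sqNorm (v : GolayPt → ℤ) = 32 ∧
      sqNorm ((u : GolayPt → ℤ) - (v : GolayPt → ℤ)) = 32) (hx : x ∈ mclSet u v)
    (hy : y ∈ mclSet u v) (hy' : y' ∈ mclSet u v) (hyx : y ≠ x) (hyx' : y' ≠ x)
    (hdd : dotInt (x : GolayPt → ℤ) (y : GolayPt → ℤ) =
      dotInt (x : GolayPt → ℤ) (y' : GolayPt → ℤ)) :
    ∃ g : ↥Co0, g • u = u ∧ g • v = v ∧ g • x = x ∧ g • y = y' := by
  obtain ⟨g0, hg0, hgu, hgv, hgx⟩ := mcl_nf u v x hu hv hx
  have eu : g0 u = repDL := Subtype.ext hgu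
  have ev : g0 v = TL 0 := Subtype.ext hgv
  have ex : g0 x = TL 1 := Subtype.ext hgx
  have fixes : ∀ h : Equiv.Perm leechLattice, McFix h →
      (((h * g0) u : leechLattice) : GolayPt → ℤ) = repD ∧
      (((h * g0) v : leechLattice) : GolayPt → ℤ) = Pi.single none 4 + Pi.single (some 0) 4 ∧
      (((h * g0) x : leechLattice) : GolayPt → ℤ) = Pi.single none 4 + Pi.single (some 1) 4 := by
    intro h hh
    refine ⟨?_, ?_, ?_⟩
    · rw [Equiv.Perm.mul_apply, eu, hh.2.1]
      rfl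
    · rw [Equiv.Perm.mul_apply, ev, hh.2.2.1]
      rfl
    · rw [Equiv.Perm.mul_apply, ex, hh.2.2.2]
      rfl
  have key : ∀ w ∈ mclSet u v, w ≠ x →
      (dotInt (x : GolayPt → ℤ) (w : GolayPt → ℤ) = 16 ∧
        ∃ g : Equiv.Perm leechLattice, g ∈ Co0 ∧ ((g u : leechLattice) : GolayPt → ℤ) = repD ∧
          ((g v : leechLattice) : GolayPt → ℤ) = Pi.single none 4 + Pi.single (some 0) 4 ∧
          ((g x : leechLattice) : GolayPt → ℤ) = Pi.single none 4 + Pi.single (some 1) 4 ∧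
          ((g w : leechLattice) : GolayPt → ℤ) = Pi.single none 4 + Pi.single (some 2) 4) ∨
      (dotInt (x : GolayPt → ℤ) (w : GolayPt → ℤ) = 8 ∧
        ∃ g : Equiv.Perm leechLattice, g ∈ Co0 ∧ ((g u : leechLattice) : GolayPt → ℤ) = repD ∧
          ((g v : leechLattice) : GolayPt → ℤ) = Pi.single none 4 + Pi.single (some 0) 4 ∧
          ((g x : leechLattice) : GolayPt → ℤ) = Pi.single none 4 + Pi.single (some 1) 4 ∧
          ((g w : leechLattice) : GolayPt → ℤ) = octRep octS) := by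
    intro w hw hwx
    obtain ⟨b1, b2, b3⟩ := (mclSet_iff u v w hu).mp hw
    have f1 : sqNorm ((g0 w : leechLattice) : GolayPt → ℤ) = 32 := by rw [hg0.2]; exact b1
    have f2 : dotInt repD ((g0 w : leechLattice) : GolayPt → ℤ) = 24 := by
      have c1 := co0_dot hg0 u w
      rw [hgu, b2] at c1
      exact c1
    have f3 : ((g0 w : leechLattice) : GolayPt → ℤ) (some 0) =
        4 - ((g0 w : leechLattice) : GolayPt → ℤ) none := by
      have c2 := co0_dot hg0 v w
      rw [hgv, b3, dot_T] at c2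
      omega
    have f4 : dotInt (x : GolayPt → ℤ) (w : GolayPt → ℤ) =
        4 * (((g0 w : leechLattice) : GolayPt → ℤ) none +
          ((g0 w : leechLattice) : GolayPt → ℤ) (some 1)) := by
      have c3 := co0_dot hg0 x w
      rw [hgx, dot_T] at c3
      exact c3.symm
    have hne : ((g0 w : leechLattice) : GolayPt → ℤ) ≠ Pi.single none 4 + Pi.single (some 1) 4 := by
      intro h
      apply hwx
      apply g0.injective
      exact Subtype.ext (h.trans hgx.symm)
    rcases mcl_dot_cases (g0 w).2 f1 f2 f3 hne with h1 | h1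
    · left
      obtain ⟨h, hh, hfin⟩ := mcl16 (g0 w) f1 f2 f3 h1
      obtain ⟨a1, a2, a3⟩ := fixes h hh
      exact ⟨by rw [f4, h1]; ring, h * g0, Co0.mul_mem hh.1 hg0, a1, a2, a3,
        by rw [Equiv.Perm.mul_apply]; exact hfin⟩
    · right
      obtain ⟨h, hh, hfin⟩ := mcl8 (g0 w) f1 f2 f3 h1
      obtain ⟨a1, a2, a3⟩ := fixes h hh
      exact ⟨by rw [f4, h1]; ring, h * g0, Co0.mul_mem hh.1 hg0, a1, a2, a3,
        by rw [Equiv.Perm.mul_apply]; exact hfin⟩
  rcases key y hy hyx with ⟨d1, n1⟩ | ⟨d1, n1⟩ <;> rcases key y' hy' hyx' with ⟨d2, n2⟩ | ⟨d2, n2⟩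
  · exact quad_trans_of n1 n2
  · exfalso
    rw [d1, d2] at hdd
    norm_num at hdd
  · exfalso
    rw [d1, d2] at hdd
    norm_num at hdd
  · exact quad_trans_of n1 n2

/-! ### The two counts -/

theorem mcl_card112 (u v x : leechLattice) (hu : sqNorm (u : GolayPt → ℤ) = 48)
    (hv : sqNorm (v : GolayPt → ℤ) = 32 ∧
      sqNorm ((u : GolayPt → ℤ) - (v : GolayPt → ℤ)) = 32) (hx : x ∈ mclSet u v) :
    {y : leechLattice | y ∈ mclSet u v ∧
      dotInt (x : GolayPt → ℤ) (y : GolayPt → ℤ) = 8}.ncard = 112 := by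
  obtain ⟨g, hg, hgu, hgv, hgx⟩ := mcl_nf u v x hu hv hx
  have e1 : {y : leechLattice | y ∈ mclSet u v ∧
      dotInt (x : GolayPt → ℤ) (y : GolayPt → ℤ) = 8} =
      {y : leechLattice | (fun n a b c => n = 32 ∧ a = 24 ∧ b = 16 ∧ c = 8)
        (sqNorm (y : GolayPt → ℤ))
        (dotInt (u : GolayPt → ℤ) (y : GolayPt → ℤ))
        (dotInt (v : GolayPt → ℤ) (y : GolayPt → ℤ))
        (dotInt (x : GolayPt → ℤ) (y : GolayPt → ℤ))} := by
    ext y
    show (y ∈ mclSet u v ∧ dotInt (x : GolayPt → ℤ) (y : GolayPt → ℤ) = 8) ↔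
      (sqNorm (y : GolayPt → ℤ) = 32 ∧ dotInt (u : GolayPt → ℤ) (y : GolayPt → ℤ) = 24 ∧
        dotInt (v : GolayPt → ℤ) (y : GolayPt → ℤ) = 16 ∧
        dotInt (x : GolayPt → ℤ) (y : GolayPt → ℤ) = 8)
    rw [mclSet_iff u v y hu]
    tauto
  rw [e1]
  refine (ncard_set_co0 hg u v x (fun n a b c => n = 32 ∧ a = 24 ∧ b = 16 ∧ c = 8)).trans ?_
  rw [hgu, hgv, hgx]
  have e2 : {y : leechLattice | (fun n a b c => n = 32 ∧ a = 24 ∧ b = 16 ∧ c = 8)
      (sqNorm (y : GolayPt → ℤ)) (dotInt repD (y : GolayPt → ℤ))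
      (dotInt (Pi.single none 4 + Pi.single (some 0) 4) (y : GolayPt → ℤ))
      (dotInt (Pi.single none 4 + Pi.single (some 1) 4) (y : GolayPt → ℤ))} =
      {y : leechLattice | sqNorm (y : GolayPt → ℤ) = 32 ∧ dotInt repD (y : GolayPt → ℤ) = 24 ∧
        (fun t : GolayPt → ℤ => t (some 0) = 4 - t none ∧ t (some 1) = 2 - t none)
          (y : GolayPt → ℤ)} := by
    ext y
    show (sqNorm (y : GolayPt → ℤ) = 32 ∧ dotInt repD (y : GolayPt → ℤ) = 24 ∧
      dotInt (Pi.single none 4 + Pi.single (some 0) 4) (y : GolayPt → ℤ) = 16 ∧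
      dotInt (Pi.single none 4 + Pi.single (some 1) 4) (y : GolayPt → ℤ) = 8) ↔
      (sqNorm (y : GolayPt → ℤ) = 32 ∧ dotInt repD (y : GolayPt → ℤ) = 24 ∧
      (y : GolayPt → ℤ) (some 0) = 4 - (y : GolayPt → ℤ) none ∧
      (y : GolayPt → ℤ) (some 1) = 2 - (y : GolayPt → ℤ) none)
    rw [dot_T, dot_T]
    constructor
    · rintro ⟨a1, a2, a3, a4⟩
      exact ⟨a1, a2, by omega, by omega⟩
    · rintro ⟨a1, a2, a3, a4⟩
      exact ⟨a1, a2, by omega, by omega⟩
  refine (congrArg Set.ncard e2).trans ?_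
  refine (ncard_rep24
    (fun t : GolayPt → ℤ => t (some 0) = 4 - t none ∧ t (some 1) = 2 - t none)).trans ?_
  rw [card_fiber_none (Or.inl rfl) (by norm_num) (by norm_num)
    (fun t : GolayPt → ℤ => t (some 0) = 4 - t none ∧ t (some 1) = 2 - t none)
    (fun a => some (4 - a)) (fun a => some (2 - a))
    (fun x => by simp only [okb_some])]
  exact num_mcl112

theorem mcl_card162 (u v x : leechLattice) (hu : sqNorm (u : GolayPt → ℤ) = 48)
    (hv : sqNorm (v : GolayPt → ℤ) = 32 ∧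
      sqNorm ((u : GolayPt → ℤ) - (v : GolayPt → ℤ)) = 32) (hx : x ∈ mclSet u v) :
    {y : leechLattice | y ∈ mclSet u v ∧ y ≠ x ∧
      dotInt (x : GolayPt → ℤ) (y : GolayPt → ℤ) = 16}.ncard = 162 := by
  obtain ⟨g, hg, hgu, hgv, hgx⟩ := mcl_nf u v x hu hv hx
  have hxn : sqNorm (x : GolayPt → ℤ) = 32 := ((mclSet_iff u v x hu).mp hx).1
  have e1 : {y : leechLattice | y ∈ mclSet u v ∧ y ≠ x ∧
      dotInt (x : GolayPt → ℤ) (y : GolayPt → ℤ) = 16} =
      {y : leechLattice | (fun n a b c => n = 32 ∧ a = 24 ∧ b = 16 ∧ c = 16)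
        (sqNorm (y : GolayPt → ℤ))
        (dotInt (u : GolayPt → ℤ) (y : GolayPt → ℤ))
        (dotInt (v : GolayPt → ℤ) (y : GolayPt → ℤ))
        (dotInt (x : GolayPt → ℤ) (y : GolayPt → ℤ))} := by
    ext y
    show (y ∈ mclSet u v ∧ y ≠ x ∧ dotInt (x : GolayPt → ℤ) (y : GolayPt → ℤ) = 16) ↔
      (sqNorm (y : GolayPt → ℤ) = 32 ∧ dotInt (u : GolayPt → ℤ) (y : GolayPt → ℤ) = 24 ∧
        dotInt (v : GolayPt → ℤ) (y : GolayPt → ℤ) = 16 ∧
        dotInt (x : GolayPt → ℤ) (y : GolayPt → ℤ) = 16)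
    rw [mclSet_iff u v y hu]
    constructor
    · rintro ⟨⟨a1, a2, a3⟩, -, a4⟩
      exact ⟨a1, a2, a3, a4⟩
    · rintro ⟨a1, a2, a3, a4⟩
      refine ⟨⟨a1, a2, a3⟩, ?_, a4⟩
      rintro rfl
      rw [dotInt_self, a1] at a4
      norm_num at a4
  rw [e1]
  refine (ncard_set_co0 hg u v x (fun n a b c => n = 32 ∧ a = 24 ∧ b = 16 ∧ c = 16)).trans ?_
  rw [hgu, hgv, hgx]
  have e2 : {y : leechLattice | (fun n a b c => n = 32 ∧ a = 24 ∧ b = 16 ∧ c = 16)
      (sqNorm (y : GolayPt → ℤ)) (dotInt repD (y : GolayPt → ℤ))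
      (dotInt (Pi.single none 4 + Pi.single (some 0) 4) (y : GolayPt → ℤ))
      (dotInt (Pi.single none 4 + Pi.single (some 1) 4) (y : GolayPt → ℤ))} =
      {y : leechLattice | sqNorm (y : GolayPt → ℤ) = 32 ∧ dotInt repD (y : GolayPt → ℤ) = 24 ∧
        (fun t : GolayPt → ℤ => t (some 0) = 4 - t none ∧ t (some 1) = 4 - t none)
          (y : GolayPt → ℤ)} := by
    ext y
    show (sqNorm (y : GolayPt → ℤ) = 32 ∧ dotInt repD (y : GolayPt → ℤ) = 24 ∧
      dotInt (Pi.single none 4 + Pi.single (some 0) 4) (y : GolayPt → ℤ) = 16 ∧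
      dotInt (Pi.single none 4 + Pi.single (some 1) 4) (y : GolayPt → ℤ) = 16) ↔
      (sqNorm (y : GolayPt → ℤ) = 32 ∧ dotInt repD (y : GolayPt → ℤ) = 24 ∧
      (y : GolayPt → ℤ) (some 0) = 4 - (y : GolayPt → ℤ) none ∧
      (y : GolayPt → ℤ) (some 1) = 4 - (y : GolayPt → ℤ) none)
    rw [dot_T, dot_T]
    constructor
    · rintro ⟨a1, a2, a3, a4⟩
      exact ⟨a1, a2, by omega, by omega⟩
    · rintro ⟨a1, a2, a3, a4⟩
      exact ⟨a1, a2, by omega, by omega⟩
  refine (congrArg Set.ncard e2).trans ?_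
  refine (ncard_rep24
    (fun t : GolayPt → ℤ => t (some 0) = 4 - t none ∧ t (some 1) = 4 - t none)).trans ?_
  rw [card_fiber_none (Or.inl rfl) (by norm_num) (by norm_num)
    (fun t : GolayPt → ℤ => t (some 0) = 4 - t none ∧ t (some 1) = 4 - t none)
    (fun a => some (4 - a)) (fun a => some (4 - a))
    (fun x => by simp only [okb_some])]
  exact num_mcl162

end Cfsg.Agent.Lib.Helper10
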