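import Mathlib
import Cfsg.Prelude.Def_Sporadic_a
import Cfsg.Prelude.Def_Spor_Conway
import Cfsg.Agent.Lib.Helper10.McL2

set_option autoImplicit false

namespace Cfsg.Agent.Lib.Helper10

open Cfsg Cfsg.Agent.Lib.Helper9
open scoped Pointwise

/-! ### Transitivity of the group of the code on octads with marked points -/

/-- Octads with two marked points inside and one outside. -/
theorem oct_trans_two_out {O O' : Finset GolayPt} (hO : O ∈ octads) (hO' : O' ∈ octads)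
    {a b r a' b' r' : GolayPt} (ha : a ∈ O) (hb : b ∈ O) (hab : a ≠ b) (hr : r ∉ O)
    (ha' : a' ∈ O') (hb' : b' ∈ O') (hab' : a' ≠ b') (hr' : r' ∉ O') :
    ∃ σ ∈ M24, σ a = a' ∧ σ b = b' ∧ σ r = r' ∧ ∀ q, σ q ∈ O' ↔ q ∈ O := by
  obtain ⟨σ1, hσ1, s1, s2, hmem⟩ := oct_trans_two hO hO' ha hb hab ha' hb' hab'
  have hp : σ1 r ∉ O' := fun h => hr ((hmem _).mp h)
  obtain ⟨k, hk, hkp⟩ := Cfsg.Agent.Lib.Helper36.fix_trans hO' hp hr'
  have hkfix : ∀ y ∈ O', k y = y := fun y hy =>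
    (mem_fixingSubgroup_iff _).mp hk.2 y (Finset.mem_coe.mpr hy)
  refine ⟨k * σ1, M24.mul_mem hk.1 hσ1, ?_, ?_, ?_, fun q => ?_⟩
  · rw [Equiv.Perm.mul_apply, s1]
    exact hkfix _ ha'
  · rw [Equiv.Perm.mul_apply, s2]
    exact hkfix _ hb'
  · rw [Equiv.Perm.mul_apply]
    exact hkp
  · rw [Equiv.Perm.mul_apply, ← hmem]
    constructor
    · intro h
      have := hkfix _ h
      rw [← k.injective this]
      exact h
    · intro h
      rw [hkfix _ h]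
      exact h

theorem pick2 {S : Finset GolayPt} (hS : S ∈ octads) {p q r : GolayPt} (hp : p ∈ S) (hq : q ∈ S)
    (hr : r ∈ S) (hpq : p ≠ q) (hpr : p ≠ r) (hqr : q ≠ r) :
    ∃ d e, d ∈ S ∧ e ∈ S ∧ d ≠ e ∧ p ≠ d ∧ p ≠ e ∧ q ≠ d ∧ q ≠ e ∧ r ≠ d ∧ r ≠ e := by
  classical
  have hc : 2 ≤ (((S.erase p).erase q).erase r).card := by
    rw [Finset.card_erase_of_mem (Finset.mem_erase.mpr ⟨hqr.symm, Finset.mem_erase.mpr
      ⟨hpr.symm, hr⟩⟩), Finset.card_erase_of_mem (Finset.mem_erase.mpr ⟨hpq.symm, hq⟩),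
      Finset.card_erase_of_mem hp, hS.2]
    norm_num
  obtain ⟨T, hT, hT2⟩ := Finset.exists_subset_card_eq hc
  obtain ⟨d, e, hde, rfl⟩ := Finset.card_eq_two.mp hT2
  have md := hT (show d ∈ ({d, e} : Finset GolayPt) by simp)
  have me := hT (show e ∈ ({d, e} : Finset GolayPt) by simp)
  simp only [Finset.mem_erase] at md me
  exact ⟨d, e, md.2.2.2, me.2.2.2, hde, Ne.symm md.2.2.1, Ne.symm me.2.2.1, Ne.symm md.2.1,
    Ne.symm me.2.1, Ne.symm md.1, Ne.symm me.1⟩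

/-- Octads with three marked points. -/
theorem oct_trans_three {O O' : Finset GolayPt} (hO : O ∈ octads) (hO' : O' ∈ octads)
    {a b c a' b' c' : GolayPt} (ha : a ∈ O) (hb : b ∈ O) (hc : c ∈ O) (hab : a ≠ b)
    (hac : a ≠ c) (hbc : b ≠ c) (ha' : a' ∈ O') (hb' : b' ∈ O') (hc' : c' ∈ O') (hab' : a' ≠ b')
    (hac' : a' ≠ c') (hbc' : b' ≠ c') :
    ∃ σ ∈ M24, σ a = a' ∧ σ b = b' ∧ σ c = c' ∧ ∀ q, σ q ∈ O' ↔ q ∈ O := by
  classical
  obtain ⟨d, e, hd, he, hde, had, hae, hbd, hbe, hcd, hce⟩ := pick2 hO ha hb hc hab hac hbc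
  obtain ⟨d', e', hd', he', hde', had', hae', hbd', hbe', hcd', hce'⟩ :=
    pick2 hO' ha' hb' hc' hab' hac' hbc'
  have hx := inj5 hab hac had hae hbc hbd hbe hcd hce hde
  have hy := inj5 hab' hac' had' hae' hbc' hbd' hbe' hcd' hce' hde'
  obtain ⟨σ, hσ, h⟩ := m24_trans_fin (n := 5) (le_refl 5) ⟨_, hx⟩ ⟨_, hy⟩
  have s0 : σ a = a' := h 0
  have s1 : σ b = b' := h 1
  have s2 : σ c = c' := h 2
  have s3 : σ d = d' := h 3
  have s4 : σ e = e' := h 4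
  have hσO : σ • O = O' := by
    apply octad_eq_of_five ⟨smul_mem_gsup hσ hO.1, by rw [Finset.card_smul_finset]; exact hO.2⟩ hO'
    have hmaps : Set.MapsTo (![a', b', c', d', e'] : Fin 5 → GolayPt)
        ↑(Finset.univ : Finset (Fin 5)) ↑(σ • O ∩ O') := by
      intro i _
      rw [Finset.mem_coe, Finset.mem_inter]
      fin_cases i
      · exact ⟨by rw [← s0]; exact Finset.smul_mem_smul_finset ha, ha'⟩
      · exact ⟨by rw [← s1]; exact Finset.smul_mem_smul_finset hb, hb'⟩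
      · exact ⟨by rw [← s2]; exact Finset.smul_mem_smul_finset hc, hc'⟩
      · exact ⟨by rw [← s3]; exact Finset.smul_mem_smul_finset hd, hd'⟩
      · exact ⟨by rw [← s4]; exact Finset.smul_mem_smul_finset he, he'⟩
    have := Finset.card_le_card_of_injOn _ hmaps hy.injOn
    rwa [Finset.card_univ, Fintype.card_fin] at this
  refine ⟨σ, hσ, s0, s1, s2, fun q => ?_⟩
  rw [← hσO]
  exact Finset.smul_mem_smul_finset_iff σ

theorem inj6 {α : Type*} {a b c d e f : α} (hab : a ≠ b) (hac : a ≠ c) (had : a ≠ d) (hae : a ≠ e)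
    (haf : a ≠ f) (hbc : b ≠ c) (hbd : b ≠ d) (hbe : b ≠ e) (hbf : b ≠ f) (hcd : c ≠ d)
    (hce : c ≠ e) (hcf : c ≠ f) (hde : d ≠ e) (hdf : d ≠ f) (hef : e ≠ f) :
    Function.Injective (![a, b, c, d, e, f] : Fin 6 → α) := by
  intro i j h
  fin_cases i <;> fin_cases j <;> simp_all

/-- For an octad and two points outside it: an octad through the two points meeting the first
octad in four points. -/
theorem out2_data {O : Finset GolayPt} (hO : O ∈ octads) {r s : GolayPt} (hr : r ∉ O)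
    (hs : s ∉ O) (hrs : r ≠ s) :
    ∃ Q ∈ octads, ∃ a b c d, a ∈ O ∧ b ∈ O ∧ c ∈ O ∧ d ∈ O ∧ a ∈ Q ∧ b ∈ Q ∧ c ∈ Q ∧ d ∈ Q ∧
      r ∈ Q ∧ s ∈ Q ∧ a ≠ b ∧ a ≠ c ∧ a ≠ d ∧ b ≠ c ∧ b ≠ d ∧ c ≠ d := by
  classical
  have h3 : 3 ≤ O.card := by rw [hO.2]; norm_num
  obtain ⟨T, hT, hT3⟩ := Finset.exists_subset_card_eq h3
  obtain ⟨a, b, c, hab, hac, hbc, rfl⟩ := Finset.card_eq_three.mp hT3
  have ma := hT (show a ∈ ({a, b, c} : Finset GolayPt) by simp)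
  have mb := hT (show b ∈ ({a, b, c} : Finset GolayPt) by simp)
  have mc := hT (show c ∈ ({a, b, c} : Finset GolayPt) by simp)
  have har : a ≠ r := fun h => hr (h ▸ ma)
  have has : a ≠ s := fun h => hs (h ▸ ma)
  have hbr : b ≠ r := fun h => hr (h ▸ mb)
  have hbs : b ≠ s := fun h => hs (h ▸ mb)
  have hcr : c ≠ r := fun h => hr (h ▸ mc)
  have hcs : c ≠ s := fun h => hs (h ▸ mc)
  have h5 : ({a, b, c, r, s} : Finset GolayPt).card = 5 := by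
    rw [Finset.card_insert_of_notMem, Finset.card_insert_of_notMem,
      Finset.card_insert_of_notMem, Finset.card_insert_of_notMem, Finset.card_singleton]
    · simp [hrs]
    · simp [hcr, hcs]
    · simp [hbc, hbr, hbs]
    · simp [hab, hac, har, has]
  obtain ⟨Q, ⟨hQ, hsub⟩, -⟩ := Cfsg.Agent.Lib.Helper36.octads_steiner.2 _ h5
  have qa : a ∈ Q := hsub (by simp)
  have qb : b ∈ Q := hsub (by simp)
  have qc : c ∈ Q := hsub (by simp)
  have qr : r ∈ Q := hsub (by simp)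
  have qs : s ∈ Q := hsub (by simp)
  have hne : O ≠ Q := fun h => hr (h ▸ qr)
  have hsub3 : ({a, b, c} : Finset GolayPt) ⊆ O ∩ Q := by
    intro x hx
    simp only [Finset.mem_insert, Finset.mem_singleton] at hx
    rw [Finset.mem_inter]
    rcases hx with rfl | rfl | rfl
    · exact ⟨ma, qa⟩
    · exact ⟨mb, qb⟩
    · exact ⟨mc, qc⟩
  have hge : 3 ≤ (O ∩ Q).card := by
    have := Finset.card_le_card hsub3
    rwa [hT3] at this
  have h4 : (O ∩ Q).card = 4 := by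
    rcases Cfsg.Agent.Lib.Helper9.inter_card_5_8_24 Cfsg.Agent.Lib.Helper36.golay_card_pt
      Cfsg.Agent.Lib.Helper36.octads_steiner hO hQ hne with h | h | h <;> omega
  have hlt : ({a, b, c} : Finset GolayPt).card < (O ∩ Q).card := by rw [hT3, h4]; norm_num
  obtain ⟨d, hd, hdn⟩ := Finset.exists_mem_notMem_of_card_lt_card hlt
  simp only [Finset.mem_insert, Finset.mem_singleton, not_or] at hdn
  rw [Finset.mem_inter] at hd
  exact ⟨Q, hQ, a, b, c, d, ma, mb, mc, hd.1, qa, qb, qc, hd.2, qr, qs, hab, hac,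
    Ne.symm hdn.1, hbc, Ne.symm hdn.2.1, Ne.symm hdn.2.2⟩

/-- Octads with two marked points outside. -/
theorem oct_trans_out2 {O O' : Finset GolayPt} (hO : O ∈ octads) (hO' : O' ∈ octads)
    {r s r' s' : GolayPt} (hr : r ∉ O) (hs : s ∉ O) (hrs : r ≠ s) (hr' : r' ∉ O')
    (hs' : s' ∉ O') (hrs' : r' ≠ s') :
    ∃ σ ∈ M24, σ r = r' ∧ σ s = s' ∧ ∀ q, σ q ∈ O' ↔ q ∈ O := by
  classical
  obtain ⟨Q, hQ, a, b, c, d, ma, mb, mc, md, qa, qb, qc, qd, qr, qs, hab, hac, had, hbc, hbd,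
    hcd⟩ := out2_data hO hr hs hrs
  obtain ⟨Q', hQ', a', b', c', d', ma', mb', mc', md', qa', qb', qc', qd', qr', qs', hab', hac',
    had', hbc', hbd', hcd'⟩ := out2_data hO' hr' hs' hrs'
  have har : a ≠ r := fun h => hr (h ▸ ma)
  have has : a ≠ s := fun h => hs (h ▸ ma)
  have hbr : b ≠ r := fun h => hr (h ▸ mb)
  have hbs : b ≠ s := fun h => hs (h ▸ mb)
  have hcr : c ≠ r := fun h => hr (h ▸ mc)
  have hcs : c ≠ s := fun h => hs (h ▸ mc)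
  have hdr : d ≠ r := fun h => hr (h ▸ md)
  have hds : d ≠ s := fun h => hs (h ▸ md)
  have har' : a' ≠ r' := fun h => hr' (h ▸ ma')
  have has' : a' ≠ s' := fun h => hs' (h ▸ ma')
  have hbr' : b' ≠ r' := fun h => hr' (h ▸ mb')
  have hbs' : b' ≠ s' := fun h => hs' (h ▸ mb')
  have hcr' : c' ≠ r' := fun h => hr' (h ▸ mc')
  have hcs' : c' ≠ s' := fun h => hs' (h ▸ mc')
  have hdr' : d' ≠ r' := fun h => hr' (h ▸ md')
  have hds' : d' ≠ s' := fun h => hs' (h ▸ md')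
  obtain ⟨σ0, hσ0, hσ0Q⟩ := Cfsg.Agent.Lib.Helper36.octads_transitive hQ hQ'
  have mem0 : ∀ {z : GolayPt}, z ∈ Q → σ0 z ∈ Q' := by
    intro z hz
    rw [← hσ0Q]
    exact Finset.smul_mem_smul_finset hz
  have inj0 : ∀ {z z' : GolayPt}, z ≠ z' → σ0 z ≠ σ0 z' := fun h h' => h (σ0.injective h')
  have sub : ∀ {z z' : GolayPt} {h : z ∈ Q'} {h' : z' ∈ Q'}, z ≠ z' →
      (⟨z, h⟩ : ↥Q') ≠ ⟨z', h'⟩ := fun hne h => hne (congrArg Subtype.val h)
  have hx := inj6 (α := ↥Q') (a := ⟨σ0 a, mem0 qa⟩) (b := ⟨σ0 b, mem0 qb⟩) (c := ⟨σ0 c, mem0 qc⟩)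
    (d := ⟨σ0 d, mem0 qd⟩) (e := ⟨σ0 r, mem0 qr⟩) (f := ⟨σ0 s, mem0 qs⟩)
    (sub (inj0 hab)) (sub (inj0 hac)) (sub (inj0 had)) (sub (inj0 har)) (sub (inj0 has))
    (sub (inj0 hbc)) (sub (inj0 hbd)) (sub (inj0 hbr)) (sub (inj0 hbs)) (sub (inj0 hcd))
    (sub (inj0 hcr)) (sub (inj0 hcs)) (sub (inj0 hdr)) (sub (inj0 hds)) (sub (inj0 hrs))
  have hy := inj6 (α := ↥Q') (a := ⟨a', qa'⟩) (b := ⟨b', qb'⟩) (c := ⟨c', qc'⟩)
    (d := ⟨d', qd'⟩) (e := ⟨r', qr'⟩) (f := ⟨s', qs'⟩)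
    (sub hab') (sub hac') (sub had') (sub har') (sub has') (sub hbc') (sub hbd') (sub hbr')
    (sub hbs') (sub hcd') (sub hcr') (sub hcs') (sub hdr') (sub hds') (sub hrs')
  have hcardQ : Nat.card ↥Q' = 8 := by
    rw [Nat.card_eq_fintype_card, Fintype.card_coe, hQ'.2]
  have h6 : MulAction.IsMultiplyPretransitive (alternatingGroup ↥Q') ↥Q' 6 := by
    have := alternatingGroup.isMultiplyPretransitive ↥Q'
    rwa [hcardQ] at this
  obtain ⟨e, he⟩ := (MulAction.isMultiplyPretransitive_iff.mp h6) ⟨_, hx⟩ ⟨_, hy⟩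
  have hmem : (e : Equiv.Perm ↥Q') ∈ (Cfsg.Agent.Lib.Helper36.octRes Q').range := by
    rw [Cfsg.Agent.Lib.Helper36.range_octRes hQ']
    exact e.2
  obtain ⟨g, hg, hgQ, hge⟩ := (Cfsg.Agent.Lib.Helper36.mem_range_octRes_iff Q' e).mp hmem
  have hgi : ∀ i : Fin 6, g ((![⟨σ0 a, mem0 qa⟩, ⟨σ0 b, mem0 qb⟩, ⟨σ0 c, mem0 qc⟩,
      ⟨σ0 d, mem0 qd⟩, ⟨σ0 r, mem0 qr⟩, ⟨σ0 s, mem0 qs⟩] : Fin 6 → ↥Q') i).1 =
      ((![⟨a', qa'⟩, ⟨b', qb'⟩, ⟨c', qc'⟩, ⟨d', qd'⟩, ⟨r', qr'⟩, ⟨s', qs'⟩] :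
        Fin 6 → ↥Q') i).1 := by
    intro i
    have h1 : ((e : Equiv.Perm ↥Q') ((![⟨σ0 a, mem0 qa⟩, ⟨σ0 b, mem0 qb⟩, ⟨σ0 c, mem0 qc⟩,
        ⟨σ0 d, mem0 qd⟩, ⟨σ0 r, mem0 qr⟩, ⟨σ0 s, mem0 qs⟩] : Fin 6 → ↥Q') i)).1 =
        ((![⟨a', qa'⟩, ⟨b', qb'⟩, ⟨c', qc'⟩, ⟨d', qd'⟩, ⟨r', qr'⟩, ⟨s', qs'⟩] :
          Fin 6 → ↥Q') i).1 := congrArg (fun z : Fin 6 ↪ ↥Q' => (z i).1) he
    rw [← hge] at h1
    exact h1
  have t0 : g (σ0 a) = a' := hgi 0
  have t1 : g (σ0 b) = b' := hgi 1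
  have t2 : g (σ0 c) = c' := hgi 2
  have t3 : g (σ0 d) = d' := hgi 3
  have t4 : g (σ0 r) = r' := hgi 4
  have t5 : g (σ0 s) = s' := hgi 5
  have hσ1 : g * σ0 ∈ M24 := M24.mul_mem hg hσ0
  have hO1 : (g * σ0) • O ∈ octads := Cfsg.Agent.Lib.Helper9.smul_octad_mem hσ1 hO
  have memO1 : ∀ {z : GolayPt}, z ∈ O → g (σ0 z) ∈ (g * σ0) • O := fun hz =>
    Finset.smul_mem_smul_finset (a := g * σ0) hz
  have hr1 : r' ∉ (g * σ0) • O := by
    intro h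
    rw [← t4] at h
    exact hr ((Finset.smul_mem_smul_finset_iff (g * σ0)).mp h)
  obtain ⟨z, hz, hzQ⟩ : ∃ z ∈ (g * σ0) • O, z ∉ Q' := by
    by_contra hcon
    push Not at hcon
    have hsub : (g * σ0) • O ⊆ Q' := hcon
    have heq := Finset.eq_of_subset_of_card_le hsub (by rw [hQ'.2, hO1.2])
    exact hr1 (heq ▸ qr')
  obtain ⟨z', hz', hzQ'⟩ : ∃ z' ∈ O', z' ∉ Q' := by
    by_contra hcon
    push Not at hcon
    have hsub : O' ⊆ Q' := hcon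
    have heq := Finset.eq_of_subset_of_card_le hsub (by rw [hQ'.2, hO'.2])
    exact hr' (heq ▸ qr')
  obtain ⟨k, hk, hkz⟩ := Cfsg.Agent.Lib.Helper36.fix_trans hQ' hzQ hzQ'
  have hkfix : ∀ y ∈ Q', k y = y := fun y hy =>
    (mem_fixingSubgroup_iff _).mp hk.2 y (Finset.mem_coe.mpr hy)
  have hσ2 : k * (g * σ0) ∈ M24 := M24.mul_mem hk.1 hσ1
  have hfin : (k * (g * σ0)) • O = O' := by
    apply octad_eq_of_five (Cfsg.Agent.Lib.Helper9.smul_octad_mem hσ2 hO) hO'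
    have n1 : a' ≠ z' := fun h => hzQ' (h ▸ qa')
    have n2 : b' ≠ z' := fun h => hzQ' (h ▸ qb')
    have n3 : c' ≠ z' := fun h => hzQ' (h ▸ qc')
    have n4 : d' ≠ z' := fun h => hzQ' (h ▸ qd')
    have e5 := inj5 hab' hac' had' n1 hbc' hbd' n2 hcd' n3 n4
    have key : ∀ {y y' : GolayPt}, y ∈ O → g (σ0 y) = y' → y' ∈ Q' →
        y' ∈ (k * (g * σ0)) • O := by
      intro y y' hy hyy hyQ
      have : (k * (g * σ0)) y = y' := by
        show k (g (σ0 y)) = y'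
        rw [hyy, hkfix _ hyQ]
      rw [← this]
      exact Finset.smul_mem_smul_finset hy
    have hmaps : Set.MapsTo (![a', b', c', d', z'] : Fin 5 → GolayPt)
        ↑(Finset.univ : Finset (Fin 5)) ↑((k * (g * σ0)) • O ∩ O') := by
      intro i _
      rw [Finset.mem_coe, Finset.mem_inter]
      fin_cases i
      · exact ⟨key ma t0 qa', ma'⟩
      · exact ⟨key mb t1 qb', mb'⟩
      · exact ⟨key mc t2 qc', mc'⟩
      · exact ⟨key md t3 qd', md'⟩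
      · refine ⟨?_, hz'⟩
        show z' ∈ (k * (g * σ0)) • O
        rw [mul_smul, ← hkz]
        exact Finset.smul_mem_smul_finset hz
    have := Finset.card_le_card_of_injOn _ hmaps e5.injOn
    rwa [Finset.card_univ, Fintype.card_fin] at this
  refine ⟨k * (g * σ0), hσ2, ?_, ?_, fun q => ?_⟩
  · show k (g (σ0 r)) = r'
    rw [t4, hkfix _ qr']
  · show k (g (σ0 s)) = s'
    rw [t5, hkfix _ qs']
  · rw [← hfin]
    exact Finset.smul_mem_smul_finset_iff _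

end Cfsg.Agent.Lib.Helper10
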