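import Mathlib
import Cfsg.Prelude.Def_Sporadic_a
import Cfsg.Prelude.Def_Spor_Conway
import Cfsg.Prelude.Def_Sporadic
import Cfsg.Agent.Lib.Helper10.HSSimple
import Cfsg.Agent.Lib.Helper10.McL2
import Cfsg.Agent.Lib.Helper10.OctTrans

set_option autoImplicit false

namespace Cfsg.Agent.Lib.Helper10

open Cfsg Cfsg.Agent.Lib.Helper9
open scoped Pointwise

/-! ### A simplicity criterion for a rank 4 action on 2025 points -/

/-- A normal subgroup of order `2025` contains a subgroup of order 25 or 81 normal in the whole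
group (by Burnside's transfer theorem). -/
theorem exists_normal_2025 {G : Type*} [Group G] [Finite G] (N : Subgroup G) [N.Normal]
    (hN : Nat.card N = 2025) :
    ∃ P : Subgroup G, P.Normal ∧ P ≤ N ∧ (Nat.card P = 25 ∨ Nat.card P = 81) := by
  have : Fact (Nat.Prime 5) := ⟨by norm_num⟩
  have : Fact (Nat.Prime 3) := ⟨by norm_num⟩
  obtain ⟨S⟩ : Nonempty (Sylow 5 N) := Sylow.nonempty
  have hS : Nat.card S = 25 := by
    obtain ⟨k, hk⟩ := IsPGroup.iff_card.mp S.isPGroup'
    have h1 : Nat.card S ∣ 2025 := hN ▸ (S : Subgroup N).card_subgroup_dvd_card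
    have h2 : 5 ^ 2 ∣ Nat.card S := S.pow_dvd_card_of_pow_dvd_card (by rw [hN]; norm_num)
    rw [hk] at h1 h2 ⊢
    have hk3 : k < 3 := by
      by_contra hcon
      have h3 : 5 ^ 3 ∣ 5 ^ k := pow_dvd_pow 5 (by omega)
      have h4 := h3.trans h1
      norm_num at h4
    interval_cases k
    · norm_num at h2
    · norm_num at h2
    · norm_num
  have hidx : (S : Subgroup N).index = 81 := by
    have h1 := Subgroup.card_mul_index (S : Subgroup N)
    rw [hS, hN] at h1
    omega
  have h1 := card_sylow_modEq_one 5 N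
  have h2 := S.card_dvd_index
  rw [hidx] at h2
  have h3 : Nat.card (Sylow 5 N) = 1 ∨ Nat.card (Sylow 5 N) = 81 := by
    have e : (81 : ℕ) = 3 ^ 4 := by norm_num
    rw [e] at h2
    obtain ⟨j, hj, hj'⟩ := (Nat.dvd_prime_pow Nat.prime_three).mp h2
    rw [hj'] at h1 ⊢
    unfold Nat.ModEq at h1
    interval_cases j <;> simp_all
  rcases h3 with h3 | h3
  · have : Subsingleton (Sylow 5 N) := (Nat.card_eq_one_iff_unique.mp h3).1
    have := Sylow.characteristic_of_subsingleton S
    refine ⟨(S : Subgroup N).map N.subtype, ConjAct.normal_of_characteristic_of_normal,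
      Subgroup.map_subtype_le _, Or.inl ?_⟩
    rw [← hS]
    exact (Nat.card_congr
      ((S : Subgroup N).equivMapOfInjective N.subtype N.subtype_injective).toEquiv).symm
  · have hnorm : (Subgroup.normalizer ((S : Subgroup N) : Set N)).index = 81 := by
      exact (Sylow.card_eq_index_normalizer S).symm.trans h3
    have hncard : Nat.card (Subgroup.normalizer ((S : Subgroup N) : Set N)) = 25 := by
      have := Subgroup.card_mul_index (Subgroup.normalizer ((S : Subgroup N) : Set N))
      rw [hnorm, hN] at this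
      omega
    have hSn : (S : Subgroup N) = Subgroup.normalizer ((S : Subgroup N) : Set N) := by
      apply Subgroup.eq_of_le_of_card_ge Subgroup.le_normalizer
      rw [hncard, hS]
    have hcomm : IsMulCommutative (S : Subgroup N) :=
      IsPGroup.isMulCommutative_of_card_eq_prime_sq (p := 5) (by rw [hS]; norm_num)
    have hP : Subgroup.normalizer ((S : Subgroup N) : Set N) ≤
        Subgroup.centralizer ((S : Subgroup N) : Set N) := by
      rw [← hSn]
      intro g hg
      rw [Subgroup.mem_centralizer_iff]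
      intro s hs
      have := hcomm.is_comm.comm ⟨s, hs⟩ ⟨g, hg⟩
      exact congrArg Subtype.val this
    have hc := MonoidHom.ker_transferSylow_isComplement' S hP
    have hQcard : Nat.card (MonoidHom.transferSylow S hP).ker = 81 := by
      have := hc.card_mul_card
      rw [hS, hN] at this
      omega
    have hfac : (Nat.card N).factorization 3 = 4 := by
      have e : (2025 : ℕ) = 3 ^ 4 * 25 := by norm_num
      rw [hN, e, Nat.factorization_mul (by norm_num) (by norm_num), Finsupp.add_apply,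
        Nat.factorization_pow, Finsupp.smul_apply,
        Nat.Prime.factorization_self Nat.prime_three,
        Nat.factorization_eq_zero_of_not_dvd (by norm_num)]
      rfl
    have hQn : (MonoidHom.transferSylow S hP).ker.Normal := inferInstance
    have hchar := Sylow.characteristic_of_normal
      (Sylow.ofCard (MonoidHom.transferSylow S hP).ker (by rw [hQcard, hfac]; norm_num)) hQn
    have hchar' : (MonoidHom.transferSylow S hP).ker.Characteristic := hchar
    refine ⟨(MonoidHom.transferSylow S hP).ker.map N.subtype,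
      ConjAct.normal_of_characteristic_of_normal, Subgroup.map_subtype_le _, Or.inr ?_⟩
    rw [← hQcard]
    exact (Nat.card_congr
      ((MonoidHom.transferSylow S hP).ker.equivMapOfInjective N.subtype
        N.subtype_injective).toEquiv).symm


/-- A group of order 898128000 acting faithfully on the orbit of a point whose stabiliser is
simple of order 443520, such that the subsets of the orbit containing the point and invariant
under its stabiliser have sizes `1 + a + b + c` with `a ∈ {0, 330}`, `b ∈ {0, 1232}`,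
`c ∈ {0, 462}`, is simple. -/
theorem simple_rank4 {G X : Type*} [Group G] [Finite G] [MulAction G X] (x0 : X)
    (hfaith : ∀ n : G, (∀ g : G, n • g • x0 = g • x0) → n = 1)
    (hK : IsSimpleGroup (MulAction.stabilizer G x0))
    (hKcard : Nat.card (MulAction.stabilizer G x0) = 443520)
    (hinv : ∀ S : Set X, x0 ∈ S → S ⊆ MulAction.orbit G x0 →
      (∀ k ∈ MulAction.stabilizer G x0, ∀ s ∈ S, k • s ∈ S) →
      ∃ a b c : ℕ, (a = 0 ∨ a = 330) ∧ (b = 0 ∨ b = 1232) ∧ (c = 0 ∨ c = 462) ∧
        S.ncard = 1 + a + b + c)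
    (hG : Nat.card G = 898128000) : IsSimpleGroup G := by
  have horb : ∀ N : Subgroup G, N.Normal →
      ∃ a b c : ℕ, (a = 0 ∨ a = 330) ∧ (b = 0 ∨ b = 1232) ∧ (c = 0 ∨ c = 462) ∧
        (MulAction.orbit N x0).ncard = 1 + a + b + c := by
    intro N hN
    apply hinv
    · exact MulAction.mem_orbit_self x0
    · rintro _ ⟨n, rfl⟩
      exact ⟨(n : G), rfl⟩
    · rintro k hk _ ⟨n, rfl⟩
      refine ⟨⟨k * n * k⁻¹, hN.conj_mem n n.2 k⟩, ?_⟩
      show (k * (n : G) * k⁻¹) • x0 = k • ((n : G) • x0)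
      have h1 : k⁻¹ • x0 = x0 := (MulAction.stabilizer G x0).inv_mem hk
      rw [mul_smul, mul_smul, h1]
  have hcardN : ∀ N : Subgroup G, Nat.card N =
      (MulAction.orbit N x0).ncard * Nat.card ↥(N ⊓ MulAction.stabilizer G x0) :=
    fun N => Cfsg.Agent.Lib.Helper9.card_eq_orbit_mul_stab' N x0
  have htriv : ∀ N : Subgroup G, N.Normal → (MulAction.orbit N x0).ncard = 1 → N = ⊥ := by
    intro N hN h1
    rw [Set.ncard_eq_one] at h1
    obtain ⟨y, hy⟩ := h1
    have hfix : ∀ n ∈ N, n • x0 = x0 := by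
      intro n hn
      have h2 : n • x0 ∈ MulAction.orbit N x0 := ⟨⟨n, hn⟩, rfl⟩
      have h3 : x0 ∈ MulAction.orbit N x0 := MulAction.mem_orbit_self x0
      rw [hy, Set.mem_singleton_iff] at h2 h3
      rw [h2, h3]
    rw [Subgroup.eq_bot_iff_forall]
    intro n hn
    apply hfaith
    intro g
    have h4 : n * g = g * (g⁻¹ * n * g) := by group
    have h5 : g⁻¹ * n * g ∈ N := by
      have := hN.conj_mem n hn g⁻¹
      simpa using this
    rw [← mul_smul, h4, mul_smul, hfix _ h5]
  have hdisj : ∀ N : Subgroup G, N.Normal → N ⊓ MulAction.stabilizer G x0 = ⊥ →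
      ∃ a b c : ℕ, (a = 0 ∨ a = 330) ∧ (b = 0 ∨ b = 1232) ∧ (c = 0 ∨ c = 462) ∧
        Nat.card N = 1 + a + b + c := by
    intro N hN hNK
    have h1 := hcardN N
    rw [hNK, Subgroup.card_bot, mul_one] at h1
    rw [h1]
    exact horb N hN
  have : Nontrivial G := Finite.one_lt_card_iff_nontrivial.mp (by rw [hG]; norm_num)
  refine ⟨fun N hN => ?_⟩
  have hsub : (N.subgroupOf (MulAction.stabilizer G x0)).Normal := hN.subgroupOf _
  rcases hsub.eq_bot_or_eq_top with h | h
  · rw [Subgroup.subgroupOf_eq_bot, disjoint_iff] at h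
    obtain ⟨a, b, c, ha, hb, hc, hs⟩ := hdisj N hN h
    have h2 := N.card_subgroup_dvd_card
    rw [hs, hG] at h2
    rcases ha with rfl | rfl <;> rcases hb with rfl | rfl <;> rcases hc with rfl | rfl
    · exact Or.inl (Subgroup.eq_bot_of_card_eq N hs)
    · exfalso
      norm_num at h2
    · exfalso
      norm_num at h2
    · exfalso
      norm_num at h2
    · exfalso
      norm_num at h2
    · exfalso
      norm_num at h2
    · exfalso
      norm_num at h2
    · exfalso
      obtain ⟨P, hPn, hPN, hP⟩ := exists_normal_2025 N hs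
      have hPK : P ⊓ MulAction.stabilizer G x0 = ⊥ :=
        le_bot_iff.mp (h ▸ inf_le_inf_right _ hPN)
      obtain ⟨a', b', c', ha', hb', hc', hs'⟩ := hdisj P hPn hPK
      rcases ha' with rfl | rfl <;> rcases hb' with rfl | rfl <;> rcases hc' with rfl | rfl <;>
        rcases hP with hP | hP <;> omega
  · rw [Subgroup.subgroupOf_eq_top] at h
    have h1 := hcardN N
    rw [inf_eq_right.mpr h, hKcard] at h1
    have hdvd := N.card_subgroup_dvd_card
    rw [h1, hG] at hdvd
    obtain ⟨a, b, c, ha, hb, hc, hs⟩ := horb N hN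
    rw [hs] at hdvd h1
    rcases ha with rfl | rfl <;> rcases hb with rfl | rfl <;> rcases hc with rfl | rfl
    · exfalso
      have h3 := htriv N hN hs
      rw [h3] at h
      have h4 : MulAction.stabilizer G x0 = ⊥ := le_bot_iff.mp h
      rw [h4, Subgroup.card_bot] at hKcard
      omega
    · exfalso
      norm_num at hdvd
    · exfalso
      norm_num at hdvd
    · exfalso
      norm_num at hdvd
    · exfalso
      norm_num at hdvd
    · exfalso
      norm_num at hdvd
    · exfalso
      norm_num at hdvd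
    · right
      apply Subgroup.eq_top_of_card_eq
      rw [h1, hG]

/-- Sizes of the sets containing `x` that are unions of `{x}` and of some of three classes. -/
theorem inv_card3 {α : Type*} {H A B C S : Set α} {x : α} (nA nB nC : ℕ)
    (hA : A.ncard = nA) (hB : B.ncard = nB) (hC : C.ncard = nC)
    (hfA : A.Finite) (hfB : B.Finite) (hfC : C.Finite)
    (hcover : ∀ y ∈ H, y = x ∨ y ∈ A ∨ y ∈ B ∨ y ∈ C)
    (hxA : x ∉ A) (hxB : x ∉ B) (hxC : x ∉ C)
    (hAB : Disjoint A B) (hAC : Disjoint A C) (hBC : Disjoint B C)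
    (hS : S ⊆ H) (hx : x ∈ S)
    (hSA : ∀ y ∈ S, y ∈ A → A ⊆ S) (hSB : ∀ y ∈ S, y ∈ B → B ⊆ S)
    (hSC : ∀ y ∈ S, y ∈ C → C ⊆ S) :
    ∃ a b c : ℕ, (a = 0 ∨ a = nA) ∧ (b = 0 ∨ b = nB) ∧ (c = 0 ∨ c = nC) ∧
      S.ncard = 1 + a + b + c := by
  have key : ∀ T : Set α, (∀ y ∈ S, y ∈ T → T ⊆ S) → (S ∩ T = ∅ ∨ S ∩ T = T) := by
    intro T hT
    by_cases h : ∃ y ∈ S, y ∈ T
    · obtain ⟨y, hy, hyT⟩ := h
      right
      exact Set.inter_eq_right.mpr (hT y hy hyT)
    · left
      rw [Set.eq_empty_iff_forall_notMem]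
      rintro y ⟨hy, hyT⟩
      exact h ⟨y, hy, hyT⟩
  have e : S = insert x ((S ∩ A) ∪ ((S ∩ B) ∪ (S ∩ C))) := by
    ext z
    constructor
    · intro hz
      rcases hcover z (hS hz) with rfl | h | h | h
      · exact Set.mem_insert _ _
      · exact Set.mem_insert_of_mem _ (Or.inl ⟨hz, h⟩)
      · exact Set.mem_insert_of_mem _ (Or.inr (Or.inl ⟨hz, h⟩))
      · exact Set.mem_insert_of_mem _ (Or.inr (Or.inr ⟨hz, h⟩))
    · rintro (rfl | h | h | h)
      · exact hx
      · exact h.1
      · exact h.1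
      · exact h.1
  have fA : (S ∩ A).Finite := hfA.subset Set.inter_subset_right
  have fB : (S ∩ B).Finite := hfB.subset Set.inter_subset_right
  have fC : (S ∩ C).Finite := hfC.subset Set.inter_subset_right
  have d1 : Disjoint (S ∩ B) (S ∩ C) :=
    hBC.mono Set.inter_subset_right Set.inter_subset_right
  have d2 : Disjoint (S ∩ A) ((S ∩ B) ∪ (S ∩ C)) := by
    rw [Set.disjoint_union_right]
    exact ⟨hAB.mono Set.inter_subset_right Set.inter_subset_right,
      hAC.mono Set.inter_subset_right Set.inter_subset_right⟩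
  have hxn : x ∉ (S ∩ A) ∪ ((S ∩ B) ∪ (S ∩ C)) := by
    rintro (h | h | h)
    · exact hxA h.2
    · exact hxB h.2
    · exact hxC h.2
  have hcard : S.ncard = 1 + (S ∩ A).ncard + (S ∩ B).ncard + (S ∩ C).ncard := by
    conv_lhs => rw [e]
    rw [Set.ncard_insert_of_notMem hxn (fA.union (fB.union fC)),
      Set.ncard_union_eq d2 fA (fB.union fC), Set.ncard_union_eq d1 fB fC]
    ring
  refine ⟨(S ∩ A).ncard, (S ∩ B).ncard, (S ∩ C).ncard, ?_, ?_, ?_, hcard⟩
  · rcases key A hSA with h | h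
    · left
      rw [h, Set.ncard_empty]
    · right
      rw [h, hA]
  · rcases key B hSB with h | h
    · left
      rw [h, Set.ncard_empty]
    · right
      rw [h, hB]
  · rcases key C hSC with h | h
    · left
      rw [h, Set.ncard_empty]
    · right
      rw [h, hC]

/-! ### Stabilisers conjugate to the two-point stabiliser of the code group -/

/-- An automorphism fixing `8 e_∞` and lattice vectors `(5, 1, …, 1)`, `4 e_∞ + 4 e_0` is a
coordinate permutation fixing `∞` and `0`. -/
theorem mono_of_fix {h : Equiv.Perm leechLattice} (hh : h ∈ Co0) {r t : leechLattice}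
    (hr : (r : GolayPt → ℤ) = repD)
    (ht : (t : GolayPt → ℤ) = Pi.single none 4 + Pi.single (some 0) 4)
    (hax : h (axisVec none) = axisVec none) (hfr : h r = r) (hft : h t = t) :
    ∃ (σ : Equiv.Perm GolayPt) (hσ : σ ∈ M24), σ none = none ∧ σ (some 0) = some 0 ∧
      h = permPerm σ hσ := by
  classical
  have hcross := stab_le_crossSub
    (show (⟨h, hh⟩ : ↥Co0) ∈ MulAction.stabilizer ↥Co0 (axisVec none) from hax)
  obtain ⟨σ, hσ, c, hc, hform⟩ := monomial_of_cross hh hcross
  have eu : signedPerm σ c repD = repD := by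
    have e := hform r
    rw [hfr, hr] at e
    exact e.symm
  have ex : signedPerm σ c (Pi.single none 4 + Pi.single (some 0) 4) =
      Pi.single none 4 + Pi.single (some 0) 4 := by
    have e := hform t
    rw [hft, ht] at e
    exact e.symm
  have hpos : ∀ q, 0 < repD q := by
    intro q
    unfold repD
    split_ifs <;> norm_num
  have hcE : ∀ i, i ∉ c := by
    intro i hi
    have e := congrFun eu i
    unfold signedPerm at e
    rw [if_pos hi] at e
    have p1 := hpos (σ.symm i)
    have p2 := hpos i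
    omega
  have s1 : σ none = none := by
    have e := congrFun eu none
    unfold signedPerm at e
    rw [if_neg (hcE none)] at e
    have e2 : σ.symm none = none := by
      by_contra hne
      unfold repD at e
      rw [if_neg hne, if_pos rfl] at e
      norm_num at e
    rw [← e2, Equiv.apply_symm_apply, e2]
  have s2 : σ (some 0) = some 0 := by
    have e := congrFun ex (σ (some 0))
    unfold signedPerm at e
    rw [if_neg (hcE _), Equiv.symm_apply_apply] at e
    have hne : σ (some 0) ≠ none := by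
      intro h
      rw [← s1] at h
      exact (none_ne_some 0) (σ.injective h).symm
    by_contra hne0
    simp only [Pi.add_apply, Pi.single_apply] at e
    rw [if_neg hne, if_neg hne0] at e
    simp at e
  refine ⟨σ, hσ, s1, s2, ?_⟩
  apply Equiv.ext
  intro z
  apply Subtype.ext
  rw [hform, permPerm_coe]
  funext i
  unfold signedPerm
  rw [if_neg (hcE i), if_neg (Finset.notMem_empty i)]

/-- The stabiliser of `x` in the stabiliser of `v` and `w` is simple of order 443520 if the
automorphisms fixing `v`, `w`, `x` are exactly the conjugates by `g0` of the coordinate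
permutations fixing `∞` and `0`. -/
theorem stab_m22_of {v w x : leechLattice} {g0 : Equiv.Perm leechLattice} (hg0 : g0 ∈ Co0)
    (hA : ∀ (σ : Equiv.Perm GolayPt) (hσ : σ ∈ M24), σ none = none → σ (some 0) = some 0 →
      (g0⁻¹ * permPerm σ hσ * g0) v = v ∧ (g0⁻¹ * permPerm σ hσ * g0) w = w ∧
        (g0⁻¹ * permPerm σ hσ * g0) x = x)
    (hB : ∀ kk : Equiv.Perm leechLattice, kk ∈ Co0 → kk v = v → kk w = w → kk x = x →
      ∃ (σ : Equiv.Perm GolayPt) (hσ : σ ∈ M24), σ none = none ∧ σ (some 0) = some 0 ∧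
        kk = g0⁻¹ * permPerm σ hσ * g0) :
    IsSimpleGroup ↥(MulAction.stabilizer
        ↥(MulAction.stabilizer ↥Co0 v ⊓ MulAction.stabilizer ↥Co0 w) x) ∧
      Nat.card ↥(MulAction.stabilizer
        ↥(MulAction.stabilizer ↥Co0 v ⊓ MulAction.stabilizer ↥Co0 w) x) = 443520 := by
  let f : ↥(M24 ⊓ fixing [0, 23]) →*
      ↥(MulAction.stabilizer
        ↥(MulAction.stabilizer ↥Co0 v ⊓ MulAction.stabilizer ↥Co0 w) x) :=
    { toFun := fun σ => ⟨⟨⟨g0⁻¹ * permPerm σ.1 σ.2.1 * g0,
          Co0.mul_mem (Co0.mul_mem (Co0.inv_mem hg0) (permPerm_mem σ.1 σ.2.1)) hg0⟩,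
          ⟨(hA σ.1 σ.2.1 (m22_fix σ).1 (m22_fix σ).2).1,
            (hA σ.1 σ.2.1 (m22_fix σ).1 (m22_fix σ).2).2.1⟩⟩,
          (hA σ.1 σ.2.1 (m22_fix σ).1 (m22_fix σ).2).2.2⟩
      map_one' := by
        apply Subtype.ext
        apply Subtype.ext
        apply Subtype.ext
        show g0⁻¹ * permPerm 1 _ * g0 = 1
        rw [permPerm_one]
        group
      map_mul' := fun σ τ => by
        apply Subtype.ext
        apply Subtype.ext
        apply Subtype.ext
        show g0⁻¹ * permPerm (σ.1 * τ.1) _ * g0 =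
          (g0⁻¹ * permPerm σ.1 σ.2.1 * g0) * (g0⁻¹ * permPerm τ.1 τ.2.1 * g0)
        rw [permPerm_mul σ.1 τ.1 σ.2.1 τ.2.1]
        group }
  have fval : ∀ σ : ↥(M24 ⊓ fixing [0, 23]),
      ((f σ).1.1.1 : Equiv.Perm leechLattice) = g0⁻¹ * permPerm σ.1 σ.2.1 * g0 := fun σ => rfl
  have finj : Function.Injective f := by
    intro σ τ h
    have e : ((f σ).1.1.1 : Equiv.Perm leechLattice) = (f τ).1.1.1 := by rw [h]
    rw [fval, fval] at e
    exact Subtype.ext (permPerm_inj (mul_left_cancel (mul_right_cancel e)))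
  have fsurj : Function.Surjective f := by
    intro k
    obtain ⟨σ, hσ, s1, s2, e⟩ := hB k.1.1.1 k.1.1.2 k.1.2.1 k.1.2.2 k.2
    refine ⟨⟨σ, hσ, mem_fixing_pair (by rw [pt23]; exact s1) (by rw [pt0]; exact s2)⟩, ?_⟩
    apply Subtype.ext
    apply Subtype.ext
    apply Subtype.ext
    rw [fval]
    exact e.symm
  have e := MulEquiv.ofBijective f ⟨finj, fsurj⟩
  have := isSimpleGroup_M22
  exact ⟨e.symm.isSimpleGroup, by rw [← Nat.card_congr e.toEquiv, card_M22]⟩

/-! ### The 2025 vectors attached to a pair of minimal vectors with inner product `-8` -/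

/-- The vector `(3, -1, …, -1)`. -/
def vecM3 : GolayPt → ℤ := fun q => if q = none then 3 else -1

theorem vecM3_eq : vecM3 = Pi.single none 8 - repD := by
  funext q
  unfold vecM3 repD
  by_cases hq : q = none
  · subst hq
    rw [if_pos rfl, Pi.sub_apply, Pi.single_eq_same, if_pos rfl]
    norm_num
  · rw [if_neg hq, Pi.sub_apply, Pi.single_eq_of_ne hq, if_neg hq]
    norm_num

theorem vecM3_mem : vecM3 ∈ leechLattice := by
  rw [vecM3_eq]
  exact leechLattice.sub_mem (axisVec none).2 repD_mem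

/-- The set attached to a pair `(v, w)`. -/
def zSet (v w : leechLattice) : Set leechLattice :=
  {m : leechLattice | sqNorm (m : GolayPt → ℤ) = 32 ∧
    dotInt (v : GolayPt → ℤ) (m : GolayPt → ℤ) = -16 ∧
    dotInt (w : GolayPt → ℤ) (m : GolayPt → ℤ) = 8}

theorem zSet_iff (v w m : leechLattice) :
    m ∈ zSet v w ↔ sqNorm (m : GolayPt → ℤ) = 32 ∧
      dotInt ((v + w : leechLattice) : GolayPt → ℤ) (m : GolayPt → ℤ) = -8 ∧
      dotInt (w : GolayPt → ℤ) (m : GolayPt → ℤ) = 8 := by
  have e2 : dotInt ((v + w : leechLattice) : GolayPt → ℤ) (m : GolayPt → ℤ) =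
      dotInt (v : GolayPt → ℤ) (m : GolayPt → ℤ) + dotInt (w : GolayPt → ℤ) (m : GolayPt → ℤ) :=
    dotInt_add_left' _ _ _
  rw [e2]
  show (sqNorm (m : GolayPt → ℤ) = 32 ∧ dotInt (v : GolayPt → ℤ) (m : GolayPt → ℤ) = -16 ∧
    dotInt (w : GolayPt → ℤ) (m : GolayPt → ℤ) = 8) ↔ _
  constructor
  · rintro ⟨h1, h2, h3⟩
    exact ⟨h1, by omega, h3⟩
  · rintro ⟨h1, h2, h3⟩
    exact ⟨h1, by omega, h3⟩

theorem z_setup (v w : leechLattice) (hv : sqNorm (v : GolayPt → ℤ) = 32)
    (hw : sqNorm (w : GolayPt → ℤ) = 32)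
    (hvw : dotInt (v : GolayPt → ℤ) (w : GolayPt → ℤ) = -8) :
    sqNorm ((v + w : leechLattice) : GolayPt → ℤ) = 48 ∧
      dotInt ((v + w : leechLattice) : GolayPt → ℤ) (w : GolayPt → ℤ) = 24 := by
  refine ⟨?_, ?_⟩
  · show sqNorm ((v : GolayPt → ℤ) + (w : GolayPt → ℤ)) = 48
    rw [sqNorm_add, hv, hw, hvw]
    norm_num
  · show dotInt ((v : GolayPt → ℤ) + (w : GolayPt → ℤ)) (w : GolayPt → ℤ) = 24
    rw [dotInt_add_left', hvw, dotInt_self, hw]
    norm_num

/-- Normal form of a triple `(v, w, m)`. -/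
theorem z_nf (v w m : leechLattice) (hv : sqNorm (v : GolayPt → ℤ) = 32)
    (hw : sqNorm (w : GolayPt → ℤ) = 32)
    (hvw : dotInt (v : GolayPt → ℤ) (w : GolayPt → ℤ) = -8) (hm : m ∈ zSet v w) :
    ∃ g : Equiv.Perm leechLattice, g ∈ Co0 ∧
      ((g (v + w) : leechLattice) : GolayPt → ℤ) = repD ∧
      ((g w : leechLattice) : GolayPt → ℤ) = Pi.single none 4 + Pi.single (some 0) 4 ∧
      ((g m : leechLattice) : GolayPt → ℤ) = vecM3 := by
  obtain ⟨hu, huw⟩ := z_setup v w hv hw hvw
  obtain ⟨a1, a2, a3⟩ := (zSet_iff v w m).mp hm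
  have hz : sqNorm ((v + w + m : leechLattice) : GolayPt → ℤ) = 64 := by
    show sqNorm (((v + w : leechLattice) : GolayPt → ℤ) + (m : GolayPt → ℤ)) = 64
    rw [sqNorm_add, hu, a2, a1]
    norm_num
  obtain ⟨g1, hg1⟩ := trans_norm64 (v + w + m) (axisVec none) hz (axis_norm none)
  have e1 : g1.1 (v + w + m) = axisVec none := hg1
  have hcoord : ∀ y : leechLattice, 8 * ((g1.1 y : leechLattice) : GolayPt → ℤ) none =
      dotInt (y : GolayPt → ℤ) ((v + w : leechLattice) : GolayPt → ℤ) +
        dotInt (y : GolayPt → ℤ) (m : GolayPt → ℤ) := by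
    intro y
    have h1 := co0_dot g1.2 y (v + w + m)
    rw [e1] at h1
    have h3 : ((axisVec none : leechLattice) : GolayPt → ℤ) = Pi.single none 8 := rfl
    have h4 : ((v + w + m : leechLattice) : GolayPt → ℤ) =
        ((v + w : leechLattice) : GolayPt → ℤ) + (m : GolayPt → ℤ) := rfl
    rw [h3, dotInt_single, h4, dotInt_add_right] at h1
    linarith
  have hu5 : ((g1.1 (v + w) : leechLattice) : GolayPt → ℤ) none = 5 := by
    have := hcoord (v + w)
    rw [dotInt_self, hu, a2] at this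
    linarith
  have hun : sqNorm ((g1.1 (v + w) : leechLattice) : GolayPt → ℤ) = 48 := by
    rw [g1.2.2]
    exact hu
  obtain ⟨c, hc, hc4⟩ := odd_sign (g1.1 (v + w)).2 (i0 := none) (by rw [hu5]; decide)
  have hnc : (none : GolayPt) ∉ c := by
    intro h
    have := hc4 none
    rw [signVec_apply, if_pos h, hu5] at this
    norm_num at this
  have hg2 : signPerm c hc * g1.1 ∈ Co0 := Co0.mul_mem (signPerm_mem c hc) g1.2
  have hg2u : (((signPerm c hc * g1.1) (v + w) : leechLattice) : GolayPt → ℤ) = repD := by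
    rw [Equiv.Perm.mul_apply]
    apply odd48_five hc4
    · exact ((signPerm_mem c hc).2 (g1.1 (v + w))).trans hun
    · show signVec c ((g1.1 (v + w) : leechLattice) : GolayPt → ℤ) none = 5
      rw [signVec_apply, if_neg hnc, hu5]
  have hcoord2 : ∀ y : leechLattice,
      8 * (((signPerm c hc * g1.1) y : leechLattice) : GolayPt → ℤ) none =
      dotInt (y : GolayPt → ℤ) ((v + w : leechLattice) : GolayPt → ℤ) +
        dotInt (y : GolayPt → ℤ) (m : GolayPt → ℤ) := by
    intro y
    rw [Equiv.Perm.mul_apply]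
    show 8 * signVec c ((g1.1 y : leechLattice) : GolayPt → ℤ) none = _
    rw [signVec_apply, if_neg hnc]
    exact hcoord y
  have hg2z : (((signPerm c hc * g1.1) (v + w + m) : leechLattice) : GolayPt → ℤ) =
      Pi.single none 8 := by
    rw [Equiv.Perm.mul_apply, e1]
    show signVec c (Pi.single none 8) = Pi.single none 8
    funext i
    rw [signVec_apply]
    by_cases hi : i ∈ c
    · have hin : i ≠ none := fun h => hnc (h ▸ hi)
      rw [if_pos hi, Pi.single_eq_of_ne hin, neg_zero]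
    · rw [if_neg hi]
  have hg2m : (((signPerm c hc * g1.1) m : leechLattice) : GolayPt → ℤ) = vecM3 := by
    have h1 : (signPerm c hc * g1.1) (v + w + m) =
        (signPerm c hc * g1.1) (v + w) + (signPerm c hc * g1.1) m := hg2.1 (v + w) m
    have h3 : (((signPerm c hc * g1.1) (v + w + m) : leechLattice) : GolayPt → ℤ) =
        (((signPerm c hc * g1.1) (v + w) : leechLattice) : GolayPt → ℤ) +
          (((signPerm c hc * g1.1) m : leechLattice) : GolayPt → ℤ) := by
      rw [h1]
      rfl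
    rw [hg2z, hg2u] at h3
    rw [vecM3_eq, h3, add_sub_cancel_left]
  have hw2n : sqNorm (((signPerm c hc * g1.1) w : leechLattice) : GolayPt → ℤ) = 32 := by
    rw [hg2.2]
    exact hw
  have hw2d : dotInt repD (((signPerm c hc * g1.1) w : leechLattice) : GolayPt → ℤ) = 24 := by
    have h := co0_dot hg2 (v + w) w
    rw [hg2u] at h
    rw [h, huw]
  have hw24 : (((signPerm c hc * g1.1) w : leechLattice) : GolayPt → ℤ) none = 4 := by
    have h := hcoord2 w
    rw [dotInt_comm (w : GolayPt → ℤ) ((v + w : leechLattice) : GolayPt → ℤ), huw, a3] at h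
    linarith
  obtain ⟨j, hj⟩ := four_of_rep ((signPerm c hc * g1.1) w).2 hw2n hw2d hw24
  obtain ⟨σ, hσ, s1, s2⟩ := m24_trans2 (p := none) (p' := some j) (q := none) (q' := some 0)
    (none_ne_some j) (none_ne_some 0)
  refine ⟨permPerm σ hσ * (signPerm c hc * g1.1), Co0.mul_mem (permPerm_mem σ hσ) hg2, ?_, ?_, ?_⟩
  · rw [Equiv.Perm.mul_apply, permPerm_coe, hg2u, mono_repD s1]
  · rw [Equiv.Perm.mul_apply, permPerm_coe, hj, signedPerm_add, mono_single, mono_single, s1, s2]
  · rw [Equiv.Perm.mul_apply, permPerm_coe, hg2m, vecM3_eq, signedPerm_sub, mono_single,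
      mono_repD s1, s1]

/-- The stabiliser of `v` and `w` is transitive on the attached set. -/
theorem z_trans (v w m m' : leechLattice) (hv : sqNorm (v : GolayPt → ℤ) = 32)
    (hw : sqNorm (w : GolayPt → ℤ) = 32)
    (hvw : dotInt (v : GolayPt → ℤ) (w : GolayPt → ℤ) = -8) (hm : m ∈ zSet v w)
    (hm' : m' ∈ zSet v w) : ∃ g : ↥Co0, g • v = v ∧ g • w = w ∧ g • m = m' := by
  obtain ⟨g, hg, hg1, hg2, hg3⟩ := triple_trans_of (z_nf v w m hv hw hvw hm)
    (z_nf v w m' hv hw hvw hm')
  refine ⟨⟨g, hg⟩, ?_, hg2, hg3⟩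
  show g v = v
  rw [hg.1, hg2] at hg1
  exact add_right_cancel hg1

/-- An automorphism fixing `v`, `w` and `m` is the conjugate of a coordinate permutation. -/
theorem z_stab_form {v w m : leechLattice} {g0 : Equiv.Perm leechLattice} (hg0 : g0 ∈ Co0)
    (hgu : ((g0 (v + w) : leechLattice) : GolayPt → ℤ) = repD)
    (hgw : ((g0 w : leechLattice) : GolayPt → ℤ) = Pi.single none 4 + Pi.single (some 0) 4)
    (hgm : ((g0 m : leechLattice) : GolayPt → ℤ) = vecM3)
    {kk : Equiv.Perm leechLattice} (hk : kk ∈ Co0) (kv : kk v = v) (kw : kk w = w)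
    (km : kk m = m) :
    ∃ (σ : Equiv.Perm GolayPt) (hσ : σ ∈ M24), σ none = none ∧ σ (some 0) = some 0 ∧
      kk = g0⁻¹ * permPerm σ hσ * g0 := by
  have hh : g0 * kk * g0⁻¹ ∈ Co0 := Co0.mul_mem (Co0.mul_mem hg0 hk) (Co0.inv_mem hg0)
  have app : ∀ b, kk b = b → (g0 * kk * g0⁻¹) (g0 b) = g0 b := by
    intro b hb
    show g0 (kk (g0.symm (g0 b))) = g0 b
    rw [Equiv.symm_apply_apply, hb]
  have ku : kk (v + w) = v + w := by rw [hk.1, kv, kw]
  have hu := app _ ku
  have hw' := app _ kw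
  have hm' := app _ km
  have eax : axisVec none = g0 m + g0 (v + w) := by
    apply Subtype.ext
    show (Pi.single none 8 : GolayPt → ℤ) =
      ((g0 m : leechLattice) : GolayPt → ℤ) + ((g0 (v + w) : leechLattice) : GolayPt → ℤ)
    rw [hgm, hgu, vecM3_eq, sub_add_cancel]
  have hax : (g0 * kk * g0⁻¹) (axisVec none) = axisVec none := by
    rw [eax, hh.1, hm', hu]
  obtain ⟨σ, hσ, s1, s2, hperm⟩ := mono_of_fix hh hgu hgw hax hu hw'
  refine ⟨σ, hσ, s1, s2, ?_⟩
  rw [← hperm]
  group

/-- Conjugates of coordinate permutations fixing `∞` and `0` fix `v`, `w` and `m`. -/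
theorem z_conj_fix {v w m : leechLattice} {g0 : Equiv.Perm leechLattice} (hg0 : g0 ∈ Co0)
    (hgu : ((g0 (v + w) : leechLattice) : GolayPt → ℤ) = repD)
    (hgw : ((g0 w : leechLattice) : GolayPt → ℤ) = Pi.single none 4 + Pi.single (some 0) 4)
    (hgm : ((g0 m : leechLattice) : GolayPt → ℤ) = vecM3)
    {σ : Equiv.Perm GolayPt} (hσ : σ ∈ M24) (s1 : σ none = none) (s2 : σ (some 0) = some 0) :
    (g0⁻¹ * permPerm σ hσ * g0) v = v ∧ (g0⁻¹ * permPerm σ hσ * g0) w = w ∧
      (g0⁻¹ * permPerm σ hσ * g0) m = m := by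
  have hG : g0⁻¹ * permPerm σ hσ * g0 ∈ Co0 :=
    Co0.mul_mem (Co0.mul_mem (Co0.inv_mem hg0) (permPerm_mem σ hσ)) hg0
  have app : ∀ z, (g0⁻¹ * permPerm σ hσ * g0) z = g0.symm (permPerm σ hσ (g0 z)) := fun z => rfl
  have f1 : permPerm σ hσ (g0 (v + w)) = g0 (v + w) := by
    apply Subtype.ext
    rw [permPerm_coe, hgu, mono_repD s1]
  have f2 : permPerm σ hσ (g0 w) = g0 w := by
    apply Subtype.ext
    rw [permPerm_coe, hgw, signedPerm_add, mono_single, mono_single, s1, s2]
  have f3 : permPerm σ hσ (g0 m) = g0 m := by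
    apply Subtype.ext
    rw [permPerm_coe, hgm, vecM3_eq, signedPerm_sub, mono_single, mono_repD s1, s1]
  have b1 : (g0⁻¹ * permPerm σ hσ * g0) (v + w) = v + w := by
    rw [app, f1, Equiv.symm_apply_apply]
  have b2 : (g0⁻¹ * permPerm σ hσ * g0) w = w := by rw [app, f2, Equiv.symm_apply_apply]
  refine ⟨?_, b2, ?_⟩
  · rw [hG.1, b2] at b1
    exact add_right_cancel b1
  · rw [app, f3, Equiv.symm_apply_apply]

/-- The stabiliser of a vector of the set is simple of order 443520. -/
theorem z_stab {v w m : leechLattice} (hv : sqNorm (v : GolayPt → ℤ) = 32)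
    (hw : sqNorm (w : GolayPt → ℤ) = 32)
    (hvw : dotInt (v : GolayPt → ℤ) (w : GolayPt → ℤ) = -8) (hm : m ∈ zSet v w) :
    IsSimpleGroup ↥(MulAction.stabilizer
        ↥(MulAction.stabilizer ↥Co0 v ⊓ MulAction.stabilizer ↥Co0 w) m) ∧
      Nat.card ↥(MulAction.stabilizer
        ↥(MulAction.stabilizer ↥Co0 v ⊓ MulAction.stabilizer ↥Co0 w) m) = 443520 := by
  obtain ⟨g0, hg0, hgu, hgw, hgm⟩ := z_nf v w m hv hw hvw hm
  exact stab_m22_of hg0 (fun σ hσ s1 s2 => z_conj_fix hg0 hgu hgw hgm hσ s1 s2)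
    (fun kk hk kv kw km => z_stab_form hg0 hgu hgw hgm hk kv kw km)

/-- The orbit of a vector of the set is the whole set. -/
theorem z_orbit {v w m : leechLattice} (hv : sqNorm (v : GolayPt → ℤ) = 32)
    (hw : sqNorm (w : GolayPt → ℤ) = 32)
    (hvw : dotInt (v : GolayPt → ℤ) (w : GolayPt → ℤ) = -8) (hm : m ∈ zSet v w) :
    MulAction.orbit ↥(MulAction.stabilizer ↥Co0 v ⊓ MulAction.stabilizer ↥Co0 w) m =
      zSet v w := by
  ext y
  constructor
  · rintro ⟨g, rfl⟩
    have gv : g.1.1 v = v := g.2.1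
    have gw : g.1.1 w = w := g.2.2
    obtain ⟨a1, a2, a3⟩ := hm
    refine ⟨?_, ?_, ?_⟩
    · show sqNorm ((g.1.1 m : leechLattice) : GolayPt → ℤ) = 32
      rw [g.1.2.2, a1]
    · have e := co0_dot g.1.2 v m
      rw [gv] at e
      show dotInt (v : GolayPt → ℤ) ((g.1.1 m : leechLattice) : GolayPt → ℤ) = -16
      rw [e, a2]
    · have e := co0_dot g.1.2 w m
      rw [gw] at e
      show dotInt (w : GolayPt → ℤ) ((g.1.1 m : leechLattice) : GolayPt → ℤ) = 8
      rw [e, a3]
  · intro hy
    obtain ⟨g, gv, gw, gx⟩ := z_trans v w m y hv hw hvw hm hy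
    exact ⟨⟨g, ⟨gv, gw⟩⟩, gx⟩

/-! ### Counting -/

theorem num_z2025 :
    ∑ a ∈ Finset.Icc (-5 : ℤ) 5, dTot3 5 (-8) (some a) (some (2 - a)) none = 2025 := by
  decide +kernel

theorem num_z330 : dTot3 5 (-8) (some (-1)) (some (2 - (-1))) none = 330 := by decide +kernel

theorem num_z1232 : dTot3 5 (-8) (some 0) (some (2 - 0)) none = 1232 := by decide +kernel

theorem num_z462 : dTot3 5 (-8) (some 1) (some (2 - 1)) none = 462 := by decide +kernel

theorem num_z_zero : ∀ a ∈ ([-5, -4, -3, -2, 2, 4, 5] : List ℤ),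
    dTot3 5 (-8) (some a) (some (2 - a)) none = 0 := by decide +kernel

/-- Sets of minimal vectors with `(5, 1, …, 1) · t = -8` as subsets of `dAll 5 (-8)`. -/
theorem ncard_repM8 (P : (GolayPt → ℤ) → Prop) [DecidablePred P] :
    {y : leechLattice | sqNorm (y : GolayPt → ℤ) = 32 ∧ dotInt repD (y : GolayPt → ℤ) = -8 ∧
      P (y : GolayPt → ℤ)}.ncard = ((dAll 5 (-8)).filter P).card := by
  rw [ncard_lattice_set (fun t => sqNorm t = 32 ∧ dotInt repD t = -8 ∧ P t),
    ← Set.ncard_coe_finset]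
  congr 1
  ext t
  rw [Finset.mem_coe, Finset.mem_filter, mem_dAll (Or.inl rfl) (by norm_num)]
  show (t ∈ leechLattice ∧ sqNorm t = 32 ∧ dotInt repD t = -8 ∧ P t) ↔
    ((t ∈ leechLattice ∧ sqNorm t = 32 ∧ dotInt repD t = -8) ∧ P t)
  tauto

theorem dot_vecM3 (t : GolayPt → ℤ) : dotInt vecM3 t = 8 * t none - dotInt repD t := by
  rw [vecM3_eq, dotInt_comm, dotInt_sub_right, dotInt_single, dotInt_comm t repD]
  ring

/-- The attached set has 2025 elements. -/
theorem z_card (v w : leechLattice) (hv : sqNorm (v : GolayPt → ℤ) = 32)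
    (hw : sqNorm (w : GolayPt → ℤ) = 32)
    (hvw : dotInt (v : GolayPt → ℤ) (w : GolayPt → ℤ) = -8) : (zSet v w).ncard = 2025 := by
  obtain ⟨hu, huw⟩ := z_setup v w hv hw hvw
  have hsub : sqNorm (((v + w : leechLattice) : GolayPt → ℤ) - (w : GolayPt → ℤ)) = 32 := by
    have e : ((v + w : leechLattice) : GolayPt → ℤ) - (w : GolayPt → ℤ) = (v : GolayPt → ℤ) := by
      show (v : GolayPt → ℤ) + (w : GolayPt → ℤ) - (w : GolayPt → ℤ) = (v : GolayPt → ℤ)
      rw [add_sub_cancel_right]
    rw [e, hv]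
  obtain ⟨g, hg, hgu, hgw⟩ := mcl_pair (v + w) w hu ⟨hw, hsub⟩
  have e1 : zSet v w = {x : leechLattice | (fun n a b _ => n = 32 ∧ a = -8 ∧ b = 8)
      (sqNorm (x : GolayPt → ℤ))
      (dotInt ((v + w : leechLattice) : GolayPt → ℤ) (x : GolayPt → ℤ))
      (dotInt (w : GolayPt → ℤ) (x : GolayPt → ℤ))
      (dotInt (w : GolayPt → ℤ) (x : GolayPt → ℤ))} := by
    ext x
    exact zSet_iff v w x
  rw [e1]
  refine (ncard_set_co0 hg (v + w) w w (fun n a b _ => n = 32 ∧ a = -8 ∧ b = 8)).trans ?_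
  rw [hgu, hgw]
  have e2 : {y : leechLattice | (fun n a b _ => n = 32 ∧ a = -8 ∧ b = 8)
      (sqNorm (y : GolayPt → ℤ)) (dotInt repD (y : GolayPt → ℤ))
      (dotInt (Pi.single none 4 + Pi.single (some 0) 4) (y : GolayPt → ℤ))
      (dotInt (Pi.single none 4 + Pi.single (some 0) 4) (y : GolayPt → ℤ))} =
      {y : leechLattice | sqNorm (y : GolayPt → ℤ) = 32 ∧ dotInt repD (y : GolayPt → ℤ) = -8 ∧
        (fun t : GolayPt → ℤ => t (some 0) = 2 - t none) (y : GolayPt → ℤ)} := by
    ext y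
    show (sqNorm (y : GolayPt → ℤ) = 32 ∧ dotInt repD (y : GolayPt → ℤ) = -8 ∧
      dotInt (Pi.single none 4 + Pi.single (some 0) 4) (y : GolayPt → ℤ) = 8) ↔
      (sqNorm (y : GolayPt → ℤ) = 32 ∧
      dotInt repD (y : GolayPt → ℤ) = -8 ∧
      (y : GolayPt → ℤ) (some 0) = 2 - (y : GolayPt → ℤ) none)
    rw [dot_vecT0]
    constructor
    · rintro ⟨a1, a2, a3⟩
      exact ⟨a1, a2, by omega⟩
    · rintro ⟨a1, a2, a3⟩
      exact ⟨a1, a2, by omega⟩
  refine (congrArg Set.ncard e2).trans ?_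
  refine (ncard_repM8 (fun t : GolayPt → ℤ => t (some 0) = 2 - t none)).trans ?_
  rw [card_fiber_none (Or.inl rfl) (by norm_num) (by norm_num)
    (fun t : GolayPt → ℤ => t (some 0) = 2 - t none) (fun a => some (2 - a)) (fun _ => none)
    (fun x => by simp only [okb_some, okb_none, and_true])]
  exact num_z2025

/-- The members of the attached set with a given inner product with `m`. -/
theorem z_class_card {v w m : leechLattice} (hv : sqNorm (v : GolayPt → ℤ) = 32)
    (hw : sqNorm (w : GolayPt → ℤ) = 32)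
    (hvw : dotInt (v : GolayPt → ℤ) (w : GolayPt → ℤ) = -8) (hm : m ∈ zSet v w) (a : ℤ) :
    {y : leechLattice | y ∈ zSet v w ∧
      dotInt (m : GolayPt → ℤ) (y : GolayPt → ℤ) = 8 * a + 8}.ncard =
      dTot3 5 (-8) (some a) (some (2 - a)) none := by
  obtain ⟨g0, hg0, hgu, hgw, hgm⟩ := z_nf v w m hv hw hvw hm
  have e1 : {y : leechLattice | y ∈ zSet v w ∧
      dotInt (m : GolayPt → ℤ) (y : GolayPt → ℤ) = 8 * a + 8} =
      {y : leechLattice | (fun n d1 d2 d3 => n = 32 ∧ d1 = -8 ∧ d2 = 8 ∧ d3 = 8 * a + 8)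
        (sqNorm (y : GolayPt → ℤ))
        (dotInt ((v + w : leechLattice) : GolayPt → ℤ) (y : GolayPt → ℤ))
        (dotInt (w : GolayPt → ℤ) (y : GolayPt → ℤ))
        (dotInt (m : GolayPt → ℤ) (y : GolayPt → ℤ))} := by
    ext y
    constructor
    · rintro ⟨hy, h8⟩
      obtain ⟨b1, b2, b3⟩ := (zSet_iff v w y).mp hy
      exact ⟨b1, b2, b3, h8⟩
    · rintro ⟨b1, b2, b3, h8⟩
      exact ⟨(zSet_iff v w y).mpr ⟨b1, b2, b3⟩, h8⟩
  rw [e1]
  refine (ncard_set_co0 hg0 (v + w) w m
    (fun n d1 d2 d3 => n = 32 ∧ d1 = -8 ∧ d2 = 8 ∧ d3 = 8 * a + 8)).trans ?_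
  rw [hgu, hgw, hgm]
  have e2 : {y : leechLattice | (fun n d1 d2 d3 => n = 32 ∧ d1 = -8 ∧ d2 = 8 ∧ d3 = 8 * a + 8)
      (sqNorm (y : GolayPt → ℤ)) (dotInt repD (y : GolayPt → ℤ))
      (dotInt (Pi.single none 4 + Pi.single (some 0) 4) (y : GolayPt → ℤ))
      (dotInt vecM3 (y : GolayPt → ℤ))} =
      {y : leechLattice | sqNorm (y : GolayPt → ℤ) = 32 ∧ dotInt repD (y : GolayPt → ℤ) = -8 ∧
        (fun t : GolayPt → ℤ => ok3b (some a) (some (2 - a)) none t = true)
          (y : GolayPt → ℤ)} := by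
    ext y
    show (sqNorm (y : GolayPt → ℤ) = 32 ∧ dotInt repD (y : GolayPt → ℤ) = -8 ∧
      dotInt (Pi.single none 4 + Pi.single (some 0) 4) (y : GolayPt → ℤ) = 8 ∧
      dotInt vecM3 (y : GolayPt → ℤ) = 8 * a + 8) ↔
      (sqNorm (y : GolayPt → ℤ) = 32 ∧ dotInt repD (y : GolayPt → ℤ) = -8 ∧
        ok3b (some a) (some (2 - a)) none (y : GolayPt → ℤ) = true)
    rw [dot_vecT0, dot_vecM3]
    simp only [ok3b, Bool.and_eq_true, okb_some, okb_none, and_true]
    constructor
    · rintro ⟨c1, c2, c3, c4⟩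
      exact ⟨c1, c2, by omega, by omega⟩
    · rintro ⟨c1, c2, c3, c4⟩
      exact ⟨c1, c2, by omega, by omega⟩
  refine (congrArg Set.ncard e2).trans ?_
  refine (ncard_repM8 (fun t : GolayPt → ℤ => ok3b (some a) (some (2 - a)) none t = true)).trans ?_
  rw [card_dAll_filter' (Or.inl rfl) (by norm_num) (by norm_num)]

/-- The value at `∞` of a minimal vector with `(5, 1, …, 1) · t = -8` and `t_∞ + t_0 = 2`. -/
theorem z_val {t : GolayPt → ℤ} (ht : t ∈ dAll 5 (-8)) (heq : t (some 0) = 2 - t none) :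
    t none = -1 ∨ t none = 0 ∨ t none = 1 ∨ t none = 3 := by
  have hb := dAll_bound (Or.inl rfl) (by norm_num) ht none
  rw [Finset.mem_Icc] at hb
  by_contra hcon
  push Not at hcon
  have ha : t none ∈ ([-5, -4, -3, -2, 2, 4, 5] : List ℤ) := by
    simp only [List.mem_cons, List.not_mem_nil, or_false]
    omega
  have hmem : t ∈ (dAll 5 (-8)).filter
      (fun x => ok3b (some (t none)) (some (2 - t none)) none x = true) := by
    rw [Finset.mem_filter]
    refine ⟨ht, ?_⟩
    simp only [ok3b, Bool.and_eq_true, okb_some, okb_none, and_true]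
    exact ⟨trivial, heq⟩
  have hcard := card_dAll_filter' (A := 5) (D := -8) (Or.inl rfl) (by norm_num) (by norm_num)
    (some (t none)) (some (2 - t none)) none
  rw [num_z_zero _ ha] at hcard
  rw [Finset.card_eq_zero.mp hcard] at hmem
  exact Finset.notMem_empty _ hmem

/-- Minimal vectors with inner product 32 are equal. -/
theorem eq_of_dot32 {a b : leechLattice} (ha : sqNorm (a : GolayPt → ℤ) = 32)
    (hb : sqNorm (b : GolayPt → ℤ) = 32)
    (h : dotInt (a : GolayPt → ℤ) (b : GolayPt → ℤ) = 32) : a = b := by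
  have h0 : sqNorm ((a : GolayPt → ℤ) - (b : GolayPt → ℤ)) = 0 := by
    rw [sqNorm_sub, ha, hb, h]
    norm_num
  apply Subtype.ext
  funext i
  have h1 := (Finset.sum_eq_zero_iff_of_nonneg (fun j _ => sq_nonneg _)).mp h0 i
    (Finset.mem_univ i)
  have h2 : ((a : GolayPt → ℤ) - (b : GolayPt → ℤ)) i = 0 := pow_eq_zero_iff (two_ne_zero) |>.mp h1
  rw [Pi.sub_apply] at h2
  linarith

/-! ### The three classes of vectors -/

theorem dot_repD_sum (t : GolayPt → ℤ) : dotInt repD t = ∑ i, t i + 4 * t none := by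
  unfold dotInt
  have e : ∀ i : GolayPt, repD i * t i = t i + (if i = none then 4 * t i else 0) := by
    intro i
    unfold repD
    by_cases hi : i = none
    · rw [if_pos hi, if_pos hi]
      ring
    · rw [if_neg hi, if_neg hi]
      ring
  rw [Finset.sum_congr rfl (fun i _ => e i), Finset.sum_add_distrib,
    Finset.sum_ite_eq' Finset.univ none (fun i => 4 * t i), if_pos (Finset.mem_univ _)]

/-- The structure of an odd minimal vector. -/
theorem odd_struct2 {t : GolayPt → ℤ} (ht : t ∈ leechLattice) (hn : sqNorm t = 32)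
    {i0 : GolayPt} (h1 : t i0 % 2 = 1) :
    ∃ k, ∃ c ∈ gsup, (∀ i, i ≠ k → t i = if i ∈ c then -1 else 1) ∧
      (t k = if k ∈ c then 3 else -3) ∧
      dotInt repD t = 24 - 2 * (c.card : ℤ) + (if k ∈ c then 4 else -4) + 4 * t none := by
  classical
  obtain ⟨k, hk9, hk1⟩ := min_odd ht hn (i0 := i0) h1
  obtain ⟨c, hc, hc4⟩ := odd_sign ht (i0 := i0) h1
  have hval : ∀ i, i ≠ k → t i = if i ∈ c then -1 else 1 := by
    intro i hi
    have h1' := hk1 i hi
    have h2 := hc4 i
    rw [signVec_apply] at h2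
    rcases sq_one_cases h1' with h | h
    · by_cases hic : i ∈ c
      · rw [if_pos hic, h] at h2
        norm_num at h2
      · rw [if_neg hic, h]
    · by_cases hic : i ∈ c
      · rw [if_pos hic, h]
      · rw [if_neg hic, h] at h2
        norm_num at h2
  have hk : t k = if k ∈ c then 3 else -3 := by
    have h2 := hc4 k
    rw [signVec_apply] at h2
    rcases sq_nine_cases hk9 with h | h
    · by_cases hic : k ∈ c
      · rw [if_pos hic, h]
      · rw [if_neg hic, h] at h2
        norm_num at h2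
    · by_cases hic : k ∈ c
      · rw [if_pos hic, h] at h2
        norm_num at h2
      · rw [if_neg hic, h]
  refine ⟨k, c, hc, hval, hk, ?_⟩
  have hs : ∑ i : GolayPt, (if i ∈ c then (-1 : ℤ) else 1) = (cᶜ.card : ℤ) - (c.card : ℤ) := by
    rw [← Finset.sum_add_sum_compl c]
    have e1 : ∑ i ∈ c, (if i ∈ c then (-1 : ℤ) else 1) = -(c.card : ℤ) := by
      rw [Finset.sum_congr rfl (g := fun _ => (-1 : ℤ)) (fun i hi => if_pos hi)]
      simp
    have e2 : ∑ i ∈ cᶜ, (if i ∈ c then (-1 : ℤ) else 1) = (cᶜ.card : ℤ) := by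
      rw [Finset.sum_congr rfl (g := fun _ => (1 : ℤ))
        (fun i hi => if_neg (Finset.mem_compl.mp hi))]
      simp
    rw [e1, e2]
    ring
  have a1 := Finset.add_sum_erase Finset.univ t (Finset.mem_univ k)
  have a2 := Finset.add_sum_erase Finset.univ (fun i : GolayPt => if i ∈ c then (-1 : ℤ) else 1)
    (Finset.mem_univ k)
  have a3 : ∑ i ∈ Finset.univ.erase k, t i =
      ∑ i ∈ Finset.univ.erase k, (if i ∈ c then (-1 : ℤ) else 1) :=
    Finset.sum_congr rfl (fun i hi => hval i (Finset.ne_of_mem_erase hi))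
  have hcc : c.card + cᶜ.card = 24 := by
    rw [Finset.card_add_card_compl]
    decide
  have hcc' : (cᶜ.card : ℤ) = 24 - (c.card : ℤ) := by omega
  rw [dot_repD_sum, ← a1, a3, hk]
  by_cases hkc : k ∈ c
  · rw [if_pos hkc] at a2 ⊢
    rw [if_pos hkc]
    linarith
  · rw [if_neg hkc] at a2 ⊢
    rw [if_neg hkc]
    linarith

/-- The vector `(-1, 3, …)` with `1` on an octad avoiding `∞`, `0` and `-1` elsewhere. -/
def formA (O : Finset GolayPt) : GolayPt → ℤ :=
  fun i => if i = none then -1 else if i = some 0 then 3 else if i ∈ O then 1 else -1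

/-- The vector with `2` at `0` and `p`, `-2` on the rest of an octad and `0` elsewhere. -/
def formB (S : Finset GolayPt) (p : GolayPt) : GolayPt → ℤ :=
  fun i => if i ∈ S then (if i = some 0 ∨ i = p then 2 else -2) else 0

/-- The vector with `-3` at `p`, `1` on the rest of an octad and `-1` elsewhere. -/
def formC (O : Finset GolayPt) (p : GolayPt) : GolayPt → ℤ :=
  fun i => if i ∈ O then (if i = p then -3 else 1) else -1

theorem zA_class {t : GolayPt → ℤ} (ht : t ∈ leechLattice) (hn : sqNorm t = 32)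
    (hd : dotInt repD t = -8) (h1 : t none = -1) (h0 : t (some 0) = 3) :
    ∃ O ∈ octads, none ∉ O ∧ (some 0 : GolayPt) ∉ O ∧ t = formA O := by
  classical
  obtain ⟨k, c, hc, hval, hk, hsum⟩ := odd_struct2 ht hn (i0 := none) (by rw [h1]; decide)
  have hk0 : k = some 0 := by
    by_contra h
    have := hval (some 0) (Ne.symm h)
    rw [h0] at this
    split_ifs at this <;> omega
  subst hk0
  have hnc : (none : GolayPt) ∈ c := by
    by_contra h
    have := hval none (none_ne_some 0)
    rw [if_neg h, h1] at this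
    norm_num at this
  have h0c : (some 0 : GolayPt) ∈ c := by
    by_contra h
    rw [if_neg h, h0] at hk
    norm_num at hk
  rw [if_pos h0c, h1, hd] at hsum
  have hcc : c.card + cᶜ.card = 24 := by
    rw [Finset.card_add_card_compl]
    decide
  have hcard : cᶜ.card = 8 := by omega
  refine ⟨cᶜ, ⟨compl_mem_gsup hc, hcard⟩, by simp [hnc], by simp [h0c], ?_⟩
  funext i
  unfold formA
  by_cases hi : i = none
  · rw [if_pos hi, hi, h1]
  · rw [if_neg hi]
    by_cases hi0 : i = some 0
    · rw [if_pos hi0, hi0, h0]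
    · rw [if_neg hi0, hval i hi0]
      by_cases hic : i ∈ c
      · rw [if_pos hic, if_neg (by simp [hic])]
      · rw [if_neg hic, if_pos (by simp [hic])]

theorem zC_class {t : GolayPt → ℤ} (ht : t ∈ leechLattice) (hn : sqNorm t = 32)
    (hd : dotInt repD t = -8) (h1 : t none = 1) (h0 : t (some 0) = 1) :
    ∃ O ∈ octads, ∃ p, none ∈ O ∧ (some 0 : GolayPt) ∈ O ∧ p ∈ O ∧ p ≠ none ∧ p ≠ some 0 ∧
      t = formC O p := by
  classical
  obtain ⟨k, c, hc, hval, hk, hsum⟩ := odd_struct2 ht hn (i0 := none) (by rw [h1]; decide)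
  have hkn : k ≠ none := by
    rintro rfl
    rw [h1] at hk
    split_ifs at hk <;> omega
  have hk0 : k ≠ some 0 := by
    rintro rfl
    rw [h0] at hk
    split_ifs at hk <;> omega
  have hnc : (none : GolayPt) ∉ c := by
    intro h
    have := hval none (Ne.symm hkn)
    rw [if_pos h, h1] at this
    norm_num at this
  have h0c : (some 0 : GolayPt) ∉ c := by
    intro h
    have := hval (some 0) (Ne.symm hk0)
    rw [if_pos h, h0] at this
    norm_num at this
  have hcc : c.card + cᶜ.card = 24 := by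
    rw [Finset.card_add_card_compl]
    decide
  rw [h1, hd] at hsum
  have hkc : k ∉ c := by
    intro h
    rw [if_pos h] at hsum
    have h20 : c.card = 20 := by omega
    rcases Cfsg.Agent.Lib.Helper36.gsup_card hc with h' | h' | h' | h' | h' <;> omega
  rw [if_neg hkc] at hsum hk
  have hcard : cᶜ.card = 8 := by omega
  refine ⟨cᶜ, ⟨compl_mem_gsup hc, hcard⟩, k, by simp [hnc], by simp [h0c], by simp [hkc], hkn,
    hk0, ?_⟩
  funext i
  unfold formC
  by_cases hic : i ∈ c
  · have hik : i ≠ k := fun h => hkc (h ▸ hic)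
    rw [if_neg (by simp [hic]), hval i hik, if_pos hic]
  · rw [if_pos (by simp [hic])]
    by_cases hik : i = k
    · rw [if_pos hik, hik, hk]
    · rw [if_neg hik, hval i hik, if_neg hic]

theorem zB_class {t : GolayPt → ℤ} (ht : t ∈ leechLattice) (hn : sqNorm t = 32)
    (hd : dotInt repD t = -8) (h1 : t none = 0) (h0 : t (some 0) = 2) :
    ∃ S ∈ octads, ∃ p, none ∉ S ∧ (some 0 : GolayPt) ∈ S ∧ p ∈ S ∧ p ≠ some 0 ∧
      t = formB S p := by
  classical
  obtain ⟨S, hS, h0S, hsq, hout⟩ := min_even ht hn (i0 := some 0) (by rw [h0]; decide)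
  have hnS : (none : GolayPt) ∉ S := by
    intro h
    have := hsq none h
    rw [h1] at this
    norm_num at this
  have hval : ∀ i ∈ S, t i = 2 ∨ t i = -2 := fun i hi => sq_four_cases (hsq i hi)
  have hsum : dotInt repD t = ∑ i ∈ S, t i := by
    unfold dotInt
    rw [← Finset.sum_add_sum_compl S]
    have e1 : ∑ i ∈ Sᶜ, repD i * t i = 0 :=
      Finset.sum_eq_zero (fun i hi => by rw [hout i (Finset.mem_compl.mp hi), mul_zero])
    have e2 : ∑ i ∈ S, repD i * t i = ∑ i ∈ S, t i :=
      Finset.sum_congr rfl (fun i hi => by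
        have : repD i = 1 := by
          unfold repD
          rw [if_neg (fun h : i = none => hnS (h ▸ hi))]
        rw [this, one_mul])
    rw [e1, e2, add_zero]
  have hsum2 : ∑ i ∈ S.erase (some 0), t i = -10 := by
    have := Finset.add_sum_erase S t h0S
    rw [h0] at this
    rw [hd] at hsum
    linarith
  have hcardE : (S.erase (some 0)).card = 7 := by
    rw [Finset.card_erase_of_mem h0S, hS.2]
  have e1 : ∑ i ∈ (S.erase (some 0)).filter (fun i => t i = 2), t i =
      2 * (((S.erase (some 0)).filter (fun i => t i = 2)).card : ℤ) := by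
    rw [Finset.sum_congr rfl (g := fun _ => (2 : ℤ)) (fun i hi => (Finset.mem_filter.mp hi).2)]
    simp
    ring
  have e2 : ∑ i ∈ (S.erase (some 0)).filter (fun i => ¬ t i = 2), t i =
      -2 * (((S.erase (some 0)).filter (fun i => ¬ t i = 2)).card : ℤ) := by
    rw [Finset.sum_congr rfl (g := fun _ => (-2 : ℤ)) (fun i hi => by
      have hi' := Finset.mem_filter.mp hi
      rcases hval i (Finset.mem_of_mem_erase hi'.1) with h | h
      · exact absurd h hi'.2
      · exact h)]
    simp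
    ring
  have hsplit := Finset.sum_filter_add_sum_filter_not (S.erase (some 0)) (fun i => t i = 2) t
  have hcards := Finset.card_filter_add_card_filter_not (s := S.erase (some 0))
    (fun i => t i = 2)
  rw [hcardE] at hcards
  rw [e1, e2, hsum2] at hsplit
  have hP1 : ((S.erase (some 0)).filter (fun i => t i = 2)).card = 1 := by omega
  obtain ⟨p, hp⟩ := Finset.card_eq_one.mp hP1
  have hpP : p ∈ (S.erase (some 0)).filter (fun i => t i = 2) := by
    rw [hp]
    exact Finset.mem_singleton_self p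
  have hpE := (Finset.mem_filter.mp hpP).1
  have hp2 := (Finset.mem_filter.mp hpP).2
  refine ⟨S, hS, p, hnS, h0S, Finset.mem_of_mem_erase hpE, Finset.ne_of_mem_erase hpE, ?_⟩
  funext i
  unfold formB
  by_cases hi : i ∈ S
  · rw [if_pos hi]
    by_cases hi0 : i = some 0 ∨ i = p
    · rw [if_pos hi0]
      rcases hi0 with rfl | rfl
      · exact h0
      · exact hp2
    · rw [if_neg hi0]
      push Not at hi0
      rcases hval i hi with h | h
      · exfalso
        have : i ∈ (S.erase (some 0)).filter (fun i => t i = 2) :=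
          Finset.mem_filter.mpr ⟨Finset.mem_erase.mpr ⟨hi0.1, hi⟩, h⟩
        rw [hp, Finset.mem_singleton] at this
        exact hi0.2 this
      · exact h
  · rw [if_neg hi, hout i hi]

theorem mono_formA {σ : Equiv.Perm GolayPt} (s1 : σ none = none) (s2 : σ (some 0) = some 0)
    {O O' : Finset GolayPt} (h : ∀ q, σ q ∈ O' ↔ q ∈ O) :
    signedPerm σ ∅ (formA O) = formA O' := by
  funext i
  unfold signedPerm formA
  rw [if_neg (Finset.notMem_empty i)]
  have e1 : σ.symm i = none ↔ i = none := by rw [Equiv.symm_apply_eq, s1]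
  have e2 : σ.symm i = some 0 ↔ i = some 0 := by rw [Equiv.symm_apply_eq, s2]
  have e3 : σ.symm i ∈ O ↔ i ∈ O' := by rw [← h, Equiv.apply_symm_apply]
  simp only [e1, e2, e3]

theorem mono_formB {σ : Equiv.Perm GolayPt} (s2 : σ (some 0) = some 0) {p p' : GolayPt}
    (sp : σ p = p') {S S' : Finset GolayPt} (h : ∀ q, σ q ∈ S' ↔ q ∈ S) :
    signedPerm σ ∅ (formB S p) = formB S' p' := by
  funext i
  unfold signedPerm formB
  rw [if_neg (Finset.notMem_empty i)]
  have e1 : σ.symm i = p ↔ i = p' := by rw [Equiv.symm_apply_eq, sp]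
  have e2 : σ.symm i = some 0 ↔ i = some 0 := by rw [Equiv.symm_apply_eq, s2]
  have e3 : σ.symm i ∈ S ↔ i ∈ S' := by rw [← h, Equiv.apply_symm_apply]
  simp only [e1, e2, e3]

theorem mono_formC {σ : Equiv.Perm GolayPt} {p p' : GolayPt} (sp : σ p = p')
    {O O' : Finset GolayPt} (h : ∀ q, σ q ∈ O' ↔ q ∈ O) :
    signedPerm σ ∅ (formC O p) = formC O' p' := by
  funext i
  unfold signedPerm formC
  rw [if_neg (Finset.notMem_empty i)]
  have e1 : σ.symm i = p ↔ i = p' := by rw [Equiv.symm_apply_eq, sp]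
  have e3 : σ.symm i ∈ O ↔ i ∈ O' := by rw [← h, Equiv.apply_symm_apply]
  simp only [e1, e3]

end Cfsg.Agent.Lib.Helper10
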