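import Cfsg.Agent.Lib.Helper10.McLSimple

/-! # The stabiliser of two minimal vectors with inner product `-8`: rank 4 and simplicity -/

namespace Cfsg.Agent.Lib.Helper10

open Cfsg

/-- Coordinates of a vector of the attached set in the frame. -/
theorem z_frame {v w m y : leechLattice} {g0 : Equiv.Perm leechLattice} (hg0 : g0 ∈ Co0)
    (hgu : ((g0 (v + w) : leechLattice) : GolayPt → ℤ) = repD)
    (hgw : ((g0 w : leechLattice) : GolayPt → ℤ) = Pi.single none 4 + Pi.single (some 0) 4)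
    (hgm : ((g0 m : leechLattice) : GolayPt → ℤ) = vecM3) (hy : y ∈ zSet v w) :
    ((g0 y : leechLattice) : GolayPt → ℤ) ∈ dAll 5 (-8) ∧
      ((g0 y : leechLattice) : GolayPt → ℤ) (some 0) =
        2 - ((g0 y : leechLattice) : GolayPt → ℤ) none ∧
      dotInt (m : GolayPt → ℤ) (y : GolayPt → ℤ) =
        8 * ((g0 y : leechLattice) : GolayPt → ℤ) none + 8 := by
  obtain ⟨b1, b2, b3⟩ := (zSet_iff v w y).mp hy
  have e1 := co0_dot hg0 (v + w) y
  rw [hgu, b2] at e1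
  have e2 := co0_dot hg0 w y
  rw [hgw, dot_vecT0, b3] at e2
  have e3 := co0_dot hg0 m y
  rw [hgm, dot_vecM3, e1] at e3
  refine ⟨(mem_dAll (Or.inl rfl) (by norm_num) _).mpr ⟨(g0 y).2, ?_, e1⟩, by omega, by omega⟩
  rw [hg0.2, b1]

/-- From a coordinate permutation fixing `∞` and `0` to an element of the stabiliser. -/
theorem z_finish {v w m y y' : leechLattice} {g0 : Equiv.Perm leechLattice} (hg0 : g0 ∈ Co0)
    (hgu : ((g0 (v + w) : leechLattice) : GolayPt → ℤ) = repD)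
    (hgw : ((g0 w : leechLattice) : GolayPt → ℤ) = Pi.single none 4 + Pi.single (some 0) 4)
    (hgm : ((g0 m : leechLattice) : GolayPt → ℤ) = vecM3)
    {σ : Equiv.Perm GolayPt} (hσ : σ ∈ M24) (s1 : σ none = none) (s2 : σ (some 0) = some 0)
    (h : signedPerm σ ∅ ((g0 y : leechLattice) : GolayPt → ℤ) =
      ((g0 y' : leechLattice) : GolayPt → ℤ)) :
    ∃ g : ↥Co0, g • v = v ∧ g • w = w ∧ g • m = m ∧ g • y = y' := by
  obtain ⟨f1, f2, f3⟩ := z_conj_fix hg0 hgu hgw hgm hσ s1 s2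
  refine ⟨⟨g0⁻¹ * permPerm σ hσ * g0,
    Co0.mul_mem (Co0.mul_mem (Co0.inv_mem hg0) (permPerm_mem σ hσ)) hg0⟩, f1, f2, f3, ?_⟩
  show g0.symm (permPerm σ hσ (g0 y)) = y'
  rw [Equiv.symm_apply_eq]
  apply Subtype.ext
  rw [permPerm_coe, h]

/-- The stabiliser of `v`, `w` and `m` is transitive on the vectors of the attached set with a
given inner product with `m`. -/
theorem z_class_trans {v w m y y' : leechLattice} (hv : sqNorm (v : GolayPt → ℤ) = 32)
    (hw : sqNorm (w : GolayPt → ℤ) = 32)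
    (hvw : dotInt (v : GolayPt → ℤ) (w : GolayPt → ℤ) = -8) (hm : m ∈ zSet v w)
    (hy : y ∈ zSet v w) (hy' : y' ∈ zSet v w)
    (hne : dotInt (m : GolayPt → ℤ) (y : GolayPt → ℤ) ≠ 32)
    (h : dotInt (m : GolayPt → ℤ) (y : GolayPt → ℤ) =
      dotInt (m : GolayPt → ℤ) (y' : GolayPt → ℤ)) :
    ∃ g : ↥Co0, g • v = v ∧ g • w = w ∧ g • m = m ∧ g • y = y' := by
  obtain ⟨g0, hg0, hgu, hgw, hgm⟩ := z_nf v w m hv hw hvw hm
  obtain ⟨t1, t2, t3⟩ := z_frame hg0 hgu hgw hgm hy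
  obtain ⟨t1', t2', t3'⟩ := z_frame hg0 hgu hgw hgm hy'
  have hval := z_val t1 t2
  obtain ⟨l1, l2, l3⟩ := (mem_dAll (Or.inl rfl) (by norm_num) _).mp t1
  obtain ⟨l1', l2', l3'⟩ := (mem_dAll (Or.inl rfl) (by norm_num) _).mp t1'
  rcases hval with hv1 | hv1 | hv1 | hv1
  · obtain ⟨O, hO, n1, n2, e⟩ := zA_class l1 l2 l3 hv1 (by omega)
    obtain ⟨O', hO', n1', n2', e'⟩ := zA_class l1' l2' l3' (by omega) (by omega)
    obtain ⟨σ, hσ, s1, s2, hmem⟩ := oct_trans_out2 hO hO' n1 n2 (by simp) n1' n2' (by simp)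
    apply z_finish hg0 hgu hgw hgm hσ s1 s2
    rw [e, e', mono_formA s1 s2 hmem]
  · obtain ⟨S, hS, p, n1, n2, hp, hp0, e⟩ := zB_class l1 l2 l3 hv1 (by omega)
    obtain ⟨S', hS', p', n1', n2', hp', hp0', e'⟩ := zB_class l1' l2' l3' (by omega) (by omega)
    obtain ⟨σ, hσ, s2, sp, s1, hmem⟩ := oct_trans_two_out hS hS' n2 hp (Ne.symm hp0) n1 n2' hp'
      (Ne.symm hp0') n1'
    apply z_finish hg0 hgu hgw hgm hσ s1 s2
    rw [e, e', mono_formB s2 sp hmem]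
  · obtain ⟨O, hO, p, n1, n2, hp, hpn, hp0, e⟩ := zC_class l1 l2 l3 hv1 (by omega)
    obtain ⟨O', hO', p', n1', n2', hp', hpn', hp0', e'⟩ :=
      zC_class l1' l2' l3' (by omega) (by omega)
    obtain ⟨σ, hσ, s1, s2, sp, hmem⟩ := oct_trans_three hO hO' n1 n2 hp (by simp) (Ne.symm hpn)
      (Ne.symm hp0) n1' n2' hp' (by simp) (Ne.symm hpn') (Ne.symm hp0')
    apply z_finish hg0 hgu hgw hgm hσ s1 s2
    rw [e, e', mono_formC sp hmem]
  · exfalso
    apply hne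
    rw [t3, hv1]
    norm_num

/-- Faithfulness on the attached set. -/
theorem z_faithful {v w m : leechLattice} (hv : sqNorm (v : GolayPt → ℤ) = 32)
    (hw : sqNorm (w : GolayPt → ℤ) = 32)
    (hvw : dotInt (v : GolayPt → ℤ) (w : GolayPt → ℤ) = -8) (hm : m ∈ zSet v w)
    {k : Equiv.Perm leechLattice} (hk : k ∈ Co0) (kv : k v = v) (kw : k w = w)
    (kH : ∀ y ∈ zSet v w, k y = y) : k = 1 := by
  classical
  obtain ⟨g0, hg0, hgu, hgw, hgm⟩ := z_nf v w m hv hw hvw hm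
  obtain ⟨σ, hσ, s1, s2, hkσ⟩ := z_stab_form hg0 hgu hgw hgm hk kv kw (kH m hm)
  have hC := z_class_card hv hw hvw hm 1
  rw [num_z462] at hC
  obtain ⟨y0, hy0, hd0⟩ : {y : leechLattice | y ∈ zSet v w ∧
      dotInt (m : GolayPt → ℤ) (y : GolayPt → ℤ) = 8 * 1 + 8}.Nonempty :=
    Set.nonempty_of_ncard_ne_zero (by rw [hC]; norm_num)
  obtain ⟨t1, t2, t3⟩ := z_frame hg0 hgu hgw hgm hy0
  obtain ⟨l1, l2, l3⟩ := (mem_dAll (Or.inl rfl) (by norm_num) _).mp t1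
  obtain ⟨O, hO, p, n1, n2, hp, hpn, hp0, e⟩ := zC_class l1 l2 l3 (by omega) (by omega)
  have hσ1 : σ = 1 := by
    apply Equiv.ext
    intro q
    by_cases hq1 : q = none
    · rw [hq1, s1]
      rfl
    by_cases hq2 : q = some 0
    · rw [hq2, s2]
      rfl
    obtain ⟨τ, hτ, r1, r2, r3⟩ := m24_trans3 (p := none) (p' := some 0) (p'' := p) (q := none)
      (q' := some 0) (q'' := q) (by simp) (Ne.symm hpn) (Ne.symm hp0) (by simp) (Ne.symm hq1)
      (Ne.symm hq2)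
    obtain ⟨f1, f2, f3⟩ := z_conj_fix hg0 hgu hgw hgm hτ r1 r2
    have hG : g0⁻¹ * permPerm τ hτ * g0 ∈ Co0 :=
      Co0.mul_mem (Co0.mul_mem (Co0.inv_mem hg0) (permPerm_mem τ hτ)) hg0
    have hy1 : (g0⁻¹ * permPerm τ hτ * g0) y0 ∈ zSet v w := by
      rw [← z_orbit hv hw hvw hy0]
      exact ⟨⟨⟨_, hG⟩, ⟨f1, f2⟩⟩, rfl⟩
    have hk1 := kH _ hy1
    have e0 : g0 ((g0⁻¹ * permPerm τ hτ * g0) y0) = permPerm τ hτ (g0 y0) := by
      show g0 (g0.symm (permPerm τ hτ (g0 y0))) = _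
      rw [Equiv.apply_symm_apply]
    have e1 : ((g0 ((g0⁻¹ * permPerm τ hτ * g0) y0) : leechLattice) : GolayPt → ℤ) =
        formC (O.image τ) q := by
      rw [e0, permPerm_coe, e]
      exact mono_formC r3 (fun x => by simp)
    have e2 : permPerm σ hσ (g0 ((g0⁻¹ * permPerm τ hτ * g0) y0)) =
        g0 ((g0⁻¹ * permPerm τ hτ * g0) y0) := by
      conv_rhs => rw [← hk1]
      rw [hkσ]
      show _ = g0 (g0.symm (permPerm σ hσ (g0 _)))
      rw [Equiv.apply_symm_apply]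
    have e3 := congrArg (fun z : leechLattice => (z : GolayPt → ℤ) (σ q)) e2
    rw [permPerm_apply, Equiv.symm_apply_apply, e1] at e3
    unfold formC at e3
    have hqO : q ∈ O.image τ := Finset.mem_image.mpr ⟨p, hp, r3⟩
    rw [if_pos hqO, if_pos rfl] at e3
    by_contra hne
    have hne' : ¬ σ q = q := hne
    rw [if_neg hne'] at e3
    split_ifs at e3 <;> omega
  subst hσ1
  rw [hkσ, permPerm_one]
  group

/-- Sets invariant under the stabiliser of a vector of the attached set. -/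
theorem z_inv {v w m : leechLattice} (hv : sqNorm (v : GolayPt → ℤ) = 32)
    (hw : sqNorm (w : GolayPt → ℤ) = 32)
    (hvw : dotInt (v : GolayPt → ℤ) (w : GolayPt → ℤ) = -8) (hm : m ∈ zSet v w)
    (S : Set leechLattice) (hmS : m ∈ S) (hS : S ⊆ zSet v w)
    (hinv : ∀ g : ↥Co0, g • v = v → g • w = w → g • m = m → ∀ s ∈ S, g • s ∈ S) :
    ∃ a b c : ℕ, (a = 0 ∨ a = 330) ∧ (b = 0 ∨ b = 1232) ∧ (c = 0 ∨ c = 462) ∧
      S.ncard = 1 + a + b + c := by
  have cA := z_class_card hv hw hvw hm (-1)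
  have cB := z_class_card hv hw hvw hm 0
  have cC := z_class_card hv hw hvw hm 1
  rw [num_z330] at cA
  rw [num_z1232] at cB
  rw [num_z462] at cC
  have a1 : sqNorm (m : GolayPt → ℤ) = 32 := hm.1
  have key : ∀ a : ℤ, a ≠ 3 → ∀ y ∈ S, y ∈ {y : leechLattice | y ∈ zSet v w ∧
      dotInt (m : GolayPt → ℤ) (y : GolayPt → ℤ) = 8 * a + 8} →
      {y : leechLattice | y ∈ zSet v w ∧
        dotInt (m : GolayPt → ℤ) (y : GolayPt → ℤ) = 8 * a + 8} ⊆ S := by
    rintro a ha y hy ⟨hyH, h8⟩ y' ⟨hyH', h8'⟩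
    obtain ⟨g, gv, gw, gm, gy⟩ := z_class_trans hv hw hvw hm hyH hyH' (by rw [h8]; omega)
      (by rw [h8, h8'])
    rw [← gy]
    exact hinv g gv gw gm y hy
  refine inv_card3 (H := zSet v w) (x := m) 330 1232 462 cA cB cC
    (Set.finite_of_ncard_ne_zero (by rw [cA]; norm_num))
    (Set.finite_of_ncard_ne_zero (by rw [cB]; norm_num))
    (Set.finite_of_ncard_ne_zero (by rw [cC]; norm_num)) ?_ ?_ ?_ ?_ ?_ ?_ ?_ hS hmS
    (key (-1) (by norm_num)) (key 0 (by norm_num)) (key 1 (by norm_num))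
  · intro y hy
    obtain ⟨g0, hg0, hgu, hgw, hgm⟩ := z_nf v w m hv hw hvw hm
    obtain ⟨t1, t2, t3⟩ := z_frame hg0 hgu hgw hgm hy
    rcases z_val t1 t2 with h | h | h | h
    · exact Or.inr (Or.inl ⟨hy, by rw [t3, h]⟩)
    · exact Or.inr (Or.inr (Or.inl ⟨hy, by rw [t3, h]⟩))
    · exact Or.inr (Or.inr (Or.inr ⟨hy, by rw [t3, h]⟩))
    · left
      exact (eq_of_dot32 a1 hy.1 (by rw [t3, h]; norm_num)).symm
  · rintro ⟨-, h8⟩
    rw [dotInt_self, a1] at h8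
    norm_num at h8
  · rintro ⟨-, h8⟩
    rw [dotInt_self, a1] at h8
    norm_num at h8
  · rintro ⟨-, h8⟩
    rw [dotInt_self, a1] at h8
    norm_num at h8
  · refine Set.disjoint_left.mpr ?_
    rintro y ⟨-, h1⟩ ⟨-, h2⟩
    rw [h1] at h2
    norm_num at h2
  · refine Set.disjoint_left.mpr ?_
    rintro y ⟨-, h1⟩ ⟨-, h2⟩
    rw [h1] at h2
    norm_num at h2
  · refine Set.disjoint_left.mpr ?_
    rintro y ⟨-, h1⟩ ⟨-, h2⟩
    rw [h1] at h2
    norm_num at h2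

/-- The stabiliser of two minimal vectors with inner product `-8` is simple of order
898128000. -/
theorem mcl_main (v w : leechLattice) (hv : sqNorm (v : GolayPt → ℤ) = 32)
    (hw : sqNorm (w : GolayPt → ℤ) = 32)
    (hvw : dotInt (v : GolayPt → ℤ) (w : GolayPt → ℤ) = -8) :
    IsSimpleGroup ↥(MulAction.stabilizer ↥Co0 v ⊓ MulAction.stabilizer ↥Co0 w) ∧
      Nat.card ↥(MulAction.stabilizer ↥Co0 v ⊓ MulAction.stabilizer ↥Co0 w) = 898128000 := by
  have hcard := z_card v w hv hw hvw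
  obtain ⟨m, hm⟩ : (zSet v w).Nonempty :=
    Set.nonempty_of_ncard_ne_zero (by rw [hcard]; norm_num)
  have hfin : Finite ↥Co0 := Nat.finite_of_card_ne_zero (by rw [card_co0]; norm_num)
  have horb := z_orbit hv hw hvw hm
  obtain ⟨hKs, hKc⟩ := z_stab hv hw hvw hm
  have hG : Nat.card ↥(MulAction.stabilizer ↥Co0 v ⊓ MulAction.stabilizer ↥Co0 w) =
      898128000 := by
    have h1 := Subgroup.index_mul_card (MulAction.stabilizer
      ↥(MulAction.stabilizer ↥Co0 v ⊓ MulAction.stabilizer ↥Co0 w) m)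
    rw [MulAction.index_stabilizer, horb, hcard, hKc] at h1
    rw [← h1]
  refine ⟨simple_rank4 m ?_ hKs hKc ?_ hG, hG⟩
  · intro n hn
    apply Subtype.ext
    apply Subtype.ext
    show (n.1.1 : Equiv.Perm leechLattice) = 1
    apply z_faithful hv hw hvw hm n.1.2 n.2.1 n.2.2
    intro y hy
    obtain ⟨g, gv, gw, gx⟩ := z_trans v w m y hv hw hvw hm hy
    have e := hn ⟨g, ⟨gv, gw⟩⟩
    rw [← gx]
    exact e
  · intro S hxS hSo hK
    rw [horb] at hSo
    apply z_inv hv hw hvw hm S hxS hSo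
    intro g gv gw gx s hs
    exact hK ⟨g, ⟨gv, gw⟩⟩ gx s hs

end Cfsg.Agent.Lib.Helper10
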