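import Mathlib
import Cfsg.Agent.Lib.Helper48.QADefs

/-!
# Piece QA-QRELONE of project QA (helper48, S2787): `rel_one`
-/

set_option autoImplicit false

universe u

namespace Cfsg.Agent.Lib.Helper48.QA

open Matrix Polynomial

local notation "M2" F => Matrix (Fin 2) (Fin 2) F

/-- QA-QRELONE -/
theorem rel_one {R : Type*} [Ring R] (N M : R) (hM : M * M = 0) (j : ℕ) (hj : 1 ≤ j)
    (he : (N * M) ^ j * (N * M) ^ j = (N * M) ^ j) (A : M2 ℤ[X])
    (h : Rel M (N * M) ((N * M) ^ j) 1 A) :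
    aeval (N * M) (A 0 0 - 1) * (N * M) ^ j = 0 ∧ aeval (N * M) (A 0 1) * (N * M) ^ j = 0 ∧
    aeval (N * M) (A 1 0) * (N * M) ^ j = 0 ∧ aeval (N * M) (A 1 1 - 1) * (N * M) ^ j = 0 := by
  obtain ⟨h1, h2⟩ := h
  obtain ⟨P, hP⟩ : ∃ P : R, P = N * M := ⟨_, rfl⟩
  rw [← hP] at h1 h2 he ⊢
  obtain ⟨e, hedef⟩ : ∃ e : R, e = P ^ j := ⟨_, rfl⟩
  rw [← hedef] at h1 h2 he ⊢
  have hcomm : ∀ f : ℤ[X], e * aeval P f = aeval P f * e := by
    intro f
    have h3 : e = aeval P (X ^ j : ℤ[X]) := by rw [hedef, aeval_X_pow]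
    rw [h3, ← map_mul, ← map_mul, mul_comm]
  obtain ⟨i, hi⟩ : ∃ i, j = i + 1 := ⟨j - 1, by omega⟩
  have heM : e * M = 0 := by
    rw [hedef, hi, pow_succ, hP, mul_assoc, mul_assoc, hM, mul_zero, mul_zero]
  obtain ⟨Q, hQ⟩ : ∃ Q : R, Q * M = e := ⟨P ^ i * N, by rw [hedef, hi, pow_succ, hP, mul_assoc]⟩
  rw [one_mul] at h1 h2
  have ha : aeval P (A 0 0) * e = e := by
    have h3 := congrArg (fun z => e * z) h1
    beta_reduce at h3
    rw [he, mul_add, ← mul_assoc e M, heM, zero_mul, add_zero, ← mul_assoc, hcomm, mul_assoc,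
      he] at h3
    exact h3.symm
  have hMc : M * (aeval P (A 1 0) * e) = 0 := by
    rw [ha] at h1
    exact left_eq_add.mp h1
  have hc : aeval P (A 1 0) * e = 0 := by
    have h3 := congrArg (fun z => Q * z) hMc
    beta_reduce at h3
    rw [← mul_assoc, hQ, mul_zero, ← mul_assoc, hcomm, mul_assoc, he] at h3
    exact h3
  have hb : aeval P (A 0 1) * e = 0 := by
    have h3 := congrArg (fun z => e * z) h2
    beta_reduce at h3
    rw [← mul_assoc, heM, zero_mul, mul_add, ← mul_assoc e M, heM, zero_mul, add_zero,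
      ← mul_assoc, hcomm, mul_assoc, he] at h3
    exact h3.symm
  have hd : aeval P (A 1 1) * e = e := by
    rw [hb, zero_add] at h2
    have h3 := congrArg (fun z => Q * z) h2
    beta_reduce at h3
    rw [← mul_assoc, hQ, he, ← mul_assoc, hQ, ← mul_assoc, hcomm, mul_assoc, he] at h3
    exact h3.symm
  refine ⟨?_, hb, hc, ?_⟩
  · rw [map_sub, map_one, sub_mul, one_mul, ha, sub_self]
  · rw [map_sub, map_one, sub_mul, one_mul, hd, sub_self]

end Cfsg.Agent.Lib.Helper48.QA
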