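import Mathlib

/-!
# Piece QB-CF3 of project QB (helper48, S2359): `cf_burnside`

Burnside's transfer theorem for a Sylow 2-subgroup with `N(V) ≤ C(V)`: a normal complement.
-/

set_option autoImplicit false

namespace Cfsg.Agent.Lib.Helper48.QB

-- QB-CF3  (Burnside transfer: Mathlib `MonoidHom.ker_transferSylow_isComplement'`)
theorem cf_burnside {C : Type*} [Group C] [Finite C] (V : Sylow 2 C)
    (hNC : Subgroup.normalizer ((V : Subgroup C) : Set C) ≤
      Subgroup.centralizer ((V : Subgroup C) : Set C)) :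
    ∃ K : Subgroup C, K.Normal ∧ K ⊓ (V : Subgroup C) = ⊥ ∧
      ∀ c : C, ∃ k ∈ K, ∃ v ∈ V, c = k * v := by
  haveI : Fact (Nat.Prime 2) := ⟨Nat.prime_two⟩
  have hcomp := MonoidHom.ker_transferSylow_isComplement' V hNC
  refine ⟨(MonoidHom.transferSylow V hNC).ker, inferInstance, ?_, ?_⟩
  · exact disjoint_iff.mp hcomp.disjoint
  · intro c
    obtain ⟨x, hx, -⟩ := (Subgroup.isComplement'_def.mp hcomp).existsUnique c
    exact ⟨x.1.1, x.1.2, x.2.1, x.2.2, hx.symm⟩

end Cfsg.Agent.Lib.Helper48.QB
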