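import Mathlib
import Cfsg.Agent.Lib.Helper18.SLMDefs

/-!
# Piece E3 of the SLM project (helper18, S2332): `ep_of_m1_3`

A transvection of `SL_3(F)` (`|F| ≥ 4`) fixing a non-zero vector `l` is a commutator of two
elements of `SL_3(F)` fixing `l`; hence it acts trivially on a one-dimensional weight space.
-/

set_option autoImplicit false

namespace Cfsg.Agent.Lib.Helper18.SLM

open Matrix

universe u

variable {F : Type u} [Field F]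

theorem e3_mm {n : ℕ} (x ξ y η : Fin n → F) :
    vecMulVec x ξ * vecMulVec y η = (ξ ⬝ᵥ y) • vecMulVec x η := by
  rw [vecMulVec_mul_vecMulVec, vecMulVec_smul]

theorem e3_det {n : ℕ} (x ξ : Fin n → F) : (1 + vecMulVec x ξ).det = 1 + ξ ⬝ᵥ x := by
  rw [vecMulVec_eq Unit, det_one_add_replicateCol_mul_replicateRow]

theorem e3_mv {n : ℕ} (x ξ l : Fin n → F) : (1 + vecMulVec x ξ) *ᵥ l = l + (ξ ⬝ᵥ l) • x := by
  rw [add_mulVec, one_mulVec, vecMulVec_mulVec]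
  congr 1
  ext i
  simp [mul_comm]

theorem e3_t [Fintype F] (hq : 4 ≤ Fintype.card F) : ∃ t : F, t ≠ 0 ∧ t ^ 2 - 1 ≠ 0 := by
  classical
  by_contra hcon
  push_neg at hcon
  have hsub : (Finset.univ : Finset F) ⊆ {0, 1, -1} := by
    intro t _
    by_cases h0 : t = 0
    · simp [h0]
    · have h := hcon t h0
      have h2 : (t - 1) * (t + 1) = 0 := by linear_combination h
      rcases mul_eq_zero.mp h2 with h3 | h3
      · have h4 : t = 1 := by linear_combination h3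
        simp [h4]
      · have h4 : t = -1 := by linear_combination h3
        simp [h4]
  have hc := Finset.card_le_card hsub
  rw [Finset.card_univ] at hc
  have h3 : ({0, 1, -1} : Finset F).card ≤ 3 := Finset.card_le_three
  omega

theorem e3_case1 (l a φ : Fin 3 → F) (hl : l ≠ 0) (hφ : φ ≠ 0) (hφa : φ ⬝ᵥ a = 0)
    (hφl : φ ⬝ᵥ l = 0) (hal : a ⨯₃ l = 0) :
    ∃ G₁ G₂ : Matrix (Fin 3) (Fin 3) F, G₁.det = 1 ∧ G₂.det = 1 ∧ G₁ *ᵥ l = l ∧ G₂ *ᵥ l = l ∧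
      (1 + vecMulVec a φ) * (G₂ * G₁) = G₁ * G₂ := by
  obtain ⟨i, hi⟩ : ∃ i, l i ≠ 0 := Function.ne_iff.mp hl
  obtain ⟨j, hj⟩ : ∃ j, φ j ≠ 0 := Function.ne_iff.mp hφ
  obtain ⟨w, hw⟩ : ∃ w : Fin 3 → F, w = Pi.single i 1 := ⟨_, rfl⟩
  obtain ⟨u, hu⟩ : ∃ u : Fin 3 → F, u = Pi.single j 1 := ⟨_, rfl⟩
  have hlw : l ⬝ᵥ w = l i := by rw [hw]; exact dotProduct_single_one l i
  have huφ : u ⬝ᵥ φ = φ j := by rw [hu]; exact single_one_dotProduct j φ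
  obtain ⟨b, hb⟩ : ∃ b : Fin 3 → F, b = φ ⨯₃ w := ⟨_, rfl⟩
  obtain ⟨α₀, hα₀⟩ : ∃ α₀ : Fin 3 → F, α₀ = l ⨯₃ u := ⟨_, rfl⟩
  have hκ : α₀ ⬝ᵥ b = -(l i * φ j) := by
    rw [hα₀, hb, cross_dot_cross, dotProduct_comm l φ, hφl, hlw, huφ]; ring
  have hκ0 : α₀ ⬝ᵥ b ≠ 0 := by rw [hκ]; exact neg_ne_zero.mpr (mul_ne_zero hi hj)
  have hα₀l : α₀ ⬝ᵥ l = 0 := by rw [hα₀, dotProduct_comm, dot_self_cross]
  have hα₀a : α₀ ⬝ᵥ a = 0 := by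
    rw [hα₀, dotProduct_comm, triple_product_permutation, triple_product_permutation, hal,
      dotProduct_zero]
  obtain ⟨α, hα⟩ : ∃ α : Fin 3 → F, α = (α₀ ⬝ᵥ b)⁻¹ • α₀ := ⟨_, rfl⟩
  have hαb : α ⬝ᵥ b = 1 := by rw [hα, smul_dotProduct, smul_eq_mul, inv_mul_cancel₀ hκ0]
  have hαl : α ⬝ᵥ l = 0 := by rw [hα, smul_dotProduct, hα₀l, smul_zero]
  have hαa : α ⬝ᵥ a = 0 := by rw [hα, smul_dotProduct, hα₀a, smul_zero]
  have hφb : φ ⬝ᵥ b = 0 := by rw [hb, dot_self_cross]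
  refine ⟨1 + vecMulVec a α, 1 + vecMulVec b φ, ?_, ?_, ?_, ?_, ?_⟩
  · rw [e3_det, hαa, add_zero]
  · rw [e3_det, hφb, add_zero]
  · rw [e3_mv, hαl, zero_smul, add_zero]
  · rw [e3_mv, hφl, zero_smul, add_zero]
  · have hAB : vecMulVec a α * vecMulVec b φ = vecMulVec a φ := by rw [e3_mm, hαb, one_smul]
    have hBA : vecMulVec b φ * vecMulVec a α = 0 := by rw [e3_mm, hφa, zero_smul]
    have hCB : vecMulVec a φ * vecMulVec b φ = 0 := by rw [e3_mm, hφb, zero_smul]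
    have hCA : vecMulVec a φ * vecMulVec a α = 0 := by rw [e3_mm, hφa, zero_smul]
    have h1 : (1 + vecMulVec b φ) * (1 + vecMulVec a α) = 1 + vecMulVec a α + vecMulVec b φ := by
      simp only [add_mul, mul_add, one_mul, mul_one, hBA, add_zero]; abel
    have h2 : (1 + vecMulVec a α) * (1 + vecMulVec b φ)
        = 1 + vecMulVec a α + vecMulVec b φ + vecMulVec a φ := by
      simp only [add_mul, mul_add, one_mul, mul_one, hAB]; abel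
    rw [h1, h2, add_mul, one_mul, mul_add, mul_add, hCA, hCB, mul_one, add_zero, add_zero]

theorem e3_case2 [Fintype F] (hq : 4 ≤ Fintype.card F) (l a φ : Fin 3 → F) (hφ : φ ≠ 0)
    (hφa : φ ⬝ᵥ a = 0) (hφl : φ ⬝ᵥ l = 0) (hal : a ⨯₃ l ≠ 0) :
    ∃ G₁ G₂ : Matrix (Fin 3) (Fin 3) F, G₁.det = 1 ∧ G₂.det = 1 ∧ G₁ *ᵥ l = l ∧ G₂ *ᵥ l = l ∧
      (1 + vecMulVec a φ) * (G₂ * G₁) = G₁ * G₂ := by
  obtain ⟨t, ht0, ht1⟩ : ∃ t : F, t ≠ 0 ∧ t ^ 2 - 1 ≠ 0 := e3_t hq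
  obtain ⟨i, hi⟩ : ∃ i, (a ⨯₃ l) i ≠ 0 := Function.ne_iff.mp hal
  obtain ⟨j, hj⟩ : ∃ j, φ j ≠ 0 := Function.ne_iff.mp hφ
  obtain ⟨w, hw⟩ : ∃ w : Fin 3 → F, w = Pi.single i 1 := ⟨_, rfl⟩
  obtain ⟨c, hc⟩ : ∃ c : Fin 3 → F, c = Pi.single j 1 := ⟨_, rfl⟩
  have hφc : φ ⬝ᵥ c = φ j := by rw [hc]; exact dotProduct_single_one φ j
  obtain ⟨α₀, hα₀⟩ : ∃ α₀ : Fin 3 → F, α₀ = l ⨯₃ w := ⟨_, rfl⟩
  have hκ : α₀ ⬝ᵥ a = (a ⨯₃ l) i := by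
    rw [hα₀, dotProduct_comm, triple_product_permutation, triple_product_permutation, hw]
    exact single_one_dotProduct i _
  obtain ⟨α, hα⟩ : ∃ α : Fin 3 → F, α = ((a ⨯₃ l) i)⁻¹ • α₀ := ⟨_, rfl⟩
  have hαa : α ⬝ᵥ a = 1 := by rw [hα, smul_dotProduct, hκ, smul_eq_mul, inv_mul_cancel₀ hi]
  have hαl : α ⬝ᵥ l = 0 := by
    rw [hα, smul_dotProduct, hα₀, dotProduct_comm, dot_self_cross, smul_zero]
  obtain ⟨γ, hγ⟩ : ∃ γ : Fin 3 → F, γ = (φ j)⁻¹ • φ := ⟨_, rfl⟩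
  have hγc : γ ⬝ᵥ c = 1 := by rw [hγ, smul_dotProduct, hφc, smul_eq_mul, inv_mul_cancel₀ hj]
  have hγa : γ ⬝ᵥ a = 0 := by rw [hγ, smul_dotProduct, hφa, smul_zero]
  have hγl : γ ⬝ᵥ l = 0 := by rw [hγ, smul_dotProduct, hφl, smul_zero]
  obtain ⟨P, hP⟩ : ∃ P : Matrix (Fin 3) (Fin 3) F, P = vecMulVec a α := ⟨_, rfl⟩
  obtain ⟨Q, hQ⟩ : ∃ Q : Matrix (Fin 3) (Fin 3) F, Q = vecMulVec c γ := ⟨_, rfl⟩
  obtain ⟨R, hR⟩ : ∃ R : Matrix (Fin 3) (Fin 3) F, R = vecMulVec a φ := ⟨_, rfl⟩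
  have hRP : R * P = 0 := by rw [hR, hP, e3_mm, hφa, zero_smul]
  have hRQ : R * Q = R := by
    rw [hR, hQ, e3_mm, hφc, hγ, vecMulVec_smul, smul_smul, mul_inv_cancel₀ hj, one_smul]
  have hPR : P * R = R := by rw [hP, hR, e3_mm, hαa, one_smul]
  have hQR : Q * R = 0 := by rw [hQ, hR, e3_mm, hγa, zero_smul]
  have hRR : R * R = 0 := by rw [hR, e3_mm, hφa, zero_smul]
  obtain ⟨D₁, hD₁⟩ : ∃ D₁ : Matrix (Fin 3) (Fin 3) F, D₁ = 1 + (t - 1) • P := ⟨_, rfl⟩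
  obtain ⟨D₂, hD₂⟩ : ∃ D₂ : Matrix (Fin 3) (Fin 3) F, D₂ = 1 + (t⁻¹ - 1) • Q := ⟨_, rfl⟩
  have hdet1 : D₁.det = t := by
    rw [hD₁, hP, ← smul_vecMulVec, e3_det, dotProduct_smul, hαa, smul_eq_mul, mul_one]; ring
  have hdet2 : D₂.det = t⁻¹ := by
    rw [hD₂, hQ, ← smul_vecMulVec, e3_det, dotProduct_smul, hγc, smul_eq_mul, mul_one]; ring
  have hD₁l : D₁ *ᵥ l = l := by
    rw [hD₁, hP, ← smul_vecMulVec, e3_mv, hαl, zero_smul, add_zero]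
  have hD₂l : D₂ *ᵥ l = l := by
    rw [hD₂, hQ, ← smul_vecMulVec, e3_mv, hγl, zero_smul, add_zero]
  have hRM : R * (D₁ * D₂) = t⁻¹ • R := by
    rw [← mul_assoc, hD₁, mul_add, mul_one, mul_smul_comm, hRP, smul_zero, add_zero, hD₂,
      mul_add, mul_one, mul_smul_comm, hRQ, sub_smul, one_smul]
    abel
  have hMR : (D₁ * D₂) * R = t • R := by
    rw [mul_assoc, hD₂, add_mul, one_mul, smul_mul_assoc, hQR, smul_zero, add_zero, hD₁,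
      add_mul, one_mul, smul_mul_assoc, hPR, sub_smul, one_smul]
    abel
  refine ⟨D₁ * D₂, 1 + (t ^ 2 - 1)⁻¹ • R, ?_, ?_, ?_, ?_, ?_⟩
  · rw [det_mul, hdet1, hdet2, mul_inv_cancel₀ ht0]
  · rw [hR, ← vecMulVec_smul, e3_det, smul_dotProduct, hφa, smul_zero, add_zero]
  · rw [← mulVec_mulVec, hD₂l, hD₁l]
  · rw [hR, ← vecMulVec_smul, e3_mv, smul_dotProduct, hφl, smul_zero, zero_smul, add_zero]
  · obtain ⟨M, hM⟩ : ∃ M : Matrix (Fin 3) (Fin 3) F, M = D₁ * D₂ := ⟨_, rfl⟩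
    rw [← hM] at hRM hMR ⊢
    rw [← hR]
    obtain ⟨τ, hτ⟩ : ∃ τ : F, τ = (t ^ 2 - 1)⁻¹ := ⟨_, rfl⟩
    rw [← hτ]
    have e1 : (1 + τ • R) * M = M + (τ * t⁻¹) • R := by
      rw [add_mul, one_mul, smul_mul_assoc, hRM, smul_smul]
    have e2 : M * (1 + τ • R) = M + (τ * t) • R := by
      rw [mul_add, mul_one, mul_smul_comm, hMR, smul_smul]
    rw [e1, e2, add_mul, one_mul, mul_add, hRM, mul_smul_comm, hRR, smul_zero, add_zero,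
      add_right_comm, add_assoc, ← add_smul]
    congr 2
    rw [hτ]
    field_simp
    ring

theorem e3_comm {V : Type*} [AddCommGroup V] [Module ℂ V] (ψ : AddChar F ℂ)
    (ρ : Representation ℂ (Matrix.SpecialLinearGroup (Fin 4) F) V)
    (hmap : ∀ (g : Matrix.SpecialLinearGroup (Fin 3) F) (l : Fin 3 → F), ∀ v ∈ wt ψ ρ l,
      ρ (lev g) v ∈ wt ψ ρ ((g : Matrix (Fin 3) (Fin 3) F) *ᵥ l))
    (l : Fin 3 → F) (h1 : Module.finrank ℂ (wt ψ ρ l) = 1)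
    (g g₁ g₂ : Matrix.SpecialLinearGroup (Fin 3) F)
    (h₁ : (g₁ : Matrix (Fin 3) (Fin 3) F) *ᵥ l = l)
    (h₂ : (g₂ : Matrix (Fin 3) (Fin 3) F) *ᵥ l = l)
    (hg : g * (g₂ * g₁) = g₁ * g₂) : ∀ v ∈ wt ψ ρ l, ρ (lev g) v = v := by
  intro v hv
  have st : ∀ h : Matrix.SpecialLinearGroup (Fin 3) F,
      (h : Matrix (Fin 3) (Fin 3) F) *ᵥ l = l → ∀ w ∈ wt ψ ρ l, ρ (lev h) w ∈ wt ψ ρ l := by
    intro h hh w hw
    have h3 := hmap h l w hw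
    rwa [hh] at h3
  obtain ⟨v₀, -, hspan⟩ := finrank_eq_one_iff'.mp h1
  have scal : ∀ h : Matrix.SpecialLinearGroup (Fin 3) F,
      (h : Matrix (Fin 3) (Fin 3) F) *ᵥ l = l →
      ∃ c : ℂ, ∀ w ∈ wt ψ ρ l, ρ (lev h) w = c • w := by
    intro h hh
    obtain ⟨c, hc⟩ := hspan ⟨ρ (lev h) v₀, st h hh v₀ v₀.2⟩
    refine ⟨c, fun w hw => ?_⟩
    obtain ⟨d, hd⟩ := hspan ⟨w, hw⟩
    have hd' : w = d • (v₀ : V) := (congrArg Subtype.val hd).symm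
    have hc' : ρ (lev h) v₀ = c • (v₀ : V) := (congrArg Subtype.val hc).symm
    rw [hd', map_smul, hc', smul_comm]
  obtain ⟨c₁, hc₁⟩ := scal g₁ h₁
  obtain ⟨c₂, hc₂⟩ := scal g₂ h₂
  have hh : ((g₂ * g₁ : Matrix.SpecialLinearGroup (Fin 3) F) : Matrix (Fin 3) (Fin 3) F) *ᵥ l
      = l := by
    rw [Matrix.SpecialLinearGroup.coe_mul, ← mulVec_mulVec, h₁, h₂]
  have hhi : (((g₂ * g₁)⁻¹ : Matrix.SpecialLinearGroup (Fin 3) F) :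
      Matrix (Fin 3) (Fin 3) F) *ᵥ l = l := by
    conv_lhs => rw [← hh]
    rw [mulVec_mulVec, ← Matrix.SpecialLinearGroup.coe_mul, inv_mul_cancel,
      Matrix.SpecialLinearGroup.coe_one, one_mulVec]
  obtain ⟨w, hw⟩ : ∃ w : V, w = ρ (lev (g₂ * g₁)⁻¹) v := ⟨_, rfl⟩
  have hwL : w ∈ wt ψ ρ l := by rw [hw]; exact st _ hhi v hv
  have hv' : v = ρ (lev (g₂ * g₁)) w := by
    rw [hw, ← Module.End.mul_apply, ← map_mul, ← map_mul, mul_inv_cancel, map_one, map_one]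
    rfl
  have e1 : ρ (lev (g₂ * g₁)) w = (c₂ * c₁) • w := by
    rw [map_mul, map_mul, Module.End.mul_apply, hc₁ w hwL, map_smul, hc₂ w hwL, smul_smul,
      mul_comm]
  have e2 : ρ (lev (g₁ * g₂)) w = (c₂ * c₁) • w := by
    rw [map_mul, map_mul, Module.End.mul_apply, hc₂ w hwL, map_smul, hc₁ w hwL, smul_smul,
      mul_comm]
  calc ρ (lev g) v = ρ (lev g) (ρ (lev (g₂ * g₁)) w) := by rw [← hv']
    _ = ρ (lev (g * (g₂ * g₁))) w := by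
        rw [map_mul lev g, map_mul ρ]; rfl
    _ = ρ (lev (g₁ * g₂)) w := by rw [hg]
    _ = (c₂ * c₁) • w := e2
    _ = ρ (lev (g₂ * g₁)) w := e1.symm
    _ = v := hv'.symm

variable [Fintype F]

-- piece E3
theorem ep_of_m1_3 {V : Type*} [AddCommGroup V] [Module ℂ V] (ψ : AddChar F ℂ)
    (hq : 4 ≤ Fintype.card F) (ρ : Representation ℂ (Matrix.SpecialLinearGroup (Fin 4) F) V)
    (hM : M1 ψ ρ)
    (hmap : ∀ (g : Matrix.SpecialLinearGroup (Fin 3) F) (l : Fin 3 → F), ∀ v ∈ wt ψ ρ l,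
      ρ (lev g) v ∈ wt ψ ρ ((g : Matrix (Fin 3) (Fin 3) F) *ᵥ l)) :
    EP ψ ρ := by
  intro l hl g hg hgl v hv
  obtain ⟨a, φ, hφa, hgm⟩ := hg
  have triv : (g : Matrix (Fin 3) (Fin 3) F) = 1 → ρ (lev g) v = v := by
    intro h1
    have h2 : g = 1 := Subtype.ext (by rw [h1]; rfl)
    rw [h2, map_one, map_one]
    rfl
  by_cases ha : a = 0
  · exact triv (by rw [hgm, ha]; simp)
  by_cases hφ : φ = 0
  · exact triv (by rw [hgm, hφ]; simp)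
  have hφl : φ ⬝ᵥ l = 0 := by
    have h := hgl
    rw [hgm, e3_mv] at h
    have h3 : (φ ⬝ᵥ l) • a = 0 := by
      have h4 : l + (φ ⬝ᵥ l) • a = l + 0 := by rw [h, add_zero]
      exact add_left_cancel h4
    rcases smul_eq_zero.mp h3 with h5 | h5
    · exact h5
    · exact absurd h5 ha
  have key : ∃ G₁ G₂ : Matrix (Fin 3) (Fin 3) F, G₁.det = 1 ∧ G₂.det = 1 ∧ G₁ *ᵥ l = l ∧
      G₂ *ᵥ l = l ∧ (1 + vecMulVec a φ) * (G₂ * G₁) = G₁ * G₂ := by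
    by_cases hal : a ⨯₃ l = 0
    · exact e3_case1 l a φ hl hφ hφa hφl hal
    · exact e3_case2 hq l a φ hφ hφa hφl hal
  obtain ⟨G₁, G₂, d₁, d₂, f₁, f₂, hc⟩ := key
  refine e3_comm ψ ρ hmap l (hM l hl) g ⟨G₁, d₁⟩ ⟨G₂, d₂⟩ f₁ f₂ (Subtype.ext ?_) v hv
  show (g : Matrix (Fin 3) (Fin 3) F) * (G₂ * G₁) = G₁ * G₂
  rw [hgm]
  exact hc

end Cfsg.Agent.Lib.Helper18.SLM
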