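import Mathlib
import Cfsg.Agent.Lib.Helper18.LSDefs
import Cfsg.Agent.Lib.Helper18.WRDefs

/-! Project WR (helper18, S2347), piece WREL: the relations of the Weyl operators. -/

set_option autoImplicit false

namespace Cfsg.Agent.Lib.Helper18.WR

open Matrix

universe u

variable {F : Type u} [Field F] {n : ℕ}

theorem W_zero (ψ : AddChar F ℂ) : W ψ (0 : Fin n ⊕ Fin n → F) = 1 := by
  apply LinearMap.ext
  intro f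
  funext x
  rw [W_apply]
  have e1 : (0 : Fin n ⊕ Fin n → F) ∘ Sum.inl = 0 := rfl
  have e2 : (0 : Fin n ⊕ Fin n → F) ∘ Sum.inr = 0 := rfl
  rw [e1, e2, zero_dotProduct, zero_dotProduct, mul_zero, add_zero, AddChar.map_zero_eq_one,
    one_mul, add_zero]
  rfl

theorem W_mul (h2 : (2 : F) ≠ 0) (ψ : AddChar F ℂ) (u v : Fin n ⊕ Fin n → F) :
    W ψ u * W ψ v = coc ψ u v • W ψ (u + v) := by
  apply LinearMap.ext
  intro f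
  funext x
  rw [Module.End.mul_apply, W_apply, W_apply, LinearMap.smul_apply, Pi.smul_apply, W_apply,
    smul_eq_mul]
  unfold coc
  rw [sform_eq]
  have e1 : (u + v) ∘ Sum.inl = u ∘ Sum.inl + v ∘ Sum.inl := rfl
  have e2 : (u + v) ∘ Sum.inr = u ∘ Sum.inr + v ∘ Sum.inr := rfl
  have h22 : (2 : F)⁻¹ + 2⁻¹ = 1 := by
    rw [← two_mul, mul_inv_cancel₀ h2]
  have hc : (u ∘ Sum.inl) ⬝ᵥ (v ∘ Sum.inr) = (v ∘ Sum.inr) ⬝ᵥ (u ∘ Sum.inl) := dotProduct_comm _ _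
  have key : (u ∘ Sum.inr) ⬝ᵥ x + 2⁻¹ * ((u ∘ Sum.inl) ⬝ᵥ (u ∘ Sum.inr)) +
      ((v ∘ Sum.inr) ⬝ᵥ (x + u ∘ Sum.inl) + 2⁻¹ * ((v ∘ Sum.inl) ⬝ᵥ (v ∘ Sum.inr))) =
      2⁻¹ * ((v ∘ Sum.inr) ⬝ᵥ (u ∘ Sum.inl) - (v ∘ Sum.inl) ⬝ᵥ (u ∘ Sum.inr)) +
      ((u ∘ Sum.inr + v ∘ Sum.inr) ⬝ᵥ x +
        2⁻¹ * ((u ∘ Sum.inl + v ∘ Sum.inl) ⬝ᵥ (u ∘ Sum.inr + v ∘ Sum.inr))) := by
    simp only [dotProduct_add, add_dotProduct]
    rw [hc]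
    linear_combination (-((v ∘ Sum.inr) ⬝ᵥ (u ∘ Sum.inl))) * h22
  rw [e1, e2, ← mul_assoc, ← mul_assoc, ← AddChar.map_add_eq_mul, ← AddChar.map_add_eq_mul, key,
    add_assoc]

theorem W_mul_neg (h2 : (2 : F) ≠ 0) (ψ : AddChar F ℂ) (u : Fin n ⊕ Fin n → F) :
    W ψ u * W ψ (-u) = 1 := by
  rw [W_mul h2, add_neg_cancel, W_zero]
  unfold coc
  rw [sform_eq]
  have e1 : (-u) ∘ Sum.inl = -(u ∘ Sum.inl) := rfl
  have e2 : (-u) ∘ Sum.inr = -(u ∘ Sum.inr) := rfl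
  rw [e1, e2, neg_dotProduct, neg_dotProduct, dotProduct_comm (u ∘ Sum.inr) (u ∘ Sum.inl),
    sub_self, mul_zero, AddChar.map_zero_eq_one, one_smul]

end Cfsg.Agent.Lib.Helper18.WR
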